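import Cfsg.Agent.H11.SimDSpec

/-! S3694 (tower SIM), chapter D: job DEb. -/

set_option autoImplicit false

namespace H74.SimDEb

open Subgroup Cfsg H98 Matrix H0.Sim H11.SimD

variable {n : ℕ} {F : Type} [Field F] {j : Jm n F}

theorem th_eq (ha : j.a = true) (m : Mt n F) :
    th j m = (j.c : Mt n F) * (m.map j.σ)ᵀ * ((j.c⁻¹ : GL (Fin n) F) : Mt n F) := by
  simp [th, ha]

theorem th_sub_one (ha : j.a = true) (m : Mt n F) : th j (m - 1) = th j m - 1 := by
  rw [th_eq ha, th_eq ha, conj_sub_one]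
  congr 2
  ext i k
  simp only [transpose_apply, map_apply, Matrix.sub_apply, map_sub, Matrix.one_apply]
  by_cases h : i = k
  · simp [h]
  · simp [h, Ne.symm h]

theorem th_pow (ha : j.a = true) (m : Mt n F) (k : ℕ) : th j (m ^ k) = th j m ^ k := by
  rw [th_eq ha, th_eq ha, Units.conj_pow, ← transpose_pow]
  congr 3
  exact map_pow (RingHom.mapMatrix (j.σ : F →+* F)) m k

theorem th_zero (ha : j.a = true) : th j 0 = 0 := by
  rw [th_eq ha]
  simp

theorem nil_iff (ha : j.a = true) (m : Mt n F) : IsNilpotent (th j m - 1) ↔ IsNilpotent (m - 1) := by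
  rw [← th_sub_one ha]
  constructor
  · rintro ⟨k, hk⟩
    exact ⟨k, th_inj j (by rw [th_pow ha, hk, th_zero ha])⟩
  · rintro ⟨k, hk⟩
    exact ⟨k, by rw [← th_pow ha, hk, th_zero ha]⟩

theorem key (ha : j.a = true) (m : Mt n F) (x v : Fin n → F) :
    (fun i => j.σ ((m *ᵥ x) i)) ⬝ᵥ (((j.c⁻¹ : GL (Fin n) F) : Mt n F) *ᵥ v) =
      (fun i => j.σ (x i)) ⬝ᵥ (((j.c⁻¹ : GL (Fin n) F) : Mt n F) *ᵥ (th j m *ᵥ v)) := by
  have e : (fun i => j.σ ((m *ᵥ x) i)) = (m.map j.σ) *ᵥ (fun i => j.σ (x i)) := by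
    ext i
    exact RingHom.map_mulVec (j.σ : F →+* F) m x i
  rw [e, th_eq ha, ← mulVec_mulVec, ← mulVec_mulVec, inv_mulVec, dotProduct_mulVec (fun i => j.σ (x i)),
    vecMul_transpose]

theorem nondeg (w : Fin n → F)
    (h : ∀ x : Fin n → F, (fun i => j.σ (x i)) ⬝ᵥ (((j.c⁻¹ : GL (Fin n) F) : Mt n F) *ᵥ w) = 0) :
    w = 0 := by
  have : ((j.c⁻¹ : GL (Fin n) F) : Mt n F) *ᵥ w = 0 := by
    ext i
    have := h (fun k => j.σ.symm ((Pi.single i 1 : Fin n → F) k))
    simp only [RingEquiv.apply_symm_apply] at this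
    rwa [single_one_dotProduct] at this
  rw [← mulVec_inv j.c w, this, mulVec_zero]

theorem jobD_DEb : H11.SimD.JobDEb := by
  intro dea n F _ _ j ha
  have s1 : ∀ (m : Mt n F) (U : Submodule F (Fin n → F)),
      (∀ x, m *ᵥ x ∈ U) → ∀ x ∈ del j U, th j m *ᵥ x = 0 := fun m U h v hv =>
    nondeg (j := j) _ fun x => by rw [← key ha]; exact hv _ (h x)
  refine ⟨fun A => ⟨dea n F j ha A, le_antisymm (fun v hv x hx => ?_) ?_⟩, fun m U => ⟨s1 m U, ?_⟩⟩
  · induction hx using Submodule.span_induction with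
    | mem x hx =>
      obtain ⟨m, hm, hn, y, rfl⟩ := hx
      rw [key ha, th_sub_one ha, hv _ ⟨m, hm, rfl⟩ ((nil_iff ha m).2 hn), mulVec_zero, dotProduct_zero]
    | zero => simp [dotProduct]
    | add a b _ _ h1 h2 =>
      have : (fun i => j.σ ((a + b) i)) = (fun i => j.σ (a i)) + fun i => j.σ (b i) := by
        ext i; simp
      rw [this, add_dotProduct, h1, h2, add_zero]
    | smul c a _ h1 =>
      have : (fun i => j.σ ((c • a) i)) = j.σ c • fun i => j.σ (a i) := by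
        ext i; simp
      rw [this, smul_dotProduct, h1, smul_zero]
  · rintro v hv _ ⟨m, hm, rfl⟩ hn
    rw [← th_sub_one ha]
    exact s1 _ _ (mem_IS hm ((nil_iff ha m).1 hn)) v hv
  · intro h v x hx
    rw [← key ha, h x hx]
    simp [dotProduct]

end H74.SimDEb
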