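/- U4 tower (row S5210), slot L0: level 0 of the essential subgroups. -/
import Cfsg.Agent.H28.U4Gen

set_option autoImplicit false
set_option linter.unusedSectionVars false
set_option linter.unusedSimpArgs false
set_option linter.unusedVariables false
set_option linter.unnecessarySeqFocus false

open Subgroup H90.RF H92 Cfsg H28.U4
open H90.U5 (BF DD Bq)

universe v

namespace H74.U4L

variable {K : Type*} [Field K] [Finite K] {T : BF K} {E M : Subgroup (Co T)} {p : ℕ}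

theorem σ_ne {x : K} (h : x ≠ 0) : T.σ x ≠ 0 := (map_ne_zero _).2 h

theorem cen0 (h : Bq p (zA T) 0 E M) {s m : Co T} (hs : s ∈ E) (hm : m ∈ M) : cm s m = 1 :=
  mem_bot.1 ((h.cen s).1 hs m hm)

theorem mem0 (h : Bq p (zA T) 0 E M) {s : Co T} (k : ∀ m ∈ M, cm s m = 1) : s ∈ E :=
  (h.cen s).2 fun m hm => mem_bot.2 (k m hm)

theorem Z_le0 (h : Bq p (zA T) 0 E M) : sZ T ≤ E := h.le.trans h.ME

theorem not_Z (h : Bq p (zA T) 0 E M) : ¬ M ≤ sZ T :=
  h.not_le fun c hc s => mem_bot.2 (cm_one s hc)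

theorem cm_one_of {s m : Co T} (hc : (cm s m).c = 0) (hd : (cm s m).d = 0) : cm s m = 1 :=
  Co.ext (cm_a _ _) (cm_b _ _) hc hd

theorem covZ {x : Co T} {U : Subgroup (Co T)} (h : x ∈ sZ T) :
    ∃ l : T.κ, (xd T l l.2)⁻¹ * x ∈ U :=
  ⟨⟨x.d, A_d h.1⟩, by
    rw [eq_of_Z (u := xd T x.d (A_d h.1)) ⟨rfl, rfl, rfl⟩ h rfl, inv_mul_cancel]; exact one_mem _⟩

/-! ### An element outside `A` and `Q` -/

theorem cen_par {m s : Co T} (hb : m.b ≠ 0) (e : cm s m = 1) : ∃ l, T.σ l = l ∧ s.a = l * m.a ∧ s.b = l * m.b ∧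
    m.a * T.σ s.c + T.σ m.a * s.c =
      l * (m.a * T.σ m.c + T.σ m.a * m.c) + m.a * T.σ m.a * m.b * (l ^ 2 - l) := by
  have e1 := congrArg Co.c e
  have e2 := congrArg Co.d e
  rw [cm_c, Co.one_c] at e1
  have hl : T.σ (s.b / m.b) = s.b / m.b := by rw [map_div₀, s.hb, m.hb]
  have h2 : s.b = s.b / m.b * m.b := by field_simp
  have h1 : s.a = s.b / m.b * m.a := by field_simp; linear_combination e1
  refine ⟨_, hl, h1, h2, ?_⟩
  generalize s.b / m.b = l at hl h1 h2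
  rw [cm_d, Co.one_d] at e2
  simp only [bf, Co.π, h1, h2, map_mul, hl] at e2
  linear_combination -e2

theorem cen_ab {m s s' : Co T} (hb : m.b ≠ 0) (e : cm s m = 1) (e' : cm s' m = 1) : cm s s' = 1 := by
  obtain ⟨l, hl, h1, h2, h3⟩ := cen_par hb e
  obtain ⟨l', hl', h1', h2', h3'⟩ := cen_par hb e'
  refine cm_one_of (by rw [cm_c, h1, h2, h1', h2']; ring) ?_
  rw [cm_d]
  simp only [bf, Co.π, h1, h2, h1', h2', map_mul, hl, hl']
  linear_combination l * h3' - l' * h3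

theorem case_ab [Fact p.Prime] [CharP K p] (h : Bq p (zA T) 0 E M) {m : Co T} (hm : m ∈ M) (ha : m.a ≠ 0)
    (hb : m.b ≠ 0) : (2 : K) ≠ 0 ∧ E = centralizer {m} := by
  refine ⟨fun two => ?_, le_antisymm
    (fun s hs => mem_centralizer_singleton_iff.2 (cm_eq_one.1 (cen0 h hs hm))) fun s hs => mem0 h fun m' hm' =>
      cen_ab hb (cm_eq_one.2 (mem_centralizer_singleton_iff.1 hs)) (cen0 h (h.ME hm') hm)⟩
  obtain rfl : p = 2 := (Nat.prime_dvd_prime_iff_eq Fact.out Nat.prime_two).1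
    ((CharP.cast_eq_zero_iff K p 2).1 (by exact_mod_cast two))
  have e := congrArg Co.c (mem_bot.1 (h.pw m hm))
  rw [pow_two, Co.mul_c, Co.one_c] at e
  exact mul_ne_zero ha hb (by linear_combination e - m.c * two)

/-! ### An element of `Q` outside `A` -/

theorem no_a (h : Bq p (zA T) 0 E M) {m : Co T} (hm : m ∈ M) (ha : m.a ≠ 0) (hb : m.b = 0) : False := by
  have hE : E ≤ sQ T := fun s hs => by
    have := congrArg Co.c (cen0 h hs hm)
    simpa [mem_sQ, cm_c, hb, ha] using this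
  have mX : ∀ s, s ∈ sQ T ⊓ centralizer {m} ↔ s ∈ sQ T ∧ bf T s.π m.π = 0 := fun s => by
    rw [mem_inf, mem_centralizer_singleton_iff, ← cm_eq_one]
    refine and_congr_right fun hs => ?_
    rw [← cm_dQ hs hb]
    exact ⟨fun e => congrArg Co.d e, fun e => eq_of_Z (cm_Q hs hb) (one_mem _) e⟩
  obtain ⟨t, ht⟩ := exists_tr_ne (T := T) ha
  have hX := h.full (B := sQ T) (X := sQ T ⊓ centralizer {m})
    (le_nor fun s hs c hc => Z_le0 h (cm_Q hs (hE hc)))
    (fun x _ y hy m hm => mem_bot.2 (cm_one x (cm_Q hy (hE (h.ME hm)))))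
    (s := xc T t) rfl (fun k => ?_)
    (fun x hx k => ⟨hx, mem_centralizer_singleton_iff.2 (cm_eq_one.1 (cen0 h k hm))⟩) inf_le_left
    (fun l : T.κ => xc T (l * t)) (fun l => xd T l l.2) (fun _ => rfl)
    (fun x y k => ?_) fun m hm => covZ (cm_Q rfl (hE (h.ME hm)))
  · have ha' := σ_ne (T := T) ha
    have hw : ∀ a, w1 T (a, T.σ a * m.c / T.σ m.a) ∈ E := fun a => hX ((mX _).2 ⟨rfl, by
      simp only [w1_π, bf, Co.π, w1, map_div₀, map_mul, T.sq]; field_simp; ring⟩)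
    have hv : xc T (T.ε * m.a) ∈ E := hX ((mX _).2 ⟨rfl, by
      simp only [bf, Co.π, xc, map_mul, T.σε]; simp; ring⟩)
    refine not_Z h (h.gen_le fun β hβ u hu _ => ?_)
    have hε := T.ε_ne
    rw [eq_of_Z hu (cm_Q (w1_mem (-(u.d / (T.ε ^ 2 * T.σ m.a)) * T.ω,
      T.σ (-(u.d / (T.ε ^ 2 * T.σ m.a)) * T.ω) * m.c / T.σ m.a)) (m := xc T (T.ε * m.a)) rfl) ?_,
      hβ.1.cm (hw _) hv]
    · exact cm_Q (hE (hβ.1.mem _ (hw _))) (hE (hβ.1.mem _ hv))
    · rw [cm_dA _ rfl]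
      simp only [w1, xc, map_mul, map_neg, map_div₀, map_pow, T.σε, T.sq, A_d hu.1]
      have : T.σ T.ω = T.ω - T.ε := by rw [BF.ε]; ring
      rw [this]
      field_simp
      ring
  · have := congrArg Co.d (cen0 h k hm)
    rw [cm_dA' rfl] at this
    simp only [xc, Co.one_d] at this
    exact ht (by linear_combination -this)
  · have := ((mX _).1 k).2
    simp [bf, Co.π, xc, x.2, y.2] at this
    refine Subtype.ext (mul_right_cancel₀ ht ?_)
    linear_combination this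

/-! ### `M ≤ A` -/

theorem keepA (hA : sA T ≤ E) {a0 : K} (hE : ∀ s ∈ E, ∃ l : T.κ, s.a = l * a0) {β : Co T → Co T}
    (hβ : Au E β) : Pr β (sA T) := fun u hu => by
  by_contra ha
  have ha : (β u).a ≠ 0 := ha
  obtain ⟨t, ht⟩ := exists_tr_ne (T := T) ha
  have key : ∀ x : T.κ × T.κ, ∃ l : T.κ,
      cm (va T x.1 (x.2 * t) 0 x.1.2 (map_zero _)) (β u) = β (cm (xa T (l * a0)) u) := fun x => by
    obtain ⟨s, hs, e⟩ := hβ.sur (va T x.1 (x.2 * t) 0 x.1.2 (map_zero _)) (hA rfl)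
    obtain ⟨l, hl⟩ := hE s hs
    exact ⟨l, by rw [← e, ← hβ.cm hs (hA hu), cm, cm, cj_xa s hu, hl]⟩
  choose f hf using key
  have inj : Function.Injective f := fun x y e => by
    have k := (hf x).trans (e ▸ (hf y).symm)
    have k1 := congrArg Co.c k
    have k2 := congrArg Co.d k
    rw [cm_c, cm_c] at k1
    rw [cm_dA' rfl, cm_dA' rfl] at k2
    simp only [va, map_mul, x.2.2, y.2.2] at k1 k2
    have e1 : (x.1 : K) = y.1 := mul_left_cancel₀ ha (by linear_combination -k1)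
    rw [e1] at k2
    exact Prod.ext (Subtype.ext e1) (Subtype.ext (mul_right_cancel₀ ht (by linear_combination -k2)))
  have := Nat.card_le_card_of_injective f inj
  have h2 := Finite.one_lt_card (α := T.κ)
  rw [Nat.card_prod] at this
  nlinarith

theorem case_A (zx : (2 : K) = 0 → G2 T → ZX T) (h : Bq p (zA T) 0 E M) (hM : M ≤ sA T) :
    E = sA T ∨ (¬ G2 T ∧ (2 : K) = 0 ∧ ∃ c, c ≠ 0 ∧ E = cE T c) := by
  have hA : sA T ≤ E := fun s hs => mem0 h fun m hm => cm_eq_one.2 (comm_A hs (hM hm))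
  by_cases hE : E ≤ sA T
  · exact Or.inl (le_antisymm hE hA)
  right
  obtain ⟨x, hx, ha⟩ := SetLike.not_le_iff_exists.1 hE
  have ha : x.a ≠ 0 := ha
  have ha' := σ_ne (T := T) ha
  have hb : ∀ m ∈ M, m.b = 0 := fun m hm => by
    have := congrArg Co.c (cen0 h hx hm)
    have h0 : m.a = 0 := hM hm
    simpa [cm_c, h0, ha] using this
  have htr : ∀ s ∈ E, ∀ m ∈ M, s.a * T.σ m.c + T.σ s.a * m.c = 0 := fun s hs m hm => by
    have := congrArg Co.d (cen0 h hs hm)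
    rw [cm_dA s (hM hm), hb m hm] at this
    simpa using this
  obtain ⟨m0, hm0, hz⟩ := SetLike.not_le_iff_exists.1 (not_Z h)
  have hc : m0.c ≠ 0 := fun e => hz ⟨hM hm0, hb _ hm0, e⟩
  have par : ∀ a, a * T.σ m0.c + T.σ a * m0.c = 0 → ∃ l : T.κ, a = l * x.a := fun a e =>
    T.exists_mul ha (mul_left_cancel₀ hc (by linear_combination a * htr x hx m0 hm0 - x.a * e))
  have hpar : ∀ s ∈ E, ∃ l : T.κ, s.a = l * x.a := fun s hs => par _ (htr s hs m0 hm0)
  have back : ∀ s : Co T, (∃ l : T.κ, s.a = l * x.a) → s ∈ E := fun s ⟨l, hl⟩ => mem0 h fun m hm =>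
    cm_one_of (by simp [cm_c, hb m hm, show m.a = 0 from hM hm]) (by
      rw [cm_dA s (hM hm), hb m hm, hl, map_mul, l.2]
      linear_combination l * htr x hx m hm)
  have two : (2 : K) = 0 := by
    by_contra two
    refine not_Z h (h.gen_le fun β hβ u hu hm => ?_)
    obtain ⟨t, ht⟩ := T.exists_tr (A_d hu.1)
    have e : u = cm x (xc T (t / T.σ x.a)) := eq_of_Z hu (cm_Z x ⟨rfl, rfl⟩) (by
      rw [cm_dA x rfl, ← ht]; simp only [xc, map_div₀, T.sq]; field_simp; ring)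
    have hy : xc T (t / T.σ x.a) ∈ E := hA rfl
    refine ⟨hM hm, hb _ hm, ?_⟩
    have k := htr x hx _ hm
    obtain ⟨l, hl⟩ := hpar _ (hβ.1.mem _ hx)
    obtain ⟨l', hl'⟩ := hpar _ (hβ.1.mem _ hy)
    rw [e, hβ.1.cm hx hy, cm_c, hl, hl'] at k ⊢
    simp only [map_sub, map_mul, l.2, l'.2, Co.σb] at k
    refine mul_left_cancel₀ (mul_ne_zero two ha') ?_
    linear_combination k
  refine ⟨fun g2 => ?_, two, m0.c, hc, le_antisymm (fun s hs => ?_) fun s hs => back s (par _ ?_)⟩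
  · refine not_Z h (h.min le_rfl fun β hβ => ?_)
    have pA := keepA hA hpar hβ.1
    refine (zx two g2 β (hβ.1.restrict hA pA) x.a x.a ha ha fun l hl => ?_).1
    have hy : xa T (l * x.a) ∈ E := back _ ⟨⟨l, hl⟩, rfl⟩
    obtain ⟨l', hl'⟩ := hpar _ (hβ.1.mem _ hy)
    exact ⟨l', l'.2, fun u hu => by
      rw [ux_apply _ hu, hβ.1.conj hy (hA hu), cj_xa _ (pA u hu), hl', ux_apply _ (pA u hu)]⟩
  · refine mem_centralizer_singleton_iff.2 (cm_eq_one.1 (cm_one_of (by simp [cm_c, xc]) ?_))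
    rw [cm_dA s rfl]
    simpa [xc] using htr s hs m0 hm0
  · have := congrArg Co.d (cm_eq_one.2 (mem_centralizer_singleton_iff.1 hs))
    rw [cm_dA s rfl] at this
    simpa [xc] using this

theorem jobL0 : JobL0.{v} := by
  intro p _ K _ _ _ T zx E M h
  by_cases hM : M ≤ sA T
  · exact (case_A zx h hM).imp_right Or.inr
  obtain ⟨m, hm, ha⟩ := SetLike.not_le_iff_exists.1 hM
  have hb : m.b ≠ 0 := no_a h hm ha
  exact Or.inr (Or.inl ⟨(case_ab h hm ha hb).1, m, ha, hb, (case_ab h hm ha hb).2⟩)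

end H74.U4L
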