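/- U4 tower (row S5210), slot O5: the opposite flag on `A`. -/
import Cfsg.Agent.H28.U4Gen

set_option autoImplicit false
set_option linter.unusedSectionVars false
set_option linter.unusedSimpArgs false
set_option linter.unusedVariables false
set_option linter.unnecessarySeqFocus false

open Subgroup H90.RF H92 Cfsg H28.U4
open H90.U5 (BF DD Bq)

universe v

namespace H74.U4O

variable {K : Type*} [Field K] [Finite K] {T : BF K} {p : ℕ} {Y Y0 Y1 : Subgroup (Equiv.Perm (Co T))}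
  {α : Equiv.Perm (Co T)}

/-- the image of `D` under a mover is a graph over the coordinates `b`, `c` -/
theorem exists_graph (a : Au (sA T) α) (hi : ∀ z ∈ sZ T, α⁻¹ z ∈ sD T → z = 1) :
    ∃ F : K → K → K, (∀ b c, T.σ (F b c) = F b c) ∧
      (∀ b c b' c', T.σ b = b → T.σ b' = b' → F (b + b') (c + c') = F b c + F b' c') ∧
      ∀ u ∈ sA T, α⁻¹ u ∈ sD T ↔ u.d = F u.b u.c := by
  have a' := au_inv a
  have uniq : ∀ u ∈ sA T, ∀ w ∈ sA T, α⁻¹ u ∈ sD T → α⁻¹ w ∈ sD T → u.b = w.b → u.c = w.c → u = w :=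
    fun u hu w hw k k' e e' => inv_mul_eq_one.1 (hi _
      ⟨mul_mem (inv_mem hu) hw, by simp [e], by simp [e', show u.a = 0 from hu]⟩ (by
        rw [a'.mul _ (inv_mem hu) _ hw, a'.inv hu]; exact mul_mem (inv_mem k) k'))
  let w : T.κ × K → Co T := fun x => va T 0 x.2 x.1 (map_zero _) x.1.2
  have hw : ∀ x, w x ∈ sD T := fun x => ⟨rfl, rfl⟩
  have hw' : ∀ x, α⁻¹ (α (w x)) ∈ sD T := fun x => by simpa using hw x
  have sur : Function.Surjective fun x : T.κ × K => ((⟨(α (w x)).b, (α (w x)).hb⟩ : T.κ), (α (w x)).c) :=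
    Finite.surjective_of_injective fun x y e => by
      have k := α.injective (uniq _ (a.mem _ (hw x).1) _ (a.mem _ (hw y).1) (hw' x) (hw' y)
        (congrArg (fun z : T.κ × K => (z.1 : K)) e) (congrArg Prod.snd e))
      exact Prod.ext (Subtype.ext (congrArg Co.d k)) (congrArg Co.c k)
  have ex : ∀ b c : K, ∃ d, T.σ d = d ∧ ∀ u ∈ sA T, u.b = b → u.c = c → (α⁻¹ u ∈ sD T ↔ u.d = d) := fun b c => by
    by_cases hb : T.σ b = b
    · obtain ⟨x, e⟩ := sur (⟨b, hb⟩, c)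
      have e1 : (α (w x)).b = b := congrArg (fun z : T.κ × K => (z.1 : K)) e
      have e2 : (α (w x)).c = c := congrArg Prod.snd e
      have m := a.mem _ (hw x).1
      exact ⟨(α (w x)).d, A_d m, fun u hu h1 h2 =>
        ⟨fun k => congrArg Co.d (uniq u hu _ m k (hw' x) (h1.trans e1.symm) (h2.trans e2.symm)), fun k => by
          rw [Co.ext (hu.trans m.symm) (h1.trans e1.symm) (h2.trans e2.symm) k]; exact hw' x⟩⟩
    · exact ⟨0, map_zero _, fun u _ h1 _ => absurd (h1 ▸ u.hb) hb⟩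
  choose F hF hG using ex
  refine ⟨F, hF, fun b c b' c' hb hb' => ?_, fun u hu => hG _ _ u hu rfl rfl⟩
  have m : va T b c (F b c) hb (hF b c) ∈ sA T := rfl
  have m' : va T b' c' (F b' c') hb' (hF b' c') ∈ sA T := rfl
  obtain ⟨e1, e2, e3⟩ := mul_A m m'
  refine ((hG _ _ _ (mul_mem m m') e1 e2).1 ?_).symm.trans e3
  rw [a'.mul _ m _ m']
  exact mul_mem ((hG _ _ _ m rfl rfl).2 rfl) ((hG _ _ _ m' rfl rfl).2 rfl)

theorem not_pz_inv (m : ¬ PZ T α) : ¬ PZ T ⇑α⁻¹ := fun k => m (by simpa using k.inv)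

/-- the action of the torus element on `D` -/
theorem tor_D {y : Co T → Co T} (a : Au ⊤ y) {s : K} (hs : T.σ s = s) (s0 : s ≠ 0)
    (ha : ∀ u, (y u).a = s⁻¹ * u.a) (hc : ∀ u ∈ sD T, (y u).c = s * u.c) (hz : ∀ u ∈ sZ T, y u = u) :
    ∃ γ, ∀ u ∈ sD T, y u ∈ sD T ∧ (y u).d = u.d + (u.c * T.σ γ + T.σ u.c * γ) := by
  have h0 : (y (xb T 1 (map_one _))).a = 0 := by simp [ha, xb]
  have hb : (y (xb T 1 (map_one _))).b = s ^ 2 := by
    have := hc _ (cm_D (xa T 1) (xb T 1 (map_one _)))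
    rw [a.cm trivial trivial, cm_c, cm_c, h0, ha] at this
    simp only [xa, xb] at this ⊢
    field_simp at this
    linear_combination this
  refine ⟨(y (xb T 1 (map_one _))).c / s, fun u hu => ?_⟩
  have hd : T.σ (u.d - u.c * T.σ u.c) = u.d - u.c * T.σ u.c := by
    rw [map_sub, map_mul, T.sq, A_d hu.1]; ring
  have e : u = cm (xa T u.c) (xb T 1 (map_one _)) * xd T _ hd := by
    refine Co.ext (by simp [hu.1, xd]) (by simp [hu.2, xd]) (by simp [cm_c, xa, xb, xd]) ?_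
    rw [Co.mul_d, cm_dA _ rfl]
    simp [xa, xb, xd]
  have e' : y u = cm (y (xa T u.c)) (y (xb T 1 (map_one _))) * xd T _ hd := by
    rw [← a.cm trivial trivial, ← hz (xd T _ hd) ⟨rfl, rfl, rfl⟩, ← a.mul _ trivial _ trivial, ← e]
  refine ⟨e' ▸ mul_mem (cm_D _ _) ⟨rfl, rfl⟩, ?_⟩
  rw [e', Co.mul_d, cm_dA _ h0, hb, ha]
  simp only [xa, xd, cm_a, map_mul, map_inv₀, map_div₀, hs, map_zero]
  field_simp
  ring

theorem lin (h : Tri T p Y0 Y1 Y) (oc : Oc T Y) (hh : HH T Y0) (hα : α ∈ Y) (m : ¬ PZ T α) {F : K → K → K}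
    (hF : ∀ b c, T.σ (F b c) = F b c)
    (ad : ∀ b c b' c', T.σ b = b → T.σ b' = b' → F (b + b') (c + c') = F b c + F b' c')
    (hG : ∀ u ∈ sA T, α⁻¹ u ∈ sD T ↔ u.d = F u.b u.c) : ∃ γ, ∀ c, F 0 c = c * T.σ γ + T.σ c * γ := by
  have ad0 : ∀ x y, F 0 (x + y) = F 0 x + F 0 y := fun x y => by
    simpa using ad 0 x 0 y (map_zero _) (map_zero _)
  rcases hh with pm | ⟨y, hy, s, hs, s0, s1, ha, hc, hz⟩
  · refine exists_tr_form (F 0) ad0 (fun l x hl => ?_) (hF 0)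
    obtain ⟨n, rfl⟩ := pm l hl
    simpa using map_nsmul (AddMonoidHom.mk' (F 0) ad0) n x
  obtain ⟨η, hη, e⟩ := h.res2 y hy
  obtain ⟨γ, hγ⟩ := tor_D (h.l0.au y hy) hs s0 ha hc hz
  have pz : PZ T η := ⟨fun u hu => by rwa [e u (Z_le_A hu), hz u hu], fun u hu => e u hu.1 ▸ (hγ u hu).1⟩
  obtain ⟨t, ht⟩ := oc α hα _ (mul_mem hη hα) m fun k => m (pz.of_mul_left k)
  have s1' : s - 1 ≠ 0 := sub_ne_zero.2 s1
  have key : ∀ c, F 0 (s * c) = F 0 c + (c * T.σ (γ + s * t) + T.σ c * (γ + s * t)) := fun c => by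
    have hu : va T 0 c (F 0 c) (map_zero _) (hF 0 c) ∈ sD T := ⟨rfl, rfl⟩
    have k := ht.2 _ ((hG _ hu.1).2 rfl)
    have k' : ∀ u, α (α⁻¹ u) = u := fun u => by simp
    simp only [Equiv.Perm.mul_apply, k'] at k
    rw [e _ hu.1] at k
    obtain ⟨k0, k1, k2, k3⟩ := ux_co t (hγ _ hu).1.1
    have := (hG _ k0).1 k
    rw [k1, k2, k3, (hγ _ hu).1.2, (hγ _ hu).2, hc _ hu] at this
    simp only [va, map_mul, map_add, hs, mul_zero, add_zero] at this ⊢
    linear_combination -this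
  refine ⟨(γ + s * t) / (s - 1), fun c => ?_⟩
  have k := key (c / (s - 1))
  rw [show s * (c / (s - 1)) = c + c / (s - 1) by field_simp; ring, ad0] at k
  simp only [map_div₀, map_sub, hs, map_one] at k ⊢
  field_simp at k ⊢
  linear_combination k

theorem jobO5 : JobO5.{v} := by
  intro p _ K _ _ _ T Y0 Y1 Y h _ ob oc ti hh ⟨α, hα, m⟩
  obtain ⟨F, hF, ad, hG⟩ := exists_graph (h.sa.lg.au α hα) ((ob _ (inv_mem hα)).resolve_left (not_pz_inv m))
  obtain ⟨γ, hγ⟩ := lin h oc hh hα m hF ad hG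
  have hg : (ux T γ)⁻¹ * α ∈ Y := mul_mem (inv_mem (h.sa.ux_mem γ)) hα
  have mg : ¬ PZ T ⇑((ux T γ)⁻¹ * α) := fun k => m ((pz_ux γ).inv.of_mul_left k)
  have hG' : ∀ u ∈ sA T, ((ux T γ)⁻¹ * α)⁻¹ u ∈ sD T ↔ u.d = F u.b 0 + γ * T.σ γ * u.b := fun u hu => by
    obtain ⟨k0, k1, k2, k3⟩ := ux_co γ hu
    have := ad u.b 0 0 (u.c + γ * u.b) u.hb (map_zero _)
    rw [add_zero, zero_add, hγ] at this
    rw [mul_inv_rev, inv_inv, Equiv.Perm.mul_apply, hG _ k0, k1, k2, k3, this]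
    simp only [map_add, map_mul, u.hb]
    constructor <;> intro k <;> linear_combination k
  generalize (ux T γ)⁻¹ * α = g at hg mg hG'
  have ag := h.sa.lg.au g hg
  obtain ⟨θ, hθ⟩ := exists_thC (T := T) (fun _ => 0) (fun b => F b 0 + γ * T.σ γ * b) (by simp) (by simp)
    (fun x y hx hy => by
      have := ad x 0 y 0 hx hy
      rw [add_zero] at this
      rw [this]; ring) fun x hx => by rw [map_add, map_mul, map_mul, hF, T.sq, hx]; ring
  have fix : ∀ u ∈ sQ T, θ u = u := fun u hu => by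
    obtain ⟨e1, e2, e3, e4⟩ := hθ u
    exact Co.ext e1 e2 e3 (by rw [e4, show u.b = 0 from hu, hγ]; simp)
  obtain ⟨y, hy, e⟩ := exists_cjY θ hg
  have hH : ∀ w ∈ sD T, y w ∈ sH T := fun w hw => by
    obtain ⟨e1, e2, e3, e4⟩ := hθ (y w)
    rw [← e, fix w hw.2] at e1 e2 e4
    have := (hG' _ (ag.mem w hw.1)).1 (by simpa using hw)
    exact ⟨e1.symm.trans (ag.mem w hw.1), by rw [← e2] at e4; linear_combination this - e4⟩
  refine ⟨θ, fix, y, hy, fun z hz => ⟨(hH z (Z_le hz)).1, ?_, (hH z (Z_le hz)).2⟩, hH⟩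
  rw [← (hθ (y z)).2.2.1, ← e, fix z hz.2.1]
  by_contra hf
  have z1 : z ≠ 1 := fun k => hf (by rw [k, ag.one]; rfl)
  have mA := ag.mem z hz.1
  have hb : (g z).b ≠ 0 := fun k => z1 ((ob g hg).resolve_left mg z hz ⟨mA, k⟩)
  have hω : T.ω ≠ 0 := fun k => T.ne (by rw [k, map_zero])
  have hω' : T.σ T.ω ≠ 0 := (map_ne_zero _).2 hω
  have ht : -((g z).c * T.ε / ((g z).b * T.ω)) ≠ 0 := by simp [hf, hb, hω, T.ε_ne]
  refine z1 ((ob _ (mul_mem (mul_mem (inv_mem hg) (h.sa.ux_mem _)) hg)).resolve_left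
    (ti.mover h.sa hg mg ht) z hz ?_)
  obtain ⟨k0, k1, k2, k3⟩ := ux_co (-((g z).c * T.ε / ((g z).b * T.ω))) mA
  rw [Equiv.Perm.mul_apply, Equiv.Perm.mul_apply, hG' _ k0, k1, k3,
    (hG' _ mA).1 (by simpa using Z_le hz)]
  simp only [map_neg, map_div₀, map_mul, T.σε, Co.σb]
  rw [BF.ε]
  field_simp
  ring

end H74.U4O
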