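import Cfsg.Agent.H74.O11Spec

/-! O11 tower: small lemmas for Case I. -/

set_option autoImplicit false

namespace H74.O11

open Subgroup MulAction

universe u

variable {G Ω : Type u} [Group G] [MulAction G Ω] {Γ : Geo G Ω}

theorem sub_eq_one {a b : Ω} (hab : a ≠ b) {x : G} (hx : x ∈ Γ.sub a) (hb : x • b = b) : x = 1 := by
  by_contra h
  exact hab (Γ.semi a b x hx h hb).symm

theorem Z_fix {a b c : Ω} {z : G} (hz : z ∈ Γ.Z a b) (hc : Γ.On a b c) : z • c = c :=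
  (Γ.mem_A_iff.1 (Γ.Z_le_A hc hz)).1

theorem Z_w {a b c : Ω} {z : G} (hz : z ∈ Γ.Z a b) (hc : Γ.On a b c) : Γ.w z c = 1 :=
  (Γ.mem_A_iff.1 (Γ.Z_le_A hc hz)).2

theorem sub_Z_eq_one {a b : Ω} (hab : a ≠ b) {x : G} (hx : x ∈ Γ.sub a) (hz : x ∈ Γ.Z a b) : x = 1 :=
  sub_eq_one hab hx (Z_fix hz (Γ.on_right a b))

theorem LPair.LZ {a b : Ω} (h : LPair Γ a b) {g : G} (hL : g ∈ Γ.L a b) (hZ : g ∈ Γ.Z a b) : g = 1 :=
  sub_Z_eq_one h.ne (h.wt1 g hL a (Γ.on_left a b) (Z_fix hZ (Γ.on_left a b))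
    (Z_w hZ (Γ.on_left a b))) hZ

/-- an involution of `L` fixes no point of the line -/
theorem LPair.inv_fpf {a b : Ω} (h : LPair Γ a b) {t : G} (hL : t ∈ Γ.L a b) (ht : t * t = 1)
    {c : Ω} (hc : Γ.On a b c) (hf : t • c = c) : t = 1 := by
  have h5 := h.wt5 t hL c hc hf
  have h2 : Γ.w t c * Γ.w t c = 1 := by rw [← Γ.w_mul hf hf, ht, Γ.w_one]
  have h1 : Γ.w t c = 1 := by
    revert h5 h2; generalize Γ.w t c = k; revert k; decide
  have h11 := Γ.pow_eleven (h.wt1 t hL c hc hf h1)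
  calc t = (t * t) ^ 5 * t := by rw [ht]; simp
    _ = t ^ 11 := by rw [← pow_two, ← pow_mul, ← pow_succ]
    _ = 1 := h11

theorem conj_H_Z {a b : Ω} {g z : G} (hg : g ∈ Γ.H a b) (hz : z ∈ Γ.Z a b) : g * z * g⁻¹ ∈ Γ.Z a b := by
  have := Γ.conj_mem_Z g hz
  rwa [hg.1, hg.2] at this

theorem conj_H_L {a b : Ω} {g l : G} (hg : g ∈ Γ.H a b) (hl : l ∈ Γ.L a b) : g * l * g⁻¹ ∈ Γ.L a b := by
  have := Γ.conj_mem_L g hl
  rwa [hg.1, hg.2] at this

theorem A_fix {a : Ω} {g : G} (hg : g ∈ Γ.A a) : g • a = a := (Γ.mem_A_iff.1 hg).1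
theorem A_w {a : Ω} {g : G} (hg : g ∈ Γ.A a) : Γ.w g a = 1 := (Γ.mem_A_iff.1 hg).2

theorem smul_ne {a b : Ω} {g : G} (hg : g • a = a) (hab : b ≠ a) : g • b ≠ a := fun h =>
  hab (smul_left_cancel g (h.trans hg.symm))

namespace One1

variable (h : One1 Γ)
include h

theorem Z_eq {a b c d : Ω} (hab : a ≠ b) (hc : Γ.On a b c) (hd : Γ.On a b d) (hcd : c ≠ d) :
    Γ.Z c d = Γ.Z a b := by rw [Geo.Z, h.line_eq a b c d hab hc hd hcd]; rfl

theorem on_iff {a b c d : Ω} (hab : a ≠ b) (hc : Γ.On a b c) (hd : Γ.On a b d) (hcd : c ≠ d)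
    {e : Ω} : Γ.On c d e ↔ Γ.On a b e := by rw [Geo.On, h.line_eq a b c d hab hc hd hcd]; rfl

/-- two lines through `a` with a second common point agree -/
theorem on_swap {a b d : Ω} (hab : a ≠ b) (had : a ≠ d) (hb : Γ.On a d b) : Γ.On a b d :=
  (h.on_iff had (Γ.on_left a d) hb hab).2 (Γ.on_right a d)

theorem nm_L {a b : Ω} (hab : a ≠ b) {g : G} (ha : Γ.On a b (g • a)) (hb : Γ.On a b (g • b)) :
    Nm g (Γ.L a b) := fun x hx => by
  have := Γ.conj_mem_L g hx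
  rwa [h.line_eq a b _ _ hab ha hb fun e => hab (smul_left_cancel g e)] at this

theorem nm_Z {a b : Ω} (hab : a ≠ b) {g : G} (ha : Γ.On a b (g • a)) (hb : Γ.On a b (g • b)) :
    Nm g (Γ.Z a b) := fun x hx => by
  have := Γ.conj_mem_Z g hx
  rwa [h.Z_eq hab ha hb fun e => hab (smul_left_cancel g e)] at this

/-- an element commuting with a non-identity element of `Z a b` preserves the line -/
theorem on_of_comm {a b : Ω} (hab : a ≠ b) {z g : G} (hz : z ∈ Γ.Z a b) (h1 : z ≠ 1)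
    (hg : g * z = z * g) {c : Ω} (hc : Γ.On a b c) : Γ.On a b (g • c) :=
  (h.fixZ a b z _ hab hz h1).1 (by rw [← mul_smul, ← hg, mul_smul, Z_fix hz hc])

theorem Z_inter {a b d : Ω} (hab : a ≠ b) (hd : ¬ Γ.On a b d) {z : G} (hz : z ∈ Γ.Z a b)
    (hf : z • d = d) : z = 1 := by
  by_contra h1
  exact hd ((h.fixZ a b z d hab hz h1).1 hf)

/-- an element of `H a b` of weight `≠ ±1` fixes no second line through `a` -/
theorem line_of_w {a b d : Ω} (hab : a ≠ b) (hda : d ≠ a) {g : G} (hg : g ∈ Γ.H a b)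
    (hw : Γ.w g a ^ 2 ≠ 1) (hd : Γ.On a d (g • d)) : Γ.On a b d := by
  obtain ⟨c, hc, hca, hf, -⟩ := h.lfix a d g hda.symm hg.1 hd (fun e => hw (by rw [e]; simp))
  rcases h.fix2 a b g c hab hg.1 hg.2 hw hf with e | e
  · exact absurd e hca
  · exact h.on_swap hab hda.symm (e ▸ hc)

/-- an element with weight 1 at one fixed point has weight 1 at all of them -/
theorem w_one_of {g : G} {c d : Ω} (hc : g ∈ Γ.A c) (hd : g • d = d) : Γ.w g d = 1 := by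
  by_cases e : c = d
  · exact e ▸ A_w hc
  · have := (h.lp c d e).wt g (A_fix hc) hd
    rwa [A_w hc, one_mul] at this

end One1

theorem Frame.yH {a b : Ω} {y s : G} (f : Frame Γ a b y s) : y ∈ Γ.H a b := ⟨f.ya, f.yb⟩

theorem Frame.y5 {a b : Ω} {y s : G} (f : Frame Γ a b y s) : y ^ 5 = 1 := f.oy ▸ pow_orderOf_eq_one y

theorem Frame.w_pow {a b : Ω} {y s : G} (f : Frame Γ a b y s) (i : ℕ) : Γ.w (y ^ i) a = 3 ^ i := by
  rw [Γ.w_pow f.ya, f.wy]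

theorem exists_three_pow (k : ZMod 11) (hk : k ^ 5 = 1) : ∃ i : ℕ, i < 5 ∧ (3 : ZMod 11) ^ i = k := by
  revert k; decide

theorem BData.not_on {a b : Ω} {c x u : G} (h : One1 Γ) (d : BData Γ a b c x u) :
    ¬ Γ.On a b (u • b) := fun hon => by
  have := h.nm_Z d.ne (by rw [A_fix d.uA]; exact Γ.on_left a b) hon c d.cZ
  rw [d.uc] at this
  exact d.x1 (sub_Z_eq_one d.ne d.xs (by simpa using mul_mem (inv_mem d.cZ) this))

theorem BData.cx_mem {a b : Ω} {c x u : G} (d : BData Γ a b c x u) : c * x ∈ Γ.Z a (u • b) := by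
  have := Γ.conj_mem_Z u d.cZ
  rwa [A_fix d.uA, d.uc] at this

theorem BData.centZ {a b : Ω} {c x u : G} (d : BData Γ a b c x u) {z : G} (hz : z ∈ Γ.Z a b)
    (hc : z * c = c * z) : ∃ i : ℕ, z = c ^ i := by
  obtain ⟨x', hx', i, rfl⟩ := d.cent z (Γ.mem_Z_iff.1 hz).1 hc
  have : x' = 1 := sub_Z_eq_one d.ne hx' (by simpa using mul_mem hz (inv_mem (pow_mem d.cZ i)))
  exact ⟨i, by simp [this]⟩

theorem BData.c11 {a b : Ω} {c x u : G} (d : BData Γ a b c x u) : c ^ 11 = 1 :=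
  d.oc ▸ pow_orderOf_eq_one c

theorem BData.cx_comm {a b : Ω} {c x u : G} (d : BData Γ a b c x u) {x' : G} (hx : x' ∈ Γ.sub a) :
    x' * c = c * x' := Γ.mem_A.1 (Γ.mem_Z_iff.1 d.cZ).1 x' hx

end H74.O11
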