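import Cfsg.Agent.H74.O11Red
import Cfsg.Agent.H74.O11Kit

/-! O11 tower: restriction of the geometry to a simple subgroup; parity lemmas. -/

set_option autoImplicit false

namespace H74.O11

open Subgroup MulAction

universe u

/-- an involution has a fixed point on an invariant set of odd size -/
theorem exists_fix_of_odd {G X : Type*} [Group G] [MulAction G X] {t : G} (ht : t * t = 1)
    (S : Set X) (hS : ∀ x ∈ S, t • x ∈ S) (hodd : Odd S.ncard) : ∃ x ∈ S, t • x = x := by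
  classical
  have hf : S.Finite := Set.finite_of_ncard_ne_zero (by rintro e; simp [e] at hodd)
  haveI := hf.fintype
  have hinv : Function.Involutive fun x : S => (⟨t • x.1, hS _ x.2⟩ : S) := fun x =>
    Subtype.ext (by simp [← mul_smul, ht])
  obtain ⟨x, hx⟩ := Equiv.Perm.exists_fixed_point_of_prime (p := 2) (n := 1) (σ := hinv.toPerm)
    (by rw [← Nat.card_eq_fintype_card, Nat.card_coe_set_eq, ← even_iff_two_dvd]
        exact Nat.not_even_iff_odd.2 hodd)
    (Equiv.ext fun x => by simpa [pow_two] using hinv x)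
  exact ⟨x, x.2, congrArg Subtype.val hx⟩

/-- parity of the number of fixed points of an involution -/
theorem even_fix {G X : Type*} [Group G] [MulAction G X] [Finite X] {t : G} (ht : t * t = 1) :
    Even {x : X | t • x = x}.ncard ↔ Even (Nat.card X) := by
  have h1 : Even {x : X | t • x = x}ᶜ.ncard := by
    by_contra h
    obtain ⟨x, hx, e⟩ := exists_fix_of_odd ht _ (fun x (hx : x ∈ {x : X | t • x = x}ᶜ) e =>
      hx (smul_left_cancel t e)) (Nat.not_even_iff_odd.1 h)
    exact hx e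
  rw [← Set.ncard_add_ncard_compl {x : X | t • x = x}, Nat.even_add]
  tauto

/-- a second fixed point -/
theorem exists_fix_ne {G X : Type*} [Group G] [MulAction G X] [Finite X] {t : G} (ht : t * t = 1)
    (hev : Even (Nat.card X)) {a : X} (ha : t • a = a) : ∃ b, b ≠ a ∧ t • b = b := by
  by_contra h
  push Not at h
  have : {x : X | t • x = x} = {a} := Set.eq_singleton_iff_unique_mem.2
    ⟨ha, fun x hx => by_contra fun e => h x e hx⟩
  have h2 := (even_fix ht).2 hev
  rw [this] at h2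
  simp at h2

/-- a free action on an invariant set -/
theorem card_dvd_of_free {G X : Type*} [Group G] [MulAction G X] (K : Subgroup G) [Finite K]
    (S : Set X) (hf : S.Finite) (hS : ∀ g ∈ K, ∀ x ∈ S, g • x ∈ S)
    (hfree : ∀ g ∈ K, ∀ x ∈ S, g • x = x → g = 1) : Nat.card K ∣ S.ncard := by
  classical
  letI : MulAction K S :=
    { smul := fun g x => ⟨(g : G) • x.1, hS _ g.2 _ x.2⟩
      one_smul := fun x => Subtype.ext (one_smul G x.1)
      mul_smul := fun g h x => Subtype.ext (mul_smul (g : G) (h : G) x.1) }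
  have e := MulAction.selfEquivOrbitsQuotientProd (G := K) (X := S) fun x =>
    (eq_bot_iff_forall _).2 fun g hg => Subtype.ext (hfree _ g.2 _ x.2 (congrArg Subtype.val hg))
  rw [← Nat.card_coe_set_eq, Nat.card_congr e, Nat.card_prod]
  exact dvd_mul_left _ _

/-- orbit-stabiliser for a subgroup transitive on a set -/
theorem ncard_mul_card {G X : Type*} [Group G] [MulAction G X] (K : Subgroup G) (S : Set X) {a : X}
    (h1 : ∀ g ∈ K, g • a ∈ S) (h2 : ∀ x ∈ S, ∃ g ∈ K, g • a = x) :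
    S.ncard * Nat.card ↥(K ⊓ stabilizer G a) = Nat.card K := by
  have e1 : orbit K a = S := Set.ext fun x =>
    ⟨fun ⟨g, hg⟩ => hg ▸ h1 g g.2, fun hx => by obtain ⟨g, hg, e⟩ := h2 x hx; exact ⟨⟨g, hg⟩, e⟩⟩
  have e2 : Nat.card (stabilizer K a) = Nat.card ↥(K ⊓ stabilizer G a) := by
    rw [← card_map_of_injective K.subtype_injective]
    congr 2
    ext g
    exact ⟨fun ⟨k, hk, e⟩ => e ▸ ⟨k.2, hk⟩, fun hg => ⟨⟨g, hg.1⟩, hg.2, rfl⟩⟩
  rw [← e1, ← e2, ← index_stabilizer, index_mul_card]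

variable {G Ω : Type u} [Group G] [MulAction G Ω] (Γ : Geo G Ω) (J : Subgroup G)

instance actRes : MulAction J {c : Ω // Γ.sub c ≤ J} where
  smul g c := ⟨(g : G) • c.1,
    Γ.sub_smul_le (fun _ hx => mul_mem (mul_mem g.2 hx) (inv_mem g.2)) c.2⟩
  one_smul c := Subtype.ext (one_smul G c.1)
  mul_smul g h c := Subtype.ext (mul_smul (g : G) (h : G) c.1)

theorem actRes_val (g : J) (c : {c : Ω // Γ.sub c ≤ J}) : (g • c).1 = (g : G) • c.1 := rfl

theorem actRes_fix {g : J} {c : {c : Ω // Γ.sub c ≤ J}} : g • c = c ↔ (g : G) • c.1 = c.1 :=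
  Subtype.ext_iff

/-- the geometry inside a simple subgroup of order 660 or 175560 -/
noncomputable def geoRes [Finite G] (hc : Nat.card J = 660 ∨ Nat.card J = 175560)
    (hs : IsSimpleGroup J) (hex : ∃ c, Γ.sub c ≤ J) : Geo J {c : Ω // Γ.sub c ≤ J} where
  sub c := (Γ.sub c).subgroupOf J
  card c := (Nat.card_congr (subgroupOfEquivOfLe c.2).toEquiv).trans (Γ.card c)
  inj c d h := by
    obtain ⟨x, hx, h1⟩ := Γ.exists_ne_one c
    have : (⟨x, c.2 hx⟩ : J) ∈ (Γ.sub d).subgroupOf J := by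
      have h' : (Γ.sub c).subgroupOf J = (Γ.sub d).subgroupOf J := h
      rw [← h']; exact hx
    exact Subtype.ext (Γ.eq_of_mem hx this h1)
  conj g c x hx := Γ.conj g c x hx
  trans c d := by
    obtain ⟨g, hg, hx⟩ := conj_of_card c.2 d.2 (Γ.card c) (Γ.card d) hc
    obtain ⟨x, hx', h1⟩ := Γ.exists_ne_one c
    exact ⟨⟨g, hg⟩, Subtype.ext (Γ.smul_eq_of_conj hx' h1 (hx x hx'))⟩
  semi a c x hx h1 h := Subtype.ext
    (Γ.semi a c x hx (fun h => h1 (Subtype.ext h)) (congrArg Subtype.val h))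
  gen := by
    obtain ⟨c, hc⟩ := hex
    obtain ⟨x, hx, h1⟩ := Γ.exists_ne_one c
    have hn : (⨆ c : {c : Ω // Γ.sub c ≤ J}, (Γ.sub c).subgroupOf J).Normal := ⟨fun y hy g => by
      have : (⨆ c : {c : Ω // Γ.sub c ≤ J}, (Γ.sub c).subgroupOf J).map (MulAut.conj g).toMonoidHom ≤
          ⨆ c : {c : Ω // Γ.sub c ≤ J}, (Γ.sub c).subgroupOf J := by
        rw [Subgroup.map_iSup]
        refine iSup_le fun a => le_trans ?_
          (le_iSup (fun c : {c : Ω // Γ.sub c ≤ J} => (Γ.sub c).subgroupOf J) (g • a))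
        rintro _ ⟨z, hz, rfl⟩
        exact Γ.conj g a z hz
      exact this ⟨y, hy, rfl⟩⟩
    refine (hs.eq_bot_or_eq_top_of_normal _ hn).resolve_left fun e => h1 ?_
    have : (⟨x, hc hx⟩ : J) ∈ ⨆ c : {c : Ω // Γ.sub c ≤ J}, (Γ.sub c).subgroupOf J :=
      le_iSup (fun c : {c : Ω // Γ.sub c ≤ J} => (Γ.sub c).subgroupOf J) ⟨c, hc⟩ hx
    rw [e] at this
    exact congrArg Subtype.val (mem_bot.1 this)

theorem geoRes_w [Finite G] (hc : Nat.card J = 660 ∨ Nat.card J = 175560)
    (hs : IsSimpleGroup J) (hex : ∃ c, Γ.sub c ≤ J) {g : J} {c : {c : Ω // Γ.sub c ≤ J}}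
    (h : g • c = c) : (geoRes Γ J hc hs hex).w g c = Γ.w g c := by
  obtain ⟨x, hx, h1⟩ := Γ.exists_ne_one c
  refine ((geoRes Γ J hc hs hex).w_eq (x := ⟨x, c.2 hx⟩) hx (fun e => h1 (congrArg Subtype.val e))
    (Subtype.ext ?_)).2
  simpa using Γ.w_spec (congrArg Subtype.val h) hx

variable {Γ}

/-- elements of a coset of `sub c` of weight `≠ 1` are conjugate under `sub c` -/
theorem conj_of_w {j j' : G} {c : Ω} (hj : j • c = c) (hw : Γ.w j c ≠ 1) (h : j' * j⁻¹ ∈ Γ.sub c) :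
    ∃ x ∈ Γ.sub c, x⁻¹ * j * x = j' := by
  haveI : Fact (Nat.Prime 11) := ⟨by norm_num⟩
  let k : ZMod 11 := (Γ.w j c - 1)⁻¹
  have hx := pow_mem h k.val
  refine ⟨_, hx, ?_⟩
  have e := Γ.w_spec hj hx
  rw [← Γ.pow_val_mul h] at e
  have e2 : k * Γ.w j c = k + 1 := by
    have : k * (Γ.w j c - 1) = 1 := inv_mul_cancel₀ (sub_ne_zero.2 hw)
    linear_combination this
  rw [e2, Γ.pow_val_add h, Geo.val_one, pow_one] at e
  calc _ = ((j' * j⁻¹) ^ k.val)⁻¹ * (j * (j' * j⁻¹) ^ k.val * j⁻¹) * j := by group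
    _ = j' := by rw [e]; group

theorem stab_eq (c : Ω) [Finite G] : stabilizer G c = normalizer (Γ.sub c : Set G) := by
  ext g
  constructor
  · intro hg
    refine mem_normalizer_fintype fun y hy => ?_
    have := Γ.conj g c y hy
    rwa [mem_stabilizer_iff.1 hg] at this
  · intro hg
    obtain ⟨x, hx, h1⟩ := Γ.exists_ne_one c
    exact Γ.smul_eq_of_conj hx h1 ((mem_normalizer_iff.1 hg x).1 hx)

end H74.O11
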