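/- C3 tower (row S5227): the subgroup `E₄ = A ⟨x⟩`. -/
import Cfsg.Agent.H20.C3Kit
import Cfsg.Agent.H90.U5Tri

set_option autoImplicit false
set_option linter.unusedSectionVars false
set_option linter.unusedSimpArgs false
set_option linter.unusedVariables false
set_option linter.unnecessarySeqFocus false

open Subgroup H90.RF H20.C3 H92 Cfsg Cfsg.FusionSystem
open H90.U5 (pr_bot lg_aY fn_X)

namespace H74.C3

/-- `[A, x]` -/
def sB1 : Subgroup Co where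
  carrier := {u | u ∈ sA ∧ u.c = 0 ∧ lam u = 0}
  one_mem' := ⟨one_mem _, rfl, by simp [lam]⟩
  mul_mem' := fun {u w} hu hw => ⟨mul_mem hu.1 hw.1, by simp [hu.2.1, hw.2.1], by
    have h1 := hu.2.2
    have h2 := hw.2.2
    simp only [lam, mul_A hu.1] at h1 h2 ⊢
    linear_combination h1 + h2⟩
  inv_mem' := fun {u} hu => ⟨inv_mem hu.1, by simp [hu.2.1], by
    have h1 := hu.2.2
    simp only [lam, inv_A hu.1, vv] at h1 ⊢
    linear_combination -h1⟩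

/-- `[A, x, x]` -/
def sB2 : Subgroup Co where
  carrier := {u | u ∈ sA ∧ u.c = 0 ∧ u.e = 0 ∧ u.g = -u.f ∧ u.h = -u.f}
  one_mem' := ⟨one_mem _, rfl, rfl, by simp, by simp⟩
  mul_mem' := fun {u w} hu hw => ⟨mul_mem hu.1 hw.1, by
    obtain ⟨h0, h1, h2, h3, h4⟩ := hu
    obtain ⟨-, k1, k2, k3, k4⟩ := hw
    simp only [mul_A h0, h1, h2, h3, h4, k1, k2, k3, k4]
    exact ⟨by simp, by simp, by ring, by ring⟩⟩
  inv_mem' := fun {u} hu => ⟨inv_mem hu.1, by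
    obtain ⟨h0, h1, h2, h3, h4⟩ := hu
    simp [inv_A h0, vv, h1, h2, h3, h4]⟩

theorem lam_mul {u w : Co} (hu : u ∈ sA) : lam (u * w) = lam u + lam w := by
  simp only [lam, mul_A hu]; ring

theorem lam_inv {u : Co} (hu : u ∈ sA) : lam u⁻¹ = -lam u := by
  simp only [lam, inv_A hu, vv]; ring

theorem cmA (s : Co) {u : Co} (h : u ∈ sA) : cm s u =
    vv 0 (s.b * u.c) (s.d * u.c + s.a * u.e) (s.b ^ 2 * u.c + 2 * s.b * u.e)
      (s.b * s.d * u.c + (s.a * s.b + s.d) * u.e + s.b * u.f + s.a * u.g)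
      (s.d ^ 2 * u.c + 2 * s.a * s.d * u.e + 2 * s.d * u.f + s.a ^ 2 * u.g + 2 * s.a * u.h) := by
  rw [cm, cj_A s h, mul_A (inv_mem h), inv_A h]
  ext <;> simp [vv] <;> ring

theorem e4 {t : Co} (ht : t ∈ sE4 1 0) : t.b = t.a ∧ t.d = t.a - t.a ^ 2 := by
  simpa [mem_sE4] using ht

theorem lam_cj (s : Co) {u : Co} (h : u ∈ sA) :
    lam (s * u * s⁻¹) = lam u + (s.b ^ 2 - s.b + s.d) * u.c + (s.a - s.b) * u.e := by
  rw [cj_A s h]; simp only [lam, vv]; linear_combination s.b * u.e * three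

theorem cm_B1 {t u : Co} (ht : t ∈ sE4 1 0) (hu : u ∈ sA) : cm t u ∈ sB1 := by
  refine ⟨A5_le_A (cm_S_A t hu), cm_c t u, ?_⟩
  rw [cm, lam_mul (inv_mem hu), lam_inv hu, lam_cj t hu, (e4 ht).1, (e4 ht).2]; ring

theorem cm_B2 {t u : Co} (ht : t ∈ sE4 1 0) (hu : u ∈ sB1) : cm t u ∈ sB2 := by
  have h : u.g = u.e - u.f := by have := hu.2.2; simp only [lam] at this; linear_combination this
  refine ⟨A5_le_A (cm_S_A t hu.1), ?_⟩
  simp only [cmA t hu.1, vv, (e4 ht).1, (e4 ht).2, hu.2.1, h]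
  exact ⟨trivial, by simp, by linear_combination t.a * u.e * three, by linear_combination t.a * u.e * three⟩

theorem cm_B3 {t u : Co} (ht : t ∈ sE4 1 0) (hu : u ∈ sB2) : cm t u = 1 := by
  obtain ⟨h0, h1, h2, h3, h4⟩ := hu
  rw [cmA t h0]
  ext <;> simp [vv, (e4 ht).1, (e4 ht).2, h1, h2, h3, h4]
  linear_combination -t.a ^ 2 * u.f * three

theorem B1_eq {u : Co} (hu : u ∈ sB1) : ∃ v ∈ sA, u = cm xx v := by
  have h : u.g = u.e - u.f := by have := hu.2.2; simp only [lam] at this; linear_combination this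
  refine ⟨vv u.e u.f (u.h - u.f) 0 (-u.z) 0, vv_mem .., ?_⟩
  rw [cmA xx (vv_mem ..)]
  ext <;> simp [vv, xx, uu, hu.1.1, hu.1.2.1, hu.1.2.2, hu.2.1, h]
  · linear_combination -u.f * three
  · linear_combination u.z * three

theorem B2_eq {u : Co} (hu : u ∈ sB2) : ∃ v ∈ sB1, u = cm xx v := by
  obtain ⟨h0, h1, h2, h3, h4⟩ := hu
  refine ⟨vv 0 u.f 0 u.f (u.f - u.z) 0, ⟨vv_mem .., rfl, by simp [lam, vv]⟩, ?_⟩
  rw [cmA xx (vv_mem ..)]
  ext <;> simp [vv, xx, uu, h0.1, h0.2.1, h0.2.2, h1, h2, h3, h4]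
  · linear_combination -u.f * three
  · linear_combination -u.f * three
  · linear_combination (u.z - u.f) * three

theorem cm_mul_A (t : Co) {u w : Co} (hu : u ∈ sA) (hw : w ∈ sA) : cm t (u * w) = cm t u * cm t w := by
  rw [cmA t hu, cmA t hw, cmA t (mul_mem hu hw), mul_A hu, mul_A (vv_mem ..)]
  ext <;> simp [vv] <;> ring

theorem E4_le_of {X : Subgroup Co} (hA : sA ≤ X) (hx : xx ∈ X) : sE4 1 0 ≤ X := fun u hu => by
  obtain ⟨h1, h2⟩ := e4 hu
  rcases tri u.a with e | e | e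
  · exact hA ⟨e, h1.trans e, by simp [h2, e]⟩
  · exact (X.mul_mem_cancel_right (inv_mem hx)).1 (hA (by simp [mem_sA, xx, uu, h1, h2, e]))
  · exact (X.mul_mem_cancel_right hx).1 (hA (by simp [mem_sA, xx, uu, h1, h2, e, three]; decide))

/-- the image of a commutator -/
theorem map_cm {α : Co → Co} (a : Au sA α) {s t v : Co} (hv : v ∈ sA)
    (e : α (s * v * s⁻¹) = t * α v * t⁻¹) : α (cm s v) = cm t (α v) := by
  rw [cm, a.mul _ (inv_mem hv) _ (nA.conj_mem v hv s), a.inv hv, e, cm]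

theorem lin (φ : Co → F3) (ha : ∀ u ∈ sA, ∀ w ∈ sA, φ (u * w) = φ u + φ w) (h0 : ∀ u ∈ sB1, φ u = 0) :
    ∀ u ∈ sA, φ u = φ (xc 1) * u.c + φ (xf 1) * lam u := fun u hu => by
  have k : ∀ x : F3 → Co, (∀ t, x t ∈ sA) → x 0 = 1 → x 1 * x (-1) = 1 → ∀ t, φ (x t) = φ (x 1) * t :=
    fun x hx e0 e1 t => by
      have h1 := h0 1 (one_mem _)
      rcases tri t with rfl | rfl | rfl
      · rw [e0, h1, mul_zero]
      · rw [mul_one]
      · have := ha _ (hx 1) _ (hx (-1))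
        rw [e1, h1] at this
        linear_combination -this
  have m1 : ∀ t, xc t ∈ sA := fun _ => ⟨rfl, rfl, rfl⟩
  have m2 : ∀ t, xf t ∈ sA := fun _ => ⟨rfl, rfl, rfl⟩
  have m := mul_mem (m1 u.c) (m2 (lam u))
  have b : (xc u.c * xf (lam u))⁻¹ * u ∈ sB1 := ⟨mul_mem (inv_mem m) hu, by simp [xc, xf], by
    rw [lam_mul (inv_mem m), lam_inv m, lam_mul (m1 _)]; simp [lam, xc, xf]; ring⟩
  have := ha _ m _ b.1
  rw [mul_inv_cancel_left, h0 _ b, ha _ (m1 _) _ (m2 _), k xc m1 rfl (by decide), k xf m2 rfl (by decide)] at this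
  rw [this, add_zero]

theorem a4 : A4 := fun α a n => by
  have p : Pr α sB1 := fun u hu => by
    obtain ⟨v, hv, rfl⟩ := B1_eq hu
    obtain ⟨t, ht, e⟩ := n xx xx_mem
    rw [map_cm a hv (e v hv)]
    exact cm_B1 ht (a.mem v hv)
  exact ⟨_, _, _, _, fun u hu => ⟨lin (fun u => (α u).c) (fun u hu w hw => by rw [a.mul u hu w hw, Co.mul_c])
    (fun u hu => (p u hu).2.1) u hu, lin (fun u => lam (α u))
    (fun u hu w hw => by rw [a.mul u hu w hw, lam_mul (a.mem u hu)]) (fun u hu => (p u hu).2.2) u hu⟩⟩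

theorem au_cj4 {t : Co} (ht : t ∈ sE4 1 0) : Au (sE4 1 0) fun u => t * u * t⁻¹ := au_conj (le_normalizer ht)

theorem h1 : H1 := fun β a h => by
  have l := A_le_E4 1 0
  obtain ⟨e1, e2, e3⟩ := eq_of_cj_A (s := β xx) (t := xx) fun u hu => by
    rw [← h _ (nA.conj_mem u hu xx), a.conj xx_mem (l hu), h u hu]
  have c := a.pow xx_mem 3
  rw [show xx ^ 3 = 1 by decide, a.one] at c
  have mk : ∀ y : Co, y.a = 1 → y.b = 1 → y.d = 0 → 1 = y ^ 3 → y * xx⁻¹ ∈ sB1 := fun y e1 e2 e3 c => by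
    rw [cube_eq] at c
    have c1 := congrArg Co.f c
    have c2 := congrArg Co.z c
    simp only [e1, e2, e3, Co.one_f, Co.one_z] at c1 c2
    exact ⟨by simp [mem_sA, xx, uu, e1, e2, e3], by simpa [xx, uu] using c1.symm, by
      simp [lam, xx, uu, e1, e2, e3]
      linear_combination c2 - c1⟩
  obtain ⟨t, ht, e⟩ := B1_eq (inv_mem (mk _ e1 e2 e3 c))
  refine ⟨t, ht, fun u hu => (E4_le_of (X := eqS a (au_cj4 (l ht))) (fun v hv => ⟨l hv, ?_⟩) ⟨xx_mem, ?_⟩ hu).2⟩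
  · show β v = t * v * t⁻¹
    rw [h v hv, comm_A ht hv, mul_inv_cancel_right]
  · show β xx = t * xx * t⁻¹
    rw [inv_eq_iff_eq_inv, mul_inv_eq_iff_eq_mul] at e
    rw [e, cm, comm_A (inv_mem ht) (nA.conj_mem t ht xx)]
    group

theorem b4 (YA : Subgroup (Equiv.Perm Co)) (h : Ce YA) (k : K4 YA) : B4 YA := fun α hα n p => by
  have a := h.lA.au α hα
  obtain ⟨m, n', r, s, e⟩ := a4 α a n
  have n0 : n' = 0 := by simpa [xf, lam] using (e (xf 1) ⟨rfl, rfl, rfl⟩).1.symm.trans (p _ ⟨rfl, rfl, rfl, rfl⟩).2.2.2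
  have m0 : m ≠ 0 := fun m0 => by
    obtain ⟨u, hu, e1⟩ := a.sur (xc 1) ⟨rfl, rfl, rfl⟩
    have := (e u hu).1
    simp [e1, m0, n0, xc] at this
  obtain ⟨t, ht, et⟩ := n xx xx_mem
  -- `α⁻¹ x α` is a power of `x`
  have cx : ∀ d : F3, ∀ u ∈ sA, xd d * (xx * u * xx⁻¹) * (xd d)⁻¹ = xx * (xd d * u * (xd d)⁻¹) * xx⁻¹ :=
    fun d u hu => by
      have := cj_A_congr (s := xd d * xx) (t := xx * xd d) (by simp [xd]) (by simp [xd]) (by simp [xd, xx, uu]) hu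
      simpa [mul_assoc] using this
  have ex : (∀ u ∈ sA, α (xx * u * xx⁻¹) = xx * α u * xx⁻¹) ∨ ∀ u ∈ sA, α (xx⁻¹ * u * xx) = xx * α u * xx⁻¹ := by
    obtain ⟨h1, h2⟩ := e4 ht
    rcases tri t.a with ta | ta | ta
    · have tA : t ∈ sA := ⟨ta, h1.trans ta, by simp [h2, ta]⟩
      have := et (xc 1) ⟨rfl, rfl, rfl⟩
      rw [comm_A tA (a.mem _ ⟨rfl, rfl, rfl⟩), mul_inv_cancel_right] at this
      exact absurd (a.eq (nA.conj_mem _ ⟨rfl, rfl, rfl⟩ _) ⟨rfl, rfl, rfl⟩ this) (by decide)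
    · exact .inl fun u hu => (et u hu).trans (cj_A_congr ta (h1.trans ta) (by simp [h2, ta, xx, uu]) (a.mem u hu))
    · refine .inr fun u hu => ?_
      have m1 := nA.conj_mem' u hu xx
      have := et _ m1
      rw [show xx * (xx⁻¹ * u * xx) * xx⁻¹ = u by group, cj_A_congr (t := xx⁻¹) ta (h1.trans ta)
        (by simp [h2, ta, xx, uu]; decide) (a.mem _ m1)] at this
      rw [this]; group
  obtain ⟨D, hD, eD⟩ := h.inn (xd 1)
  obtain ⟨C, hC, eC⟩ := h.inn (xd (-(s * m)))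
  have kk : ∀ u ∈ sA, (C * α * D * α⁻¹) (α u) =
      xd (-(s * m)) * α (xd 1 * u * (xd 1)⁻¹) * (xd (-(s * m)))⁻¹ := fun u hu => by
    simp [eD u hu, eC _ (a.mem _ (nA.conj_mem u hu _)), cj]
  obtain ⟨t', ht', e'⟩ := k _ (mul_mem (mul_mem (mul_mem hC hα) hD) (inv_mem hα)) (fun w hw => by
      obtain ⟨u, hu, rfl⟩ := a.sur w hw
      have m1 := nA.conj_mem u hu (xd 1)
      rcases ex with ex | ex
      · rw [← ex u hu, kk _ (nA.conj_mem u hu _), kk u hu, cx 1 u hu, ex _ m1, cx _ _ (a.mem _ m1)]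
      · have : xd 1 * (xx⁻¹ * u * xx) * (xd 1)⁻¹ = xx⁻¹ * (xd 1 * u * (xd 1)⁻¹) * xx := by
          have := cx 1 _ (nA.conj_mem' u hu xx)
          rw [show xx * (xx⁻¹ * u * xx) * xx⁻¹ = u by group] at this
          rw [this]; group
        rw [← ex u hu, kk _ (nA.conj_mem' u hu _), kk u hu, this, ex _ m1, cx _ _ (a.mem _ m1)])
    fun w hw => by
      obtain ⟨u, hu, rfl⟩ := a.sur w hw
      have m1 := nA.conj_mem u hu (xd 1)
      rw [kk u hu, cj_c, lam_cj _ (a.mem _ m1), (e _ m1).1, (e _ m1).2, (e _ hu).1, (e _ hu).2, cj_c,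
        lam_cj _ hu, n0]
      refine ⟨by simp, ?_⟩
      simp only [xd]
      linear_combination -s * u.c * sq_one m0
  have key : ∀ u ∈ sA, α (xd 1 * u * (xd 1)⁻¹) =
      (xd (-(s * m)))⁻¹ * t' * α u * ((xd (-(s * m)))⁻¹ * t')⁻¹ := fun u hu => by
    have := (kk u hu).symm.trans (e' _ (a.mem u hu))
    calc _ = (xd (-(s * m)))⁻¹ * (xd (-(s * m)) * α (xd 1 * u * (xd 1)⁻¹) * (xd (-(s * m)))⁻¹) *
        xd (-(s * m)) := by group
      _ = _ := by rw [this]; group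
  generalize hs' : (xd (-(s * m)))⁻¹ * t' = s' at key
  have ab : s'.b = s'.a := by rw [← hs']; simp [xd, (e4 ht').1]
  have a0 : s'.a = 0 := by
    by_contra a0
    have mz : xz 1 ∈ sA := ⟨rfl, rfl, rfl⟩
    have q : ∀ w ∈ sA, cm s' (cm s' w) = 1 ∨ cm s' (cm s' w) = α (xz 1) ∨ cm s' (cm s' w) = (α (xz 1))⁻¹ :=
      fun w hw => by
        obtain ⟨u, hu, rfl⟩ := a.sur w hw
        have m1 := A5_le_A (cm_S_A (xd 1) hu)
        rw [← map_cm a hu (key u hu), ← map_cm a m1 (key _ m1), ← a.inv mz,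
          show cm (xd 1) (cm (xd 1) u) = xz (-u.c) by
            rw [cmA _ m1, cmA _ hu]; ext <;> simp [vv, xd, xz]; linear_combination u.c * three]
        rcases tri u.c with c | c | c <;> rw [c]
        exacts [.inl a.one, .inr (.inr rfl), .inr (.inl rfl)]
    have yf : (α (xz 1))⁻¹.f = -(α (xz 1)).f := by rw [inv_A (a.mem _ mz)]; rfl
    have g1 : cm s' (cm s' (xg 1)) = xz (-1) := by
      rw [cmA _ (A5_le_A (cm_S_A _ ⟨rfl, rfl, rfl⟩)), cmA _ ⟨rfl, rfl, rfl⟩]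
      ext <;> simp [vv, xg, xz]
      linear_combination 2 * sq_one a0 + three
    have g2 : (cm s' (cm s' (xc 1))).f = 1 := by
      rw [cmA _ (A5_le_A (cm_S_A _ ⟨rfl, rfl, rfl⟩)), cmA _ ⟨rfl, rfl, rfl⟩]
      simpa [vv, xc, ab] using sq_one a0
    have f0 : (α (xz 1)).f = 0 := by
      rcases q (xg 1) ⟨rfl, rfl, rfl⟩ with c | c | c <;> rw [g1] at c
      · exact absurd c (by decide)
      · rw [← c]; rfl
      · rw [← c] at yf; exact neg_eq_zero.1 yf.symm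
    rcases q (xc 1) ⟨rfl, rfl, rfl⟩ with c | c | c <;> rw [c] at g2
    · exact absurd g2 (by decide)
    · exact absurd (f0.symm.trans g2) (by decide)
    · rw [yf, f0] at g2; exact absurd g2 (by decide)
  have sD' : s' ∈ sD := ⟨a0, ab.trans a0⟩
  intro y hy
  rcases tri y.d with c | c | c
  · exact ⟨1, one_mem _, fun u hu => by rw [cj_A_congr (t := 1) hy.1 hy.2 c hu]; simp⟩
  · exact ⟨s', sD', fun u hu => by rw [cj_A_congr (t := xd 1) hy.1 hy.2 c hu, key u hu]⟩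
  · refine ⟨s'⁻¹, inv_mem sD', fun u hu => ?_⟩
    have := key _ (nA.conj_mem u hu (xd 1)⁻¹)
    rw [show xd 1 * ((xd 1)⁻¹ * u * (xd 1)⁻¹⁻¹) * (xd 1)⁻¹ = u by group] at this
    rw [cj_A_congr (t := (xd 1)⁻¹) hy.1 hy.2 c hu, this]; group

theorem jobA4 : JobA4 := ⟨a4, h1, b4⟩

section Fus
variable {F : FusionSystem (⊤ : Subgroup Co)} (hF : F.IsSaturated 3)
include hF

/-- extension from `A` to `E₄` -/
theorem ext4 {α : Equiv.Perm Co} (hα : α ∈ aY F sA) (n : Nm α (sE4 1 0)) :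
    ∃ β ∈ aY F (sE4 1 0), (∀ u ∈ sA, β u = α u) ∧ ∀ s ∈ sE4 1 0, ∀ u ∈ sA, α (s * u * s⁻¹) = β s * α u * (β s)⁻¹ := by
  have a := (lg_aY sA).au α hα
  obtain ⟨α, hα, rfl⟩ := hα
  have hP := pgroup_Co.to_subgroup ⊤
  obtain ⟨g, hg, e⟩ := exists_ext_aut hP hF (fc_of_fn hP hF (fn_X F)) hα
  have hg' : Mor F (sE4 1 0) g := hg.mono fun s hs => mem_Nx.2 ⟨⟨trivial, by
    rw [normalizer_eq_top]; trivial⟩, (n s hs).elim fun t ht => ⟨t, trivial, ht.2⟩⟩
  have l := A_le_E4 1 0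
  have c : ∀ s ∈ sE4 1 0, ∀ u ∈ sA, af α (s * u * s⁻¹) = g s * af α u * (g s)⁻¹ := fun s hs u hu => by
    rw [← e _ (nA.conj_mem u hu s), ← e u hu, eq_mul_inv_iff_mul_eq,
      ← hg'.map_mul (l (nA.conj_mem u hu s)) hs, ← hg'.map_mul hs (l hu), inv_mul_cancel_right]
  obtain ⟨β, hβ, k⟩ := exists_aY hg' fun s hs => by
    obtain ⟨t, ht, et⟩ := n s hs
    obtain ⟨e1, e2, e3⟩ := eq_of_cj_A (s := g s) (t := t) fun w hw => by
      obtain ⟨u, hu, rfl⟩ := a.sur w hw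
      rw [← c s hs u hu, et u hu]
    rw [mem_sE4, e1, e2, e3]; exact ht
  exact ⟨β, hβ, fun u hu => by rw [k u (l hu), e u hu], fun s hs u hu => by rw [k s hs, c s hs u hu]⟩

end Fus

/-- the characteristic series of `E₄` -/
def y4 : ℕ → Subgroup Co
  | 0 => ⊥ | 1 => sB2 | 2 => sB1 | 3 => sA | _ => sE4 1 0

theorem pr_y4 (hA : Ach) {β : Co → Co} (a : Au (sE4 1 0) β) (i : ℕ) : Pr β (y4 i) := by
  have l := A_le_E4 1 0
  have p := hA _ l β a
  have p1 : Pr β sB1 := fun u hu => by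
    obtain ⟨v, hv, rfl⟩ := B1_eq hu
    rw [a.cm xx_mem (l hv)]
    exact cm_B1 (a.mem _ xx_mem) (p v hv)
  rcases i with _ | _ | _ | _ | i
  · exact pr_bot a
  · intro u hu
    obtain ⟨v, hv, rfl⟩ := B2_eq hu
    rw [a.cm xx_mem (l hv.1)]
    exact cm_B2 (a.mem _ xx_mem) (p1 v hv)
  · exact p1
  · exact p
  · exact a.mem

theorem jobK4 : JobK4 := fun hA F hF hE α hα hx hc => by
  have a := (lg_aY sA).au α hα
  have l := A_le_E4 1 0
  have n : ∀ s ∈ sE4 1 0, ∀ u ∈ sA, α (s * u * s⁻¹) = s * α u * s⁻¹ := fun s hs => by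
    let X : Subgroup Co :=
      { carrier := {s | ∀ u ∈ sA, α (s * u * s⁻¹) = s * α u * s⁻¹}
        one_mem' := fun u _ => by simp
        mul_mem' := fun {s t} hs ht u hu => by
          rw [show s * t * u * (s * t)⁻¹ = s * (t * u * t⁻¹) * s⁻¹ by group, hs _ (nA.conj_mem u hu t), ht u hu]
          group
        inv_mem' := fun {s} hs u hu => by
          have := hs _ (nA.conj_mem u hu s⁻¹)
          rw [show s * (s⁻¹ * u * s⁻¹⁻¹) * s⁻¹ = u by group] at this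
          rw [this]; group }
    exact E4_le_of (X := X) (fun v hv u hu => by
      rw [comm_A hv hu, comm_A hv (a.mem u hu), mul_inv_cancel_right, mul_inv_cancel_right]) hx hs
  obtain ⟨β, hβ, e, c⟩ := ext4 hF hα fun s hs => ⟨s, hs, n s hs⟩
  have q1 : ∀ u ∈ sA, u⁻¹ * α u ∈ sB1 := fun u hu => ⟨mul_mem (inv_mem hu) (a.mem u hu), by simp [(hc u hu).1], by
    rw [lam_mul (inv_mem hu), lam_inv hu, (hc u hu).2, neg_add_cancel]⟩
  have q : ∀ v ∈ sA, (cm xx v)⁻¹ * α (cm xx v) = cm xx (v⁻¹ * α v) := fun v hv => by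
    rw [map_cm a hv (hx v hv), inv_mul_eq_iff_eq_mul, ← cm_mul_A _ hv (q1 v hv).1, mul_inv_cancel_left]
  have q2 : ∀ u ∈ sB1, u⁻¹ * α u ∈ sB2 := fun u hu => by
    obtain ⟨v, hv, rfl⟩ := B1_eq hu
    rw [q v hv]; exact cm_B2 xx_mem (q1 v hv)
  obtain ⟨β, hβ, rfl⟩ := hβ
  have hP := pgroup_Co.to_subgroup ⊤
  obtain ⟨s, -, es⟩ := mem_autInducedBy.1 ((sylIn_of_fn hP hF hE.2.1).pCoreOf_le
    (mem_pCoreOf_of_chain (P := sE4 1 0) (pgroup_Co.to_subgroup _) _ y4 4 (fun _ h => h)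
      (fun γ _ i _ x _ hx => pr_y4 hA (au_af γ) i x hx)
      (fun γ _ _ x _ hx => by rw [mem_bot.1 hx, (au_af γ).one]) hβ fun i hi u hu hu' => by
        interval_cases i
        · obtain ⟨v, hv, rfl⟩ := B2_eq hu'
          rw [e _ hu'.1, q v hv.1, cm_B3 xx_mem (q2 v hv)]; exact one_mem _
        · rw [e _ hu'.1]; exact q2 u hu'
        · rw [e _ hu']; exact q1 u hu'
        · obtain ⟨e1, e2, e3⟩ := eq_of_cj_A (s := af β u) (t := u) fun w hw => by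
            obtain ⟨v, hv, rfl⟩ := a.sur w hw
            rw [← c u hu v hv, n u hu v hv]
          exact ⟨by simp [e1], by simp [e2], by simp [e1, e2, e3]⟩))
  have k : ∀ u ∈ sA, α u = s * u * s⁻¹ := fun u hu => by rw [← e u hu, es u (l hu)]
  have k1 := (hc (xc 1) ⟨rfl, rfl, rfl⟩).2
  have k2 := (hc (xe 1) ⟨rfl, rfl, rfl⟩).2
  rw [k _ ⟨rfl, rfl, rfl⟩, lam_cj _ ⟨rfl, rfl, rfl⟩] at k1 k2
  simp only [xc, xe] at k1 k2
  have ab : s.b = s.a := by linear_combination -k2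
  exact ⟨s, ⟨by rw [ab, one_mul], by rw [ab] at k1; linear_combination k1⟩, k⟩

theorem jobD4 : JobD4 := fun hA hH F hF => by
  have l := A_le_E4 1 0
  refine ⟨fun α hα => ?_, fun α a ⟨α0, h0, e0⟩ => ?_⟩
  · have a := (lg_aY _).au α hα
    exact ⟨exists_aY ((mor_aY hα).mono l) (hA _ l α a),
      fun s hs => ⟨α s, a.mem s hs, fun u hu => a.conj hs (l hu)⟩⟩
  · obtain ⟨β, hβ, e, -⟩ := ext4 hF h0 fun s hs => ⟨α s, a.mem s hs, fun u hu => by
      rw [e0 _ (nA.conj_mem u hu s), e0 u hu, a.conj hs (l hu)]⟩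
    obtain ⟨t, ht, et⟩ := hH _ (((lg_aY _).au _ (inv_mem hβ)).comp a) fun u hu => by
      rw [← e0 u hu, ← e u hu]; simp
    obtain ⟨τ, hτ, eτ⟩ := exists_aY (mor_conj F (P := sE4 1 0) le_top (mem_top t)) (au_cj4 (l ht)).mem
    exact ⟨β * τ, mul_mem hβ hτ, fun u hu => by rw [Equiv.Perm.mul_apply, eτ u hu, ← et u hu]; simp⟩

end H74.C3
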