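import Cfsg.Agent.H11.FBSpec
import Mathlib.GroupTheory.Transfer
import Mathlib.NumberTheory.Basic

/-!
# Tower FB, job BU: Burnside transfer for a cyclic Sylow subgroup
-/

set_option autoImplicit false

namespace H74.FbBU

open Subgroup

universe u

theorem conj_pow_iter {Y : Type u} [Group Y] {g r : Y} {k : ℤ} (e : g * r * g⁻¹ = r ^ k) (j : ℕ) :
    g ^ j * r * (g ^ j)⁻¹ = r ^ (k ^ j) := by
  induction j with
  | zero => simp
  | succ j ih =>
    calc g ^ (j + 1) * r * (g ^ (j + 1))⁻¹ = g * (g ^ j * r * (g ^ j)⁻¹) * g⁻¹ := by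
          rw [pow_succ']; group
      _ = (g * r * g⁻¹) ^ (k ^ j) := by rw [ih, conj_zpow]
      _ = r ^ (k ^ (j + 1)) := by rw [e, ← zpow_mul, pow_succ']

theorem mem_of_coprime {Y : Type u} [Group Y] {C : Subgroup Y} {g : Y} {a b : ℕ}
    (hab : a.Coprime b) (ha : g ^ a ∈ C) (hb : g ^ b ∈ C) : g ∈ C := by
  have e : ((a.gcd b : ℕ) : ℤ) = a * a.gcdA b + b * a.gcdB b := Nat.gcd_eq_gcd_ab a b
  rw [hab.gcd_eq_one] at e
  have : g = (g ^ a) ^ (a.gcdA b) * (g ^ b) ^ (a.gcdB b) := by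
    rw [← zpow_natCast, ← zpow_natCast, ← zpow_mul, ← zpow_mul, ← zpow_add, ← e]
    simp
  rw [this]
  exact C.mul_mem (C.zpow_mem ha _) (C.zpow_mem hb _)

theorem core {Y : Type u} [Group Y] [Finite Y] {r h : Y} {p : ℕ} (hp : p.Prime)
    (ho : orderOf h = p) (hr : h ∈ zpowers r) (pg : IsPGroup p (zpowers r)) (C : Subgroup Y)
    (hC : ∀ (g : Y) (k : ℤ), g * h * g⁻¹ = h ^ k → g ∈ C ∧ g * h = h * g)
    {m : ℕ} (hm : ¬ p ∣ m) (hcard : Nat.card C = m * Nat.card (zpowers r)) :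
    ∃ N : Subgroup Y, N.Normal ∧ ¬ p ∣ Nat.card N ∧ (∀ x, (orderOf x).Coprime p → x ∈ N) ∧
      ∀ x, ∃ k : ℕ, x ^ p ^ k ∈ N := by
  have : Fact p.Prime := ⟨hp⟩
  obtain ⟨i, hi⟩ := mem_zpowers_iff.1 hr
  obtain ⟨n, hn⟩ := IsPGroup.iff_card.1 pg
  -- the action of the normaliser on the generator
  have act : ∀ g ∈ normalizer (zpowers r : Set Y),
      ∃ k : ℤ, g * r * g⁻¹ = r ^ k ∧ g * h * g⁻¹ = h ^ k := by
    intro g hg
    obtain ⟨k, hk⟩ := mem_zpowers_iff.1 ((mem_normalizer_iff.1 hg r).1 (mem_zpowers r))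
    refine ⟨k, hk.symm, ?_⟩
    rw [← hi, ← conj_zpow, ← hk, ← zpow_mul, ← zpow_mul, mul_comm]
  have NC : normalizer (zpowers r : Set Y) ≤ C := fun g hg => by
    obtain ⟨k, -, e⟩ := act g hg
    exact (hC g k e).1
  set M := normalizer (zpowers r : Set Y) with hM
  have cM : Nat.card (zpowers r) * ((zpowers r).subgroupOf M).index = Nat.card M := by
    rw [← card_mul_index ((zpowers r).subgroupOf M),
      Nat.card_congr (subgroupOfEquivOfLe (le_normalizer (H := zpowers r))).toEquiv]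
  have iM : ((zpowers r).subgroupOf M).index ∣ m := by
    have d := card_dvd_of_le NC
    rw [← cM, hcard, mul_comm m] at d
    exact (mul_dvd_mul_iff_left Nat.card_pos.ne').1 d
  have iM' : ¬ p ∣ ((zpowers r).subgroupOf M).index := fun d => hm (d.trans iM)
  have idx : ¬ p ∣ (zpowers r).index := by
    intro d
    have md := Sylow.card_normalizer_modEq_card hn
    have d1 : p ^ (n + 1) ∣ Nat.card Y := by
      rw [← card_mul_index (zpowers r), hn, pow_succ]
      exact mul_dvd_mul_left _ d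
    have d2 : p ^ (n + 1) ∣ Nat.card M := (md.dvd_iff dvd_rfl).2 d1
    rw [← cM, hn, pow_succ] at d2
    exact iM' ((mul_dvd_mul_iff_left (pow_pos hp.pos n).ne').1 d2)
  have cen : M ≤ centralizer (zpowers r : Set Y) := by
    intro g hg
    have toC : ∀ x : Y, x * r * x⁻¹ = r → x ∈ centralizer (zpowers r : Set Y) := by
      intro x e y hy
      obtain ⟨j, rfl⟩ := mem_zpowers_iff.1 hy
      have c : Commute r x := by
        rw [Commute, SemiconjBy]
        calc r * x = x * r * x⁻¹ * x := by rw [e]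
          _ = x * r := by group
      exact (c.zpow_left j).eq
    obtain ⟨k, e1, e2⟩ := act g hg
    have e3 := (hC g k e2).2
    have e4 : h ^ (k - 1) = 1 := by
      rw [zpow_sub_one, ← e2, e3]
      group
    have d1 : (p : ℤ) ∣ k - 1 := by
      rw [← ho]
      exact orderOf_dvd_iff_zpow_eq_one.2 e4
    have d2 := dvd_sub_pow_of_dvd_sub d1 n
    rw [one_pow] at d2
    have a1 : g ^ p ^ n ∈ centralizer (zpowers r : Set Y) := by
      apply toC
      rw [conj_pow_iter e1]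
      have : r ^ (k ^ p ^ n - 1) = 1 := by
        rw [← orderOf_dvd_iff_zpow_eq_one, ← Nat.card_zpowers, hn]
        refine Dvd.dvd.trans ?_ d2
        push_cast
        exact pow_dvd_pow _ n.le_succ
      rw [zpow_sub_one, mul_inv_eq_one] at this
      exact this
    have a2 : g ^ ((zpowers r).subgroupOf M).index ∈ centralizer (zpowers r : Set Y) := by
      have nm : ((zpowers r).subgroupOf M).Normal := normal_in_normalizer
      have := mem_subgroupOf.1 (((zpowers r).subgroupOf M).pow_index_mem (⟨g, hg⟩ : M))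
      obtain ⟨j, hj⟩ := mem_zpowers_iff.1 this
      apply toC
      have e : g ^ ((zpowers r).subgroupOf M).index = r ^ j := hj.symm
      rw [e]
      group
    exact mem_of_coprime (Nat.Coprime.pow_left n ((Nat.Prime.coprime_iff_not_dvd hp).2 iM')) a1 a2
  let S : Sylow p Y := pg.toSylow idx
  have hS : normalizer ((S : Subgroup Y) : Set Y) ≤ centralizer ((S : Subgroup Y) : Set Y) := cen
  refine ⟨(MonoidHom.transferSylow S hS).ker, inferInstance,
    MonoidHom.not_dvd_card_ker_transferSylow S hS, fun x hx => ?_, fun x => ?_⟩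
  · obtain ⟨k, hk⟩ := S.isPGroup' (MonoidHom.transferSylow S hS x)
    refine mem_of_coprime (Nat.Coprime.pow_right k hx) ?_ ?_
    · rw [pow_orderOf_eq_one]
      exact one_mem _
    · rw [MonoidHom.mem_ker, map_pow]
      exact hk
  · obtain ⟨k, hk⟩ := S.isPGroup' (MonoidHom.transferSylow S hS x)
    exact ⟨k, by rw [MonoidHom.mem_ker, map_pow]; exact hk⟩

theorem jobBU : H11.FB.JobBU.{u} := by
  intro G _ _ X R h p hp _ ho hR RX pg cy hc ⟨m, hm, hcard⟩
  obtain ⟨r, rfl⟩ := (Subgroup.isCyclic_iff_exists_zpowers_eq_top R).1 cy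
  have rX : r ∈ X := RX (mem_zpowers r)
  have hX : h ∈ X := RX hR
  have cr : Nat.card (zpowers (⟨r, rX⟩ : X)) = Nat.card (zpowers r) := by
    rw [Nat.card_zpowers, Nat.card_zpowers, Subgroup.orderOf_mk]
  have : Fact p.Prime := ⟨hp⟩
  obtain ⟨N, nN, cN, aN, pN⟩ := core (r := (⟨r, rX⟩ : X)) (h := (⟨h, hX⟩ : X)) hp
    (by rw [Subgroup.orderOf_mk, ho])
    (by
      obtain ⟨i, hi⟩ := mem_zpowers_iff.1 hR
      exact mem_zpowers_iff.2 ⟨i, Subtype.ext hi⟩)
    (by
      obtain ⟨n, hn⟩ := IsPGroup.iff_card.1 pg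
      exact IsPGroup.of_card (cr.trans hn))
    ((normalizer (zpowers h : Set G) ⊓ X).subgroupOf X)
    (by
      intro g k e
      have e' : (g : G) * h * (g : G)⁻¹ = h ^ k := congrArg Subtype.val e
      have gN : (g : G) ∈ normalizer (zpowers h : Set G) := by
        refine mem_normalizer_fintype fun y hy => ?_
        obtain ⟨j, rfl⟩ := mem_zpowers_iff.1 hy
        rw [← conj_zpow, e']
        exact zpow_mem (zpow_mem (mem_zpowers h) k) j
      exact ⟨mem_subgroupOf.2 ⟨gN, g.2⟩, Subtype.ext (hc g g.2 gN)⟩)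
    hm (by rw [Nat.card_congr (subgroupOfEquivOfLe inf_le_right).toEquiv, hcard, cr])
  refine ⟨N.map X.subtype, map_subtype_le _, ?_, ?_, ?_, ?_⟩
  · rintro x hx _ ⟨y, hy, rfl⟩
    exact ⟨_, nN.conj_mem y hy ⟨x, hx⟩, rfl⟩
  · rw [card_map_of_injective X.subtype_injective]
    exact ((Nat.Prime.coprime_iff_not_dvd hp).2 cN).symm
  · intro x hx co
    exact ⟨⟨x, hx⟩, aN _ (by rwa [Subgroup.orderOf_mk]), rfl⟩
  · intro x hx
    obtain ⟨k, hk⟩ := pN ⟨x, hx⟩
    exact ⟨k, _, hk, rfl⟩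

end H74.FbBU
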