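/- Two lines through a point meet trivially; the class constants in the last configuration. -/
import Cfsg.Agent.H36.NGSpec

set_option autoImplicit false

namespace H74.NG

open Cfsg H28 H87 H39 H36.NG

universe u

theorem jobG3 (h1 : JobG1.{u}) (h1b : JobG1b.{u}) (h2 : JobG2.{u}) : JobG3.{u} := by
  intro G _ _ p hp S
  obtain ⟨-, -, c, d, -, -, g, h⟩ := h1 G p S
  obtain ⟨l1, l2⟩ := h2 G p S
  suffices k : ∀ (Y Z Z' : Subgroup G) (Q : Sylow p G), Mx p Z → Mx p Z' → Z ≠ Z' → Q ∈ FS p Z →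
      Q ∈ FS p Z' → Y ≤ Z → Y ≤ Z' → Y = ⊥ from
    fun Z Z' Q a b c d e => k _ Z Z' Q a b c d e inf_le_left inf_le_right
  intro Y
  induction Y using WellFoundedGT.induction with
  | ind Y ih =>
  intro Z Z' Q mZ mZ' ne q q' y y'
  by_contra n
  obtain ⟨x, hx⟩ : ∃ x : G, ¬ Y.map (MulAut.conj x).toMonoidHom ≤ Y := by
    by_contra! k
    refine n (h Y (Set.eq_univ_of_forall fun R => ?_))
    obtain ⟨x, rfl⟩ := MulAction.exists_smul_eq G Q R
    have := (d Y x Q).2 (y.trans q)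
    rwa [Subgroup.eq_of_le_of_card_ge (k x) (Subgroup.card_map_of_injective (MulAut.conj x).injective).ge] at this
  have e : FS p (Y ⊔ Y.map (MulAut.conj x).toMonoidHom) =
      FS p Y ∩ FS p (Y.map (MulAut.conj x).toMonoidHom) := Set.ext fun R => sup_le_iff (c := Cen (R : Subgroup G))
  have a1 := l2 Y Z Z' Q mZ mZ' ne q q' y y'
  have a2 := l2 _ _ _ (x • Q) (c Z x mZ) (c Z' x mZ')
    (mt (Subgroup.map_injective (MulAut.conj x).injective ·) ne) ((d Z x Q).2 q) ((d Z' x Q).2 q')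
    (Subgroup.map_mono y) (Subgroup.map_mono y')
  have a3 := Set.ncard_union_add_ncard_inter (FS p Y) (FS p (Y.map (MulAut.conj x).toMonoidHom))
  have a4 := (Set.ncard_le_card (FS p Y ∪ FS p (Y.map (MulAut.conj x).toMonoidHom))).trans_lt S.lt
  rw [← e] at a3
  have lt : Y < Y ⊔ Y.map (MulAut.conj x).toMonoidHom := left_lt_sup.2 hx
  generalize Y ⊔ Y.map (MulAut.conj x).toMonoidHom = Y' at a3 lt
  have a5 : p + 1 < (FS p Y').ncard := by nlinarith
  obtain ⟨Q1, R1, b1, b2, b3⟩ := (Set.one_lt_ncard_iff (s := FS p Y')).1 (by omega)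
  have n' : Y' ≠ ⊥ := ne_bot_of_gt lt
  obtain ⟨Z1, m1, m2, m3⟩ := g Y' Q1 R1 n' b1 b2 b3
  rcases h1b G p S Y' Z1 Q1 m1 m2 m3 with k | ⟨Z2, k1, k2, k3, k4⟩
  · rw [k, l1 Z1 m1] at a5; omega
  · exact n' (ih Y' lt Z2 Z1 Q1 k1 m1 k4 k3 m3 k2 m2)

theorem jobKF : JobKF.{u} := by
  intro G _ _ p U K n e t h _ P X Y δ ε d x y lam ω A kk a2 b2 hd ⟨κ, hκ⟩ u u1 up θ hθ
  obtain ⟨k1, k2, e1, e2⟩ := kk u u1 up θ hθ
  have B := A.cf.br
  have UK := A.cf.UK
  have hn := A.cf.hn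
  have two := A.cf.two
  have le := A.cf.le
  have te := B.te
  have tp := B.t_pos
  have hY := A.ty.hY θ hθ
  have Kp : K < p := by nlinarith
  obtain rfl : ε = 1 := B.sε.resolve_right fun k => by
    rw [k, hd] at hY
    have : (0 : ℤ) ≤ t * dg θ := by positivity
    nlinarith
  have dθ : dg θ = κ * (p + U) := Nat.eq_of_mul_eq_mul_left tp (by
    zify at UK hκ ⊢
    rw [hd] at hY
    linear_combination -hY + UK + (p + U) * hκ)
  have eU : e = U * κ := Nat.eq_of_mul_eq_mul_left tp (by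
    zify at UK hκ te ⊢
    linear_combination te + UK + U * hκ)
  have UK' : (p : ℂ) = U * K + 1 := by exact_mod_cast UK
  have hn' : (n : ℂ) + K + 1 = p + U := by exact_mod_cast hn
  have hκ' : (K : ℂ) = t * κ := by exact_mod_cast hκ
  have n1 : (U : ℂ) ≠ 0 := Nat.cast_ne_zero.2 (by omega)
  have n2 : (κ : ℂ) ≠ 0 := Nat.cast_ne_zero.2 (by rintro rfl; omega)
  have n3 : (p : ℂ) - K ≠ 0 := sub_ne_zero.2 (Nat.cast_injective.ne Kp.ne')
  have n4 : (p : ℂ) + U ≠ 0 := by exact_mod_cast (by omega : p + U ≠ 0)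
  have n5 : (p : ℂ) - 1 ≠ 0 := sub_ne_zero.2 (by exact_mod_cast B.hp.one_lt.ne')
  have n6 : (p : ℂ) ≠ 0 := Nat.cast_ne_zero.2 B.hp.ne_zero
  have s1 : ∑ χ ∈ X, (χ : G → ℂ) u / dg χ = 1 + (∑ χ ∈ A1 p U X δ, (χ : G → ℂ) u) / (U * (p - K)) +
      (∑ χ ∈ B1 p X δ, (χ : G → ℂ) u) / (p - 1) := by
    rw [A.ty.sum_X, Finset.card_eq_zero.1 a2, Finset.card_eq_zero.1 b2, Finset.sum_empty, add_zero, add_zero,
      dg_one, Finset.sum_div, Finset.sum_div]
    refine congrArg₂ _ (congrArg₂ _ (by simp [one]) (Finset.sum_congr rfl fun χ hχ => congrArg _ ?_))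
      (Finset.sum_congr rfl fun χ hχ => congrArg _ ?_)
    · have : (dg χ : ℂ) + p = U * p + 1 := by exact_mod_cast (Finset.mem_filter.1 hχ).2.2
      linear_combination this - UK'
    · have : (dg χ : ℂ) + 1 = p := by exact_mod_cast (Finset.mem_filter.1 hχ).2.2
      linear_combination this
  have s2 : (θ : G → ℂ) u = 1 + ∑ χ ∈ A1 p U X δ, (χ : G → ℂ) u - ∑ χ ∈ B1 p X δ, (χ : G → ℂ) u := by
    have := B.reg θ hθ u up
    rw [A.ty.sum_X, Finset.card_eq_zero.1 a2, Finset.card_eq_zero.1 b2, Finset.sum_empty, add_zero, add_zero,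
      Finset.sum_congr rfl (s₁ := A1 p U X δ) (g := fun χ => (χ : G → ℂ) u) fun χ hχ => by
        rw [(Finset.mem_filter.1 hχ).2.1]; simp,
      Finset.sum_congr rfl (s₁ := B1 p X δ) (g := fun χ => -(χ : G → ℂ) u) fun χ hχ => by
        rw [(Finset.mem_filter.1 hχ).2.1]; simp, B.δ_one, Finset.sum_neg_distrib] at this
    simpa [one, sub_eq_add_neg] using this
  rw [s1, dθ, eU] at e1 e2
  push_cast at e1 e2
  generalize ∑ χ ∈ A1 p U X δ, (χ : G → ℂ) u = α at *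
  generalize ∑ χ ∈ B1 p X δ, (χ : G → ℂ) u = β at *
  generalize Nat.card (Subgroup.centralizer ({u} : Set G)) = c at *
  have np : (n : ℂ) * p + 1 = (p - K) * (p + U) := by linear_combination p * hn' - UK'
  have f1 : ((k2 : ℂ) - k1) * c = U * (p - K) * (θ : G → ℂ) u := mul_left_cancel₀ n6 (by
    rw [show (p : ℂ) * ((k2 - k1) * c) = p * c * k2 - p * c * k1 by ring, e1, e2, np]
    field_simp
    ring)
  obtain ⟨z, hz⟩ : ∃ z : ℤ, (θ : G → ℂ) u = z := by
    have k : (θ : G → ℂ) u = ((((k2 : ℚ) - k1) * c / (U * (p - K)) : ℚ) : ℂ) := by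
      push_cast
      rw [f1]; field_simp
    obtain ⟨z, hz⟩ := H29.exists_int_of_isIntegral_rat (k ▸ θ.2.isCharacter.isIntegral u)
    exact ⟨z, by rw [k, hz]; simp⟩
  rw [hz] at f1 e1 s2
  refine ⟨k1, k2, z, hz, by exact_mod_cast f1, mul_left_cancel₀ n6 ?_, by linear_combination s2⟩
  rw [show (p : ℂ) * (t * k1 * c) = t * (p * c * k1) by ring, e1, np,
    show β = 1 + α - z by linear_combination s2, show (p : ℂ) - 1 = U * (t * κ) by linear_combination UK' + U * hκ']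
  have n7 : (t : ℂ) ≠ 0 := Nat.cast_ne_zero.2 tp.ne'
  field_simp
  rw [UK', hκ']
  ring

end H74.NG
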