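import Cfsg.Agent.Base

/-! O11 tower (row S3403): a class of subgroups of order 11 as a `G`-set, and the weight function. -/

set_option autoImplicit false

namespace H74.O11

open Subgroup MulAction

universe u

/-- The conjugacy class of subgroups of order 11, as a `G`-set `Ω` with `sub a` the subgroup. -/
structure Geo (G Ω : Type u) [Group G] [MulAction G Ω] where
  sub : Ω → Subgroup G
  card : ∀ a, Nat.card (sub a) = 11
  inj : Function.Injective sub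
  conj : ∀ (g : G) (a : Ω) (x : G), x ∈ sub a → g * x * g⁻¹ ∈ sub (g • a)
  trans : ∀ a b : Ω, ∃ g : G, g • a = b
  semi : ∀ (a c : Ω) (x : G), x ∈ sub a → x ≠ 1 → x • c = c → c = a
  gen : ⨆ a, sub a = ⊤

namespace Geo

variable {G Ω : Type u} [Group G] [MulAction G Ω] (Γ : Geo G Ω)

/-- the subgroup generated by two members -/
def L (a b : Ω) : Subgroup G := Γ.sub a ⊔ Γ.sub b
/-- `c` lies on the line through `a`, `b` -/
def On (a b c : Ω) : Prop := Γ.sub c ≤ Γ.L a b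
/-- centraliser of a member -/
def A (a : Ω) : Subgroup G := centralizer (Γ.sub a : Set G)
/-- centraliser of `L a b` -/
def Z (a b : Ω) : Subgroup G := centralizer (Γ.L a b : Set G)
/-- two-point stabiliser -/
abbrev H (_ : Geo G Ω) (a b : Ω) : Subgroup G := stabilizer G a ⊓ stabilizer G b

open Classical in
/-- the weight: if `g` fixes `a`, it raises the elements of `sub a` to the power `w g a`. -/
noncomputable def w (g : G) (a : Ω) : ZMod 11 :=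
  if h : ∃ k : ZMod 11, ∀ x ∈ Γ.sub a, g * x * g⁻¹ = x ^ k.val then h.choose else 0

theorem val_one : (1 : ZMod 11).val = 1 := rfl

theorem finite_sub (a : Ω) : Finite (Γ.sub a) :=
  Nat.finite_of_card_ne_zero (by rw [Γ.card]; norm_num)

theorem pow_eleven {a : Ω} {x : G} (hx : x ∈ Γ.sub a) : x ^ 11 = 1 := by
  have := pow_card_eq_one' (x := (⟨x, hx⟩ : Γ.sub a))
  rw [Γ.card] at this
  exact congrArg Subtype.val this

theorem orderOf_eq {a : Ω} {x : G} (hx : x ∈ Γ.sub a) (h1 : x ≠ 1) : orderOf x = 11 :=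
  haveI : Fact (Nat.Prime 11) := ⟨by norm_num⟩
  orderOf_eq_prime (Γ.pow_eleven hx) h1

theorem exists_ne_one (a : Ω) : ∃ x ∈ Γ.sub a, x ≠ 1 := by
  by_contra h
  push Not at h
  have : Γ.sub a = ⊥ := (eq_bot_iff_forall _).2 h
  have h2 := Γ.card a
  rw [this] at h2
  simp at h2

theorem zpowers_eq {a : Ω} {x : G} (hx : x ∈ Γ.sub a) (h1 : x ≠ 1) : zpowers x = Γ.sub a := by
  haveI := Γ.finite_sub a
  apply eq_of_le_of_card_ge (zpowers_le.2 hx)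
  rw [Γ.card, Nat.card_zpowers, Γ.orderOf_eq hx h1]

theorem exists_pow {a : Ω} {x y : G} (hx : x ∈ Γ.sub a) (h1 : x ≠ 1) (hy : y ∈ Γ.sub a) :
    ∃ k : ZMod 11, y = x ^ k.val := by
  rw [← Γ.zpowers_eq hx h1] at hy
  have hf : IsOfFinOrder x := by
    rw [← orderOf_pos_iff, Γ.orderOf_eq hx h1]; norm_num
  obtain ⟨n, rfl⟩ := (Submonoid.mem_powers_iff _ _).1 ((hf.mem_powers_iff_mem_zpowers).2 hy)
  refine ⟨(n : ZMod 11), ?_⟩
  rw [ZMod.val_natCast, ← Γ.orderOf_eq hx h1, pow_mod_orderOf]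

theorem pow_val_inj {a : Ω} {x : G} (hx : x ∈ Γ.sub a) (h1 : x ≠ 1) {k l : ZMod 11}
    (h : x ^ k.val = x ^ l.val) : k = l := by
  rw [pow_eq_pow_iff_modEq, Γ.orderOf_eq hx h1] at h
  apply ZMod.val_injective
  exact Nat.ModEq.eq_of_lt_of_lt h (ZMod.val_lt k) (ZMod.val_lt l)

theorem pow_val_mul {a : Ω} {x : G} (hx : x ∈ Γ.sub a) (k l : ZMod 11) :
    x ^ (k * l).val = (x ^ k.val) ^ l.val := by
  rw [← pow_mul, ZMod.val_mul]
  exact (pow_eq_pow_mod _ (Γ.pow_eleven hx)).symm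

theorem pow_val_add {a : Ω} {x : G} (hx : x ∈ Γ.sub a) (k l : ZMod 11) :
    x ^ (k + l).val = x ^ k.val * x ^ l.val := by
  rw [← pow_add, ZMod.val_add]
  exact (pow_eq_pow_mod _ (Γ.pow_eleven hx)).symm

theorem comm {a : Ω} {x y : G} (hx : x ∈ Γ.sub a) (hy : y ∈ Γ.sub a) : x * y = y * x := by
  by_cases h1 : x = 1
  · simp [h1]
  obtain ⟨k, rfl⟩ := Γ.exists_pow hx h1 hy
  exact (Commute.self_pow x _).eq

/-- two members with a common non-identity element are equal -/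
theorem eq_of_mem {a b : Ω} {x : G} (ha : x ∈ Γ.sub a) (hb : x ∈ Γ.sub b) (h1 : x ≠ 1) : a = b :=
  Γ.inj ((Γ.zpowers_eq ha h1).symm.trans (Γ.zpowers_eq hb h1))

theorem conj_iff (g : G) (a : Ω) (x : G) : g * x * g⁻¹ ∈ Γ.sub (g • a) ↔ x ∈ Γ.sub a :=
  ⟨fun h => by simpa [mul_assoc] using Γ.conj g⁻¹ _ _ h, Γ.conj g a x⟩

theorem sub_smul (g : G) (a : Ω) : Γ.sub (g • a) = (Γ.sub a).map (MulAut.conj g).toMonoidHom := by
  ext x
  constructor
  · intro h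
    refine ⟨g⁻¹ * x * g, ?_, by simp [mul_assoc]⟩
    simpa using Γ.conj g⁻¹ _ _ h
  · rintro ⟨y, hy, rfl⟩
    exact Γ.conj g a y hy

/-- an element carrying a non-identity element of `sub a` into `sub b` carries `a` to `b` -/
theorem smul_eq_of_conj {g x : G} {a b : Ω} (hx : x ∈ Γ.sub a) (h1 : x ≠ 1)
    (h : g * x * g⁻¹ ∈ Γ.sub b) : g • a = b :=
  Γ.eq_of_mem (Γ.conj g a x hx) h (by simpa using h1)

theorem w_spec {g : G} {a : Ω} (h : g • a = a) {x : G} (hx : x ∈ Γ.sub a) :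
    g * x * g⁻¹ = x ^ (Γ.w g a).val := by
  have he : ∃ k : ZMod 11, ∀ x ∈ Γ.sub a, g * x * g⁻¹ = x ^ k.val := by
    obtain ⟨x0, h0, h1⟩ := Γ.exists_ne_one a
    obtain ⟨k, hk⟩ := Γ.exists_pow h0 h1 (h ▸ Γ.conj g a x0 h0)
    refine ⟨k, fun y hy => ?_⟩
    obtain ⟨l, rfl⟩ := Γ.exists_pow h0 h1 hy
    rw [← conj_pow, hk, ← pow_mul, ← pow_mul, mul_comm]
  rw [w, dif_pos he]
  exact he.choose_spec x hx

theorem w_eq {g x : G} {a : Ω} (hx : x ∈ Γ.sub a) (h1 : x ≠ 1) {k : ZMod 11}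
    (h : g * x * g⁻¹ = x ^ k.val) : g • a = a ∧ Γ.w g a = k := by
  have hg : g • a = a := Γ.smul_eq_of_conj hx h1 (h ▸ pow_mem hx _)
  exact ⟨hg, Γ.pow_val_inj hx h1 ((Γ.w_spec hg hx).symm.trans h)⟩

theorem w_mul {g h : G} {a : Ω} (hg : g • a = a) (hh : h • a = a) :
    Γ.w (g * h) a = Γ.w g a * Γ.w h a := by
  obtain ⟨x, hx, h1⟩ := Γ.exists_ne_one a
  refine (Γ.w_eq hx h1 ?_).2
  rw [Γ.pow_val_mul hx, ← Γ.w_spec hg hx, conj_pow, ← Γ.w_spec hh hx]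
  group

theorem w_one (a : Ω) : Γ.w 1 a = 1 := by
  obtain ⟨x, hx, h1⟩ := Γ.exists_ne_one a
  exact (Γ.w_eq hx h1 (by rw [val_one]; simp)).2

theorem w_inv_mul {g : G} {a : Ω} (hg : g • a = a) : Γ.w g⁻¹ a * Γ.w g a = 1 := by
  rw [← Γ.w_mul (inv_smul_eq_iff.2 hg.symm) hg, inv_mul_cancel, w_one]

theorem w_ne_zero {g : G} {a : Ω} (hg : g • a = a) : Γ.w g a ≠ 0 := fun h => by
  have := Γ.w_inv_mul hg
  rw [h, mul_zero] at this
  exact absurd this (by decide)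

theorem pow_smul_of_fix {g : G} {a : Ω} (hg : g • a = a) (n : ℕ) : g ^ n • a = a :=
  (stabilizer G a).pow_mem hg n

theorem w_pow {g : G} {a : Ω} (hg : g • a = a) (n : ℕ) : Γ.w (g ^ n) a = Γ.w g a ^ n := by
  induction n with
  | zero => simp [w_one]
  | succ n ih => rw [pow_succ, Γ.w_mul (pow_smul_of_fix hg n) hg, ih, pow_succ]

theorem w_pow_ten {g : G} {a : Ω} (hg : g • a = a) : Γ.w g a ^ 10 = 1 := by
  have := Γ.w_ne_zero hg
  revert this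
  generalize Γ.w g a = k
  revert k
  decide

theorem w_conj (h : G) {g : G} {a : Ω} (hg : g • a = a) :
    Γ.w (h * g * h⁻¹) (h • a) = Γ.w g a := by
  obtain ⟨x, hx, h1⟩ := Γ.exists_ne_one a
  refine (Γ.w_eq (Γ.conj h a x hx) (by simpa using h1) ?_).2
  rw [conj_pow, ← Γ.w_spec hg hx]
  group

theorem mem_A {g : G} {a : Ω} : g ∈ Γ.A a ↔ ∀ x ∈ Γ.sub a, x * g = g * x := mem_centralizer_iff

theorem mem_A_iff {g : G} {a : Ω} : g ∈ Γ.A a ↔ g • a = a ∧ Γ.w g a = 1 := by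
  constructor
  · intro h
    obtain ⟨x, hx, h1⟩ := Γ.exists_ne_one a
    exact Γ.w_eq hx h1 (by rw [← Γ.mem_A.1 h x hx]; rw [val_one]; simp)
  · rintro ⟨hg, hw⟩
    refine Γ.mem_A.2 fun x hx => ?_
    have := Γ.w_spec hg hx
    rw [hw, val_one, pow_one] at this
    calc x * g = g * x * g⁻¹ * g := by rw [this]
      _ = g * x := by group

theorem sub_le_A (a : Ω) : Γ.sub a ≤ Γ.A a := fun _ hx => Γ.mem_A.2 fun _ hy => Γ.comm hy hx

theorem smul_self {a : Ω} {x : G} (hx : x ∈ Γ.sub a) : x • a = a :=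
  (Γ.mem_A_iff.1 (Γ.sub_le_A a hx)).1

theorem w_sub {a : Ω} {x : G} (hx : x ∈ Γ.sub a) : Γ.w x a = 1 :=
  (Γ.mem_A_iff.1 (Γ.sub_le_A a hx)).2

theorem conj_mem_A (g : G) {h : G} {a : Ω} (hh : h ∈ Γ.A a) : g * h * g⁻¹ ∈ Γ.A (g • a) := by
  obtain ⟨h1, h2⟩ := Γ.mem_A_iff.1 hh
  exact Γ.mem_A_iff.2 ⟨by simp [mul_smul, h1], by rw [Γ.w_conj g h1, h2]⟩

theorem L_comm (a b : Ω) : Γ.L a b = Γ.L b a := sup_comm _ _
theorem on_left (a b : Ω) : Γ.On a b a := le_sup_left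
theorem on_right (a b : Ω) : Γ.On a b b := le_sup_right
theorem Z_comm (a b : Ω) : Γ.Z a b = Γ.Z b a := by rw [Z, L_comm]; rfl
theorem on_comm {a b c : Ω} : Γ.On a b c ↔ Γ.On b a c := by rw [On, L_comm]; rfl

theorem L_smul (g : G) (a b : Ω) :
    Γ.L (g • a) (g • b) = (Γ.L a b).map (MulAut.conj g).toMonoidHom := by
  rw [L, L, Subgroup.map_sup, sub_smul, sub_smul]

theorem conj_mem_L (g : G) {a b : Ω} {x : G} (hx : x ∈ Γ.L a b) :
    g * x * g⁻¹ ∈ Γ.L (g • a) (g • b) := by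
  rw [L_smul]; exact ⟨x, hx, rfl⟩

theorem card_L_smul (g : G) (a b : Ω) : Nat.card (Γ.L (g • a) (g • b)) = Nat.card (Γ.L a b) := by
  rw [L_smul]
  exact card_map_of_injective (MulAut.conj g).injective

theorem on_smul (g : G) {a b c : Ω} (h : Γ.On a b c) : Γ.On (g • a) (g • b) (g • c) := by
  rw [On, L_smul, sub_smul]; exact map_mono h

theorem on_smul_iff (g : G) {a b c : Ω} : Γ.On (g • a) (g • b) (g • c) ↔ Γ.On a b c :=
  ⟨fun h => by simpa using Γ.on_smul g⁻¹ h, Γ.on_smul g⟩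

/-- a subgroup normalised by `g` containing `sub c` contains `sub (g • c)` -/
theorem sub_smul_le {J : Subgroup G} {g : G} (hg : ∀ x ∈ J, g * x * g⁻¹ ∈ J) {c : Ω}
    (hc : Γ.sub c ≤ J) : Γ.sub (g • c) ≤ J := by
  rw [sub_smul]
  rintro _ ⟨x, hx, rfl⟩
  exact hg x (hc hx)

theorem on_smul_of_mem {a b c : Ω} {g : G} (hg : g ∈ Γ.L a b) (h : Γ.On a b c) :
    Γ.On a b (g • c) :=
  Γ.sub_smul_le (fun _ hx => mul_mem (mul_mem hg hx) (inv_mem hg)) h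

theorem mem_Z {a b : Ω} {z : G} : z ∈ Γ.Z a b ↔ ∀ x ∈ Γ.L a b, x * z = z * x := mem_centralizer_iff

theorem mem_Z_iff {a b : Ω} {z : G} : z ∈ Γ.Z a b ↔ z ∈ Γ.A a ∧ z ∈ Γ.A b := by
  constructor
  · intro h
    exact ⟨Γ.mem_A.2 fun x hx => Γ.mem_Z.1 h x (Γ.on_left a b hx),
      Γ.mem_A.2 fun x hx => Γ.mem_Z.1 h x (Γ.on_right a b hx)⟩
  · rintro ⟨h1, h2⟩
    have : Γ.L a b ≤ centralizer {z} := sup_le
      (fun x hx => mem_centralizer_singleton_iff.2 (Γ.mem_A.1 h1 x hx))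
      (fun x hx => mem_centralizer_singleton_iff.2 (Γ.mem_A.1 h2 x hx))
    exact Γ.mem_Z.2 fun x hx => mem_centralizer_singleton_iff.1 (this hx)

theorem Z_le_A {a b c : Ω} (h : Γ.On a b c) : Γ.Z a b ≤ Γ.A c :=
  fun _ hz => Γ.mem_A.2 fun x hx => Γ.mem_Z.1 hz x (h hx)

theorem conj_mem_Z (g : G) {a b : Ω} {z : G} (hz : z ∈ Γ.Z a b) :
    g * z * g⁻¹ ∈ Γ.Z (g • a) (g • b) :=
  Γ.mem_Z_iff.2 ⟨Γ.conj_mem_A g (Γ.mem_Z_iff.1 hz).1, Γ.conj_mem_A g (Γ.mem_Z_iff.1 hz).2⟩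

theorem mem_H {a b : Ω} {g : G} : g ∈ Γ.H a b ↔ g • a = a ∧ g • b = b := Iff.rfl

theorem Z_le_H (a b : Ω) : Γ.Z a b ≤ Γ.H a b := fun _ hz =>
  ⟨(Γ.mem_A_iff.1 (Γ.mem_Z_iff.1 hz).1).1, (Γ.mem_A_iff.1 (Γ.mem_Z_iff.1 hz).2).1⟩

/-- an element centralising a subgroup centralises (so fixes, with weight 1) every member inside it -/
theorem cent_mem_A {J : Subgroup G} {z : G} (hz : z ∈ centralizer (J : Set G)) {c : Ω}
    (hc : Γ.sub c ≤ J) : z ∈ Γ.A c :=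
  Γ.mem_A.2 fun x hx => mem_centralizer_iff.1 hz x (hc hx)

end Geo

end H74.O11
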