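import Cfsg.Agent.H74.O11Spec

/-! O11 tower: the two counting slots. -/

set_option autoImplicit false

namespace H74.O11

open Subgroup MulAction

universe u

theorem jobCC : JobCC.{u} := by
  intro G X _ _ _ A g S hn hS h1 x hx ⟨α0, hα0, hfix⟩ α hα
  classical
  -- the map (β, γ) ↦ g⁻¹ β g α0 γ β⁻¹ from (orbit) × (stabiliser) to `A` is injective
  let T := stabilizer A x
  let rep : A ⧸ T → A := fun q => q.out
  have hmem : ∀ (β : A) (γ : T), g⁻¹ * β * g * α0 * (γ : A) * (β : G)⁻¹ ∈ A := fun β γ =>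
    mul_mem (mul_mem (mul_mem (hn β β.2) hα0) (γ : A).2) (inv_mem β.2)
  have hfx : ∀ (β : A) (γ : T),
      (g * (g⁻¹ * β * g * α0 * (γ : A) * (β : G)⁻¹)) • ((β : G) • x) = (β : G) • x := by
    intro β γ
    have hγ : ((γ : A) : G) • x = x := γ.2
    have : g * (g⁻¹ * β * g * α0 * (γ : A) * (β : G)⁻¹) = β * (g * α0) * (γ : A) * (β : G)⁻¹ := by
      group
    rw [this, mul_smul, mul_smul, mul_smul, inv_smul_smul, hγ, hfix]
  let f : (A ⧸ T) × T → A := fun p => ⟨_, hmem (rep p.1) p.2⟩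
  have hinj : Function.Injective f := by
    rintro ⟨q, γ⟩ ⟨q', γ'⟩ he
    have he' : g⁻¹ * rep q * g * α0 * (γ : A) * (rep q : G)⁻¹ =
        g⁻¹ * rep q' * g * α0 * (γ' : A) * (rep q' : G)⁻¹ := congrArg Subtype.val he
    have e1 : (rep q : G) • x = (rep q' : G) • x :=
      h1 _ (hmem (rep q) γ) _ (hS _ (rep q).2 x hx) _ (hS _ (rep q').2 x hx) (hfx _ _)
        (he' ▸ hfx _ _)
    have hq : q = q' := by
      rw [← q.out_eq', ← q'.out_eq', QuotientGroup.eq]
      show ((rep q)⁻¹ * rep q') • x = x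
      rw [mul_smul, inv_smul_eq_iff]
      exact e1.symm
    subst hq
    have : ((γ : A) : G) = (γ' : A) := by simpa using he'
    exact Prod.ext rfl (Subtype.ext (Subtype.ext this))
  have hcard : Nat.card ((A ⧸ T) × T) = Nat.card A := by
    rw [Nat.card_prod, ← card_eq_card_quotient_mul_card_subgroup]
  obtain ⟨p, hp⟩ := (hinj.bijective_of_nat_card_le hcard.ge).2 ⟨α, hα⟩
  have hp' : g⁻¹ * rep p.1 * g * α0 * (p.2 : A) * (rep p.1 : G)⁻¹ = α := congrArg Subtype.val hp
  exact ⟨rep p.1, (rep p.1).2, hp' ▸ hfx _ _⟩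

section Cnt

variable {G Ω : Type u} [Group G] [Finite G] [MulAction G Ω] [Finite Ω]

/-- double count of a relation between `C` and the ordered pairs of distinct points -/
theorem dcount (C : Set G) (r : G → Ω → Ω → Prop) (m n : ℕ)
    (h1 : ∀ t ∈ C, {p : Ω × Ω | p.1 ≠ p.2 ∧ r t p.1 p.2}.ncard = m)
    (h2 : ∀ a b, a ≠ b → {t | t ∈ C ∧ r t a b}.ncard = n) :
    C.ncard * m = Nat.card Ω * (Nat.card Ω - 1) * n := by
  classical
  haveI := Fintype.ofFinite G
  haveI := Fintype.ofFinite Ω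
  have key := Finset.card_mul_eq_card_mul (s := C.toFinset)
    (t := (Finset.univ : Finset Ω).offDiag) (fun t p => r t p.1 p.2) (m := m) (n := n)
    (fun t ht => by
      rw [← h1 t (by simpa using ht), Set.ncard_eq_toFinset_card']
      congr 1
      ext p
      simp [Finset.bipartiteAbove])
    (fun p hp => by
      rw [← h2 p.1 p.2 (by simpa using hp), Set.ncard_eq_toFinset_card']
      congr 1
      ext t
      simp [Finset.bipartiteBelow])
  rw [Set.ncard_eq_toFinset_card', key, Finset.offDiag_card, Finset.card_univ,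
    Nat.card_eq_fintype_card, Nat.mul_sub_one]

theorem ncard_conj (C : Set G) (hC : ∀ g t : G, t ∈ C → g * t * g⁻¹ ∈ C) (r : G → Ω → Ω → Prop)
    (hr : ∀ g t a b, r t a b → r (g * t * g⁻¹) (g • a) (g • b)) (g : G) (a b : Ω) :
    {t | t ∈ C ∧ r t (g • a) (g • b)}.ncard = {t | t ∈ C ∧ r t a b}.ncard := by
  symm
  refine Set.ncard_congr (fun t _ => g * t * g⁻¹) (fun t ht => ⟨hC _ _ ht.1, hr _ _ _ _ ht.2⟩)
    (fun s t _ _ h => by simpa using h) (fun t ht => ⟨g⁻¹ * t * g, ⟨?_, ?_⟩, by group⟩)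
  · simpa using hC g⁻¹ t ht.1
  · simpa using hr g⁻¹ t _ _ ht.2

end Cnt

theorem jobCnt : JobCnt.{u} := by
  intro G Ω _ _ _ _ h2 C hC φ hφ a b hab
  classical
  constructor
  · refine dcount C (fun t c d => t • c = c ∧ t • d = d) _ _ (fun t ht => ?_) (fun c d hcd => ?_)
    · haveI := Fintype.ofFinite Ω
      have : {p : Ω × Ω | p.1 ≠ p.2 ∧ t • p.1 = p.1 ∧ t • p.2 = p.2} =
          ({c : Ω | t • c = c}.toFinset.offDiag : Finset (Ω × Ω)) := by
        ext p
        simp only [Set.mem_setOf_eq, Finset.mem_coe, Finset.mem_offDiag, Set.mem_toFinset]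
        tauto
      rw [this, Set.ncard_coe_finset, Finset.offDiag_card, ← Set.ncard_eq_toFinset_card', hφ t ht,
        Nat.mul_sub_one]
    · obtain ⟨g, rfl, rfl⟩ := h2 a b c d hab hcd
      exact ncard_conj C hC (fun t c d => t • c = c ∧ t • d = d)
        (fun g t a b h => by simp [mul_smul, h.1, h.2]) g a b
  · refine dcount C (fun t c d => t • c = d) _ _ (fun t ht => ?_) (fun c d hcd => ?_)
    · rw [← hφ t ht, ← Set.ncard_univ, ← Set.ncard_diff (Set.subset_univ _)]
      refine Set.ncard_congr (fun p _ => p.1) (fun p hp => ⟨trivial, fun h => ?_⟩)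
        (fun p q hp hq h => Prod.ext h (by rw [← hp.2, ← hq.2, h]))
        (fun c hc => ⟨(c, t • c), ⟨fun h => hc.2 h.symm, rfl⟩, rfl⟩)
      exact hp.1 (h.symm.trans hp.2)
    · obtain ⟨g, rfl, rfl⟩ := h2 a b c d hab hcd
      exact ncard_conj C hC (fun t c d => t • c = d)
        (fun g t a b h => by simp [mul_smul, h]) g a b

end H74.O11
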