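import Cfsg.Agent.H74.O11Res

/-! O11 tower: slot IIa. -/

set_option autoImplicit false

namespace H74.O11

open Subgroup MulAction

universe u

variable {G Ω : Type u} [Group G] [MulAction G Ω] {Γ : Geo G Ω}

theorem nm_L_fix {g : G} {c d : Ω} (hc : g • c = c) (hd : g • d = d) : Nm g (Γ.L c d) :=
  fun _ hx => conj_H_L ⟨hc, hd⟩ hx

theorem nm_L_swap {g : G} {c d : Ω} (hc : g • c = d) (hd : g • d = c) : Nm g (Γ.L c d) :=
  fun x hx => by
    have := Γ.conj_mem_L g hx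
    rwa [hc, hd, Γ.L_comm] at this

theorem Nm.mul {g h : G} {J : Subgroup G} (hg : Nm g J) (hh : Nm h J) : Nm (g * h) J :=
  fun x hx => by simpa [mul_assoc] using hg _ (hh x hx)

theorem Nm.of_mem {g : G} {J : Subgroup G} (hg : g ∈ J) : Nm g J :=
  fun _ hx => mul_mem (mul_mem hg hx) (inv_mem hg)

/-- an element normalising a block acts on it as an element of the block -/
theorem JBlk.dec {J : Subgroup G} (hb : JBlk Γ J) {g : G} (hg : Nm g J) :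
    ∃ j ∈ J, ∃ z ∈ centralizer (J : Set G), g = j * z ∧ ∀ e, Γ.sub e ≤ J →
      g • e = j • e ∧ (j • e = e → Γ.w g e = Γ.w j e) := by
  obtain ⟨j, hj, hz⟩ := hb.aut g hg
  refine ⟨j, hj, _, hz, by simp, fun e he => ?_⟩
  have hA := Γ.cent_mem_A hz he
  have : g = j * (j⁻¹ * g) := by simp
  refine ⟨by rw [this, mul_smul, A_fix hA], fun h => ?_⟩
  rw [this, Γ.w_mul h (A_fix hA), A_w hA, mul_one]

theorem JBlk.eq_of_le [Finite G] {J J' : Subgroup G} (hb : JBlk Γ J) (hb' : JBlk Γ J')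
    (h : J ≤ J') : J = J' := eq_of_le_of_card_ge h (by rw [hb.card, hb'.card])

theorem JBlk.fix5' {J : Subgroup G} (hb : JBlk Γ J) {g : G} (hg : Nm g J) {c : Ω}
    (hc : Γ.sub c ≤ J) (gc : g • c = c) (hw : Ord5 (Γ.w g c)) :
    (∀ e, Γ.sub e ≤ J → g • e = e → Γ.w g e = Γ.w g c ∨ Γ.w g e * Γ.w g c = 1) ∧
    {e | Γ.sub e ≤ J ∧ g • e = e ∧ Γ.w g e = Γ.w g c}.ncard = 3 ∧
    {e | Γ.sub e ≤ J ∧ g • e = e ∧ Γ.w g e * Γ.w g c = 1}.ncard = 3 ∧
    ∃ t ∈ J, t * t = 1 ∧ t * g = g * t ∧ t • c = c ∧ Γ.w t c = -1 := by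
  obtain ⟨j, hj, z, hz, e, h⟩ := hb.dec hg
  have jc : j • c = c := (h c hc).1.symm.trans gc
  have wc := (h c hc).2 jc
  obtain ⟨h1, h2, h3, t, ht, t1, t2, t3⟩ := hb.fix5 j hj c hc jc (wc ▸ hw)
  have hs : ∀ p : ZMod 11 → Prop, {e | Γ.sub e ≤ J ∧ g • e = e ∧ p (Γ.w g e)} =
      {e | Γ.sub e ≤ J ∧ j • e = e ∧ p (Γ.w j e)} := fun p => Set.ext fun e =>
    and_congr_right fun he => by
      rw [(h e he).1]
      exact and_congr_right fun je => by rw [(h e he).2 je]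
  rw [wc]
  refine ⟨fun e he ge => ?_, (congrArg _ (hs (· = Γ.w j c))).trans h2,
    (congrArg _ (hs (· * Γ.w j c = 1))).trans h3, t, ht, t1, ?_, t3⟩
  · have je := (h e he).1.symm.trans ge
    rw [(h e he).2 je]
    exact h1 e he je
  · rw [e, ← mul_assoc, t2, mul_assoc, mem_centralizer_iff.1 hz t ht, mul_assoc]

theorem JBlk.fix10' {J : Subgroup G} (hb : JBlk Γ J) {g : G} (hg : Nm g J) {c : Ω}
    (hc : Γ.sub c ≤ J) (gc : g • c = c) (hw : Ord10 (Γ.w g c)) :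
    ∃ d, d ≠ c ∧ Γ.sub d ≤ J ∧ g • d = d ∧ Γ.w g d * Γ.w g c = 1 ∧
      ∀ e, Γ.sub e ≤ J → g • e = e → e = c ∨ e = d := by
  obtain ⟨j, hj, z, hz, e, h⟩ := hb.dec hg
  have jc : j • c = c := (h c hc).1.symm.trans gc
  have wc := (h c hc).2 jc
  obtain ⟨d, h1, h2, h3, h4, h5⟩ := hb.fix10 j hj c hc jc (wc ▸ hw)
  exact ⟨d, h1, h2, (h d h2).1.trans h3, by rw [wc, (h d h2).2 h3, h4],
    fun e he ge => h5 e he ((h e he).1.symm.trans ge)⟩

namespace Two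

variable [Finite G] (h : Two Γ)
include h

omit [Finite G] in
theorem w1 (g : G) (c d : Ω) (gc : g • c = c) (gd : g • d = d) (hw : Γ.w g c = 1) :
    Γ.w g d = 1 := by
  by_cases e : c = d
  · exact e ▸ hw
  rcases h.pair c d e with lp | hb
  · simpa [hw] using lp.wt g gc gd
  · obtain ⟨j, hj, z, hz, -, h'⟩ := hb.dec (nm_L_fix gc gd)
    have jc := (h' c (Γ.on_left c d)).1.symm.trans gc
    have jd := (h' d (Γ.on_right c d)).1.symm.trans gd
    have := sub_eq_one e (hb.wt1 j hj c (Γ.on_left c d) jc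
      (((h' c (Γ.on_left c d)).2 jc).symm.trans hw)) jd
    rw [(h' d (Γ.on_right c d)).2 jd, this, Γ.w_one]

omit [Finite G] in
theorem w10 (g : G) (c d : Ω) (e : c ≠ d) (gc : g • c = c) (gd : g • d = d)
    (hw : Ord10 (Γ.w g c)) : Γ.w g d * Γ.w g c = 1 := by
  rcases h.pair c d e with lp | hb
  · rw [mul_comm]; exact lp.wt g gc gd
  · obtain ⟨d', -, -, -, h4, h5⟩ := hb.fix10' (nm_L_fix gc gd) (Γ.on_left c d) gc hw
    rcases h5 d (Γ.on_right c d) gd with e' | e'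
    · exact absurd e'.symm e
    · exact e' ▸ h4

omit [Finite G] in
theorem w5 (g : G) (c d : Ω) (e : c ≠ d) (gc : g • c = c) (gd : g • d = d)
    (hw : Ord5 (Γ.w g c)) : Γ.w g d * Γ.w g c = 1 ∨ (Γ.w g d = Γ.w g c ∧ JBlk Γ (Γ.L c d)) := by
  rcases h.pair c d e with lp | hb
  · left; rw [mul_comm]; exact lp.wt g gc gd
  · exact ((hb.fix5' (nm_L_fix gc gd) (Γ.on_left c d) gc hw).1 d (Γ.on_right c d) gd).symm.imp_right
      fun h => ⟨h, hb⟩

omit [Finite G] in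
theorem two10 (g : G) (c d e : Ω) (dc : d ≠ c) (ec : e ≠ c) (gc : g • c = c) (gd : g • d = d)
    (ge : g • e = e) (hw : Ord10 (Γ.w g c)) : d = e := by
  by_contra de
  have h1 := h.w10 g c d dc.symm gc gd hw
  have h2 := h.w10 g c e ec.symm gc ge hw
  have dec : ∀ k l : ZMod 11, l * k = 1 → Ord10 k → Ord10 l := by unfold Ord10; decide
  have h3 := h.w10 g d e de gd ge (dec _ _ h1 hw)
  have dec2 : ∀ k l m : ZMod 11, l * k = 1 → m * k = 1 → m * l = 1 → k ^ 2 = 1 := by decide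
  exact hw.1 (dec2 _ _ _ h1 h2 h3)

theorem gen10 (J : Subgroup G) (hb : JBlk Γ J) (g : G) (c d : Ω) (e : c ≠ d) (hg : Nm g J)
    (hc : Γ.sub c ≤ J) (hd : Γ.sub d ≤ J) (gc : g • c = c) (gd : g • d = d)
    (hw : Ord10 (Γ.w g c)) : Γ.L c d = J := by
  obtain ⟨j, hj, z, hz, -, h'⟩ := hb.dec hg
  have jc := (h' c hc).1.symm.trans gc
  exact ((h.pair c d e).resolve_left (hb.notL j hj c d hc hd jc ((h' d hd).1.symm.trans gd)
    ((h' c hc).2 jc ▸ hw))).eq_of_le hb (sup_le hc hd)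

theorem isL {J : Subgroup G} (hb : JBlk Γ J) {c : Ω} (hc : Γ.sub c ≤ J) :
    ∃ d, ∃ j ∈ J, d ≠ c ∧ j • c = c ∧ j • d = d ∧ Γ.w j c = 2 ∧ Γ.L c d = J := by
  obtain ⟨j, hj, jc, hw⟩ := hb.ex10 c hc
  have h10 : Ord10 (Γ.w j c) := by rw [hw]; unfold Ord10; decide
  obtain ⟨d, dc, hd, jd, -⟩ := hb.fix10 j hj c hc jc h10
  exact ⟨d, j, hj, dc, jc, jd, hw, h.gen10 J hb j c d dc.symm (Nm.of_mem hj) hc hd jc jd h10⟩

theorem conjB (g : G) (J : Subgroup G) (hb : JBlk Γ J) :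
    JBlk Γ (J.map (MulAut.conj g).toMonoidHom) := by
  obtain ⟨c, hc⟩ := hb.ex
  obtain ⟨d, -, -, dc, -, -, -, e⟩ := h.isL hb hc
  rw [← e, ← Γ.L_smul]
  refine (h.pair _ _ fun e => dc (smul_left_cancel g e).symm).resolve_left fun lp => ?_
  have := lp.card
  rw [Γ.card_L_smul, e, hb.card] at this
  omega

theorem m1 (g : G) (a : Ω) (J J' : Subgroup G) (ga : g • a = a) (hw : Ord5 (Γ.w g a))
    (hb : JBlk Γ J) (hb' : JBlk Γ J') (ha : Γ.sub a ≤ J) (ha' : Γ.sub a ≤ J') (hg : Nm g J)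
    (hg' : Nm g J') : J = J' := by
  obtain ⟨-, -, -, t, ht, tt, tg, ta, wt⟩ := hb.fix5' hg ha ga hw
  have tga : (t * g) • a = a := by rw [mul_smul, ga, ta]
  have w10 : Ord10 (Γ.w (t * g) a) := by
    rw [Γ.w_mul ta ga, wt]
    revert hw; generalize Γ.w g a = k; revert k; unfold Ord5 Ord10; decide
  have inv : ∀ e, g • e = e → g • t • e = t • e ∧ Γ.w g (t • e) = Γ.w g e := fun e ge => by
    refine ⟨by rw [← mul_smul, ← tg, mul_smul, ge], ?_⟩
    have := Γ.w_conj t ge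
    rwa [tg, mul_inv_cancel_right] at this
  have only : ∀ e, g • e = e → Γ.w g e = Γ.w g a → t • e = e → e = a := fun e ge we te => by
    by_contra ne
    have h1 := h.w10 (t * g) a e (Ne.symm ne) tga (by rw [mul_smul, ge, te]) w10
    have h2 : Γ.w t e * Γ.w t e = 1 := by rw [← Γ.w_mul te te, tt, Γ.w_one]
    rw [Γ.w_mul te ge, Γ.w_mul ta ga, wt, we] at h1
    revert hw h1 h2
    generalize Γ.w g a = k; generalize Γ.w t e = l
    revert k l; unfold Ord5; decide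
  have blk : ∀ c d, c ≠ d → g • c = c → g • d = d → Γ.w g c = Γ.w g a → Γ.w g d = Γ.w g a →
      JBlk Γ (Γ.L c d) := fun c d cd gc gd wc wd => by
    refine ((h.w5 g c d cd gc gd (wc ▸ hw)).resolve_left fun e => ?_).2
    rw [wc, wd] at e
    revert hw e; generalize Γ.w g a = k; revert k; unfold Ord5; decide
  obtain ⟨-, h3, -⟩ := hb'.fix5' hg' ha' ga hw
  obtain ⟨b, ⟨hbJ, gb, wb⟩, ba⟩ := Set.exists_ne_of_one_lt_ncard (by rw [h3]; norm_num) a
  have tb : b ≠ t • b := fun e => ba (only b gb wb e.symm)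
  have h3b := blk b (t • b) tb gb (inv b gb).1 wb ((inv b gb).2.trans wb)
  have tn : Nm t (Γ.L b (t • b)) := nm_L_swap rfl (by rw [← mul_smul, tt, one_smul])
  obtain ⟨-, h4, -⟩ := h3b.fix5' (nm_L_fix gb (inv b gb).1) (Γ.on_left _ _) gb (wb ▸ hw)
  obtain ⟨e, ⟨he, ge, we⟩, te⟩ := exists_fix_of_odd tt
    {e | Γ.sub e ≤ Γ.L b (t • b) ∧ g • e = e ∧ Γ.w g e = Γ.w g b} (fun e he =>
    ⟨Γ.sub_smul_le tn he.1, (inv e he.2.1).1, (inv e he.2.1).2.trans he.2.2⟩) (by rw [h4]; decide)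
  obtain rfl := only e ge (we.trans wb) te
  have hab := blk e b ba.symm ge gb rfl wb
  have e1 : J' = Γ.L b (t • b) := (hab.eq_of_le hb' (sup_le ha' hbJ)).symm.trans
    (hab.eq_of_le h3b (sup_le he (Γ.on_left _ _)))
  have n1 : Nm (t * g) J := (Nm.of_mem ht).mul hg
  have n2 : Nm (t * g) J' := Nm.mul (e1 ▸ tn) hg'
  obtain ⟨d, da, hd, gd, -⟩ := hb.fix10' n1 ha tga w10
  obtain ⟨d', da', hd', gd', -⟩ := hb'.fix10' n2 ha' tga w10
  obtain rfl := h.two10 _ e d d' da da' tga gd gd' w10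
  exact (h.gen10 J hb _ e d da.symm n1 ha hd tga gd w10).symm.trans
    (h.gen10 J' hb' _ e d da.symm n2 ha' hd' tga gd w10)

end Two

theorem jobIIa : JobIIa.{u} := fun _ _ _ _ _ _ _ h =>
  ⟨h.w1, h.w10, h.w5, h.two10, h.gen10, h.conjB, h.m1⟩

theorem jobIIb : JobIIb.{u} := by
  intro hCC G Ω _ _ _ _ Γ h _
  have o2 : Ord10 2 := by unfold Ord10; decide
  -- every element with weight of order 5 at `a` normalises a block through `a`
  have key : ∀ (a : Ω) (g : G), g • a = a → Ord5 (Γ.w g a) →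
      ∃ J, JBlk Γ J ∧ Γ.sub a ≤ J ∧ Nm g J := by
    intro a g ga hw
    obtain ⟨p, q, -, hb⟩ := h.exJ
    obtain ⟨f, rfl⟩ := Γ.trans p a
    have hb0 := h.conjB f _ hb
    rw [← Γ.L_smul] at hb0
    obtain ⟨d0, g0, -, d0a, g0a, g0d, w0, e0⟩ := h.isL hb0 (Γ.on_left _ _)
    generalize f • p = a at *
    rw [← e0] at hb0
    let S : Set Ω := {d | d ≠ a ∧ ∃ g : G, g • a = a ∧ g • d = d ∧ Γ.w g a = 2}
    have nA : ∀ g : G, g • a = a → ∀ α ∈ Γ.A a, g⁻¹ * α * g ∈ Γ.A a := fun g hg α hα => by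
      simpa [inv_smul_eq_iff.2 hg.symm] using Γ.conj_mem_A g⁻¹ hα
    have hS : ∀ α ∈ Γ.A a, ∀ x ∈ S, α • x ∈ S := fun α hα x ⟨h1, g, h2, h3, h4⟩ =>
      ⟨smul_ne (A_fix hα) h1, α * g * α⁻¹, by simp [mul_smul, inv_smul_eq_iff.2 (A_fix hα).symm, h2, A_fix hα],
        by simp [mul_smul, h3], by simpa [A_fix hα, h4] using Γ.w_conj α h2⟩
    have wA : ∀ g : G, g • a = a → ∀ α ∈ Γ.A a, (g * α) • a = a ∧ Γ.w (g * α) a = Γ.w g a :=
      fun g hg α hα => ⟨by rw [mul_smul, A_fix hα, hg], by rw [Γ.w_mul hg (A_fix hα), A_w hα, mul_one]⟩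
    have quo : ∀ g g' : G, g • a = a → g' • a = a → Γ.w g' a = Γ.w g a → g⁻¹ * g' ∈ Γ.A a :=
      fun g g' hg hg' e => Γ.mem_A_iff.2 ⟨by rw [mul_smul, hg', inv_smul_eq_iff, hg],
        by rw [Γ.w_mul (inv_smul_eq_iff.2 hg.symm) hg', e, Γ.w_inv_mul hg]⟩
    have d0S : d0 ∈ S := ⟨d0a, g0, g0a, g0d, w0⟩
    have blk : ∀ d ∈ S, JBlk Γ (Γ.L a d) := by
      rintro d ⟨da, g1, g1a, g1d, w1⟩
      obtain ⟨β, hβ, e⟩ := hCC G Ω (Γ.A a) g0 S (nA g0 g0a) hS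
        (fun α hα x hx y hy ex ey => h.two10 _ a x y hx.1 hy.1 (wA g0 g0a α hα).1 ex ey
          (by rw [(wA g0 g0a α hα).2, w0]; exact o2))
        d0 d0S ⟨1, one_mem _, by simpa using g0d⟩ _ (quo g0 g1 g0a g1a (w1.trans w0.symm))
      rw [mul_inv_cancel_left] at e
      have := h.two10 g1 a d _ da (smul_ne (A_fix hβ) d0a) g1a g1d e (by rw [w1]; exact o2)
      have hb1 := h.conjB β _ hb0
      rwa [← Γ.L_smul, A_fix hβ, ← this] at hb1
    have one : ∀ g : G, g • a = a → Ord5 (Γ.w g a) → ∀ x ∈ S, ∀ y ∈ S, g • x = x → g • y = y →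
        x = y := by
      intro g ga hw x hx y hy gx gy
      have e := h.m1 g a _ _ ga hw (blk x hx) (blk y hy) (Γ.on_left _ _) (Γ.on_left _ _)
        (nm_L_fix ga gx) (nm_L_fix ga gy)
      have hb := blk x hx
      obtain ⟨j, hj, -, -, -, hd⟩ := hb.dec (nm_L_fix ga gx)
      have ja := (hd a (Γ.on_left _ _)).1.symm.trans ga
      have wj := (hd a (Γ.on_left _ _)).2 ja
      obtain ⟨k, -, hk⟩ : ∃ k < 10, (2 : ZMod 11) ^ k = Γ.w j a := by
        have := Γ.w_ne_zero ja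
        revert this; generalize Γ.w j a = l; revert l; decide
      have step : ∀ z ∈ S, Γ.sub z ≤ Γ.L a x → g • z = z → Nm g (Γ.L a z) → Γ.L a x = Γ.L a z →
          ∃ i ∈ Γ.L a x, i • a = a ∧ i • z = z ∧ Γ.w i a = 2 ∧ i * j = j * i := by
        rintro z ⟨za, g1, g1a, g1z, w1⟩ hz gz - ez
        obtain ⟨i, hi, -, -, -, hd1⟩ := hb.dec (g := g1) (by rw [ez]; exact nm_L_fix g1a g1z)
        have ia := (hd1 a (Γ.on_left _ _)).1.symm.trans g1a
        have iz := (hd1 z hz).1.symm.trans g1z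
        have wi := ((hd1 a (Γ.on_left _ _)).2 ia).symm.trans w1
        have hq := quo j (i ^ k) ja (Geo.pow_smul_of_fix ia k) (by rw [Γ.w_pow ia, wi, hk])
        have := sub_eq_one za.symm (hb.wt1 _ (mul_mem (inv_mem hj) (pow_mem hi k)) a (Γ.on_left _ _)
          (A_fix hq) (A_w hq)) (by
            rw [mul_smul, Geo.pow_smul_of_fix iz, inv_smul_eq_iff, ← (hd z hz).1, gz])
        exact ⟨i, hi, ia, iz, wi, by rw [inv_mul_eq_one.1 this]; exact (Commute.self_pow i k).eq⟩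
      obtain ⟨i1, hi1, a1, x1, w1, c1⟩ := step x hx (Γ.on_right _ _) gx (nm_L_fix ga gx) rfl
      obtain ⟨i2, hi2, a2, y2, w2, c2⟩ := step y hy (by rw [e]; exact Γ.on_right _ _) gy (nm_L_fix ga gy) e
      have hq := quo i1 i2 a1 a2 (w2.trans w1.symm)
      have hs := hb.wt1 _ (mul_mem (inv_mem hi1) hi2) a (Γ.on_left _ _) (A_fix hq) (A_w hq)
      have e12 : i1⁻¹ * i2 = 1 := by
        by_contra h1
        refine hw.1 (wj.trans (Γ.w_eq hs h1 ?_).2)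
        rw [Geo.val_one, pow_one, mul_inv_eq_iff_eq_mul, mul_assoc, c2, ← mul_assoc, ← mul_assoc,
          (Commute.inv_left (c1 : Commute i1 j)).eq]
      rw [inv_mul_eq_one] at e12
      exact h.two10 i1 a x y hx.1 hy.1 a1 x1 (by rw [e12, y2]) (by rw [w1]; exact o2)
    obtain ⟨k, -, hk⟩ : ∃ k < 10, (2 : ZMod 11) ^ k = Γ.w g a := by
      have := Γ.w_ne_zero ga
      revert this; generalize Γ.w g a = l; revert l; decide
    obtain ⟨β, hβ, e⟩ := hCC G Ω (Γ.A a) g S (nA g ga) hS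
      (fun α hα x hx y hy ex ey => one _ (wA g ga α hα).1 (by rwa [(wA g ga α hα).2]) x hx y hy ex ey)
      d0 d0S ⟨_, quo g (g0 ^ k) ga (Geo.pow_smul_of_fix g0a k) (by rw [Γ.w_pow g0a, w0, hk]),
        by rw [mul_inv_cancel_left, Geo.pow_smul_of_fix g0d]⟩ 1 (one_mem _)
    rw [mul_one] at e
    exact ⟨_, blk _ (hS β hβ d0 d0S), Γ.on_left _ _, nm_L_fix ga e⟩
  intro a b hab
  rcases h.pair a b hab with lp | hb
  · obtain ⟨y, yL, ya, yb, wy, -⟩ := lp.exy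
    have o5 : Ord5 (Γ.w y a) := by rw [wy]; unfold Ord5; decide
    obtain ⟨J, hb, ha, hn⟩ := key a y ya o5
    refine ⟨J, hb, ha, ?_, fun J' hb' ha' hbb => h.m1 y a _ _ ya o5 hb' hb ha' ha
      (Nm.of_mem (sup_le ha' hbb yL)) hn⟩
    obtain ⟨-, -, h3, -⟩ := hb.fix5' hn ha ya o5
    obtain ⟨e, he, ye, we⟩ := Set.nonempty_of_ncard_ne_zero (by rw [h3]; norm_num)
    by_cases eb : e = b
    · exact eb ▸ he
    have wb := lp.wt y ya yb
    rw [wy] at we wb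
    have dec : ∀ k l : ZMod 11, k * 3 = 1 → 3 * l = 1 → Ord5 k ∧ l * k ≠ 1 := by
      unfold Ord5; decide
    have hb' := ((h.w5 y e b eb ye yb (dec _ _ we wb).1).resolve_left (dec _ _ we wb).2).2
    rw [h.m1 y e _ _ ye (dec _ _ we wb).1 hb hb' he (Γ.on_left _ _) hn (nm_L_fix ye yb)]
    exact Γ.on_right _ _
  · exact ⟨_, hb, Γ.on_left _ _, Γ.on_right _ _, fun J' hb' ha' hbb =>
      (hb.eq_of_le hb' (sup_le ha' hbb)).symm⟩

end H74.O11
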