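import Cfsg.Agent.H74.O11IIa

/-! O11 tower: slot IIc. -/

set_option autoImplicit false

namespace H74.O11

open Subgroup MulAction

universe u

/-- without elements of order 4 the Sylow 2-subgroups are abelian -/
theorem sylow_comm {G : Type u} [Group G] (S : Sylow 2 G)
    (no4 : ∀ g ∈ S, g ^ 4 = 1 → g ^ 2 = 1) : IsMulCommutative (S : Subgroup G) := by
  have sq : ∀ g ∈ S, g * g = 1 := fun g hg => by
    obtain ⟨k, hk⟩ := S.2 ⟨g, hg⟩
    have hk' : g ^ 2 ^ k = 1 := congrArg Subtype.val hk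
    clear hk
    rw [← pow_two]
    induction k using Nat.twoStepInduction generalizing g with
    | zero => simp_all
    | one => simpa using hk'
    | more k _ ih =>
      refine no4 _ hg ?_
      have := ih (g ^ 2) (S.1.pow_mem hg 2) (by rw [← pow_mul, ← pow_succ']; exact hk')
      rwa [← pow_mul] at this
  refine ⟨⟨fun x y => Subtype.ext ?_⟩⟩
  have h1 := sq _ (S.1.mul_mem x.2 y.2)
  simp only [Subgroup.coe_mul]
  rw [eq_inv_of_mul_eq_one_left h1, mul_inv_rev, inv_eq_of_mul_eq_one_right (sq _ x.2),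
    inv_eq_of_mul_eq_one_right (sq _ y.2)]

theorem orderOf_ten {G Ω : Type u} [Group G] [MulAction G Ω] {Γ : Geo G Ω} {g : G} {c : Ω}
    (hg : g • c = c) (hw : Ord10 (Γ.w g c)) (h10 : g ^ 10 = 1) : orderOf g = 10 := by
  refine orderOf_eq_of_pow_and_pow_div_prime (by norm_num) h10 fun p hp hd e => ?_
  have := congrArg (Γ.w · c) e
  simp only [Γ.w_pow hg, Γ.w_one] at this
  rcases (Nat.Prime.dvd_mul hp).1 (show p ∣ 2 * 5 from hd) with h2 | h2
  · rw [(Nat.prime_dvd_prime_iff_eq hp (by norm_num)).1 h2] at this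
    exact hw.2 this
  · rw [(Nat.prime_dvd_prime_iff_eq hp (by norm_num)).1 h2] at this
    exact hw.1 this

theorem jobIIc : JobIIc.{u} := by
  intro hAb G Ω _ _ _ _ Γ h _ hU
  by_cases hall : ∃ J, JBlk Γ J ∧ ∀ c, Γ.sub c ≤ J
  · obtain ⟨J, hb, hJ⟩ := hall
    obtain ⟨c, hc⟩ := hb.ex
    obtain ⟨d, -, -, dc, -, -, -, e⟩ := h.isL hb hc
    exact ⟨c, d, dc.symm, top_le_iff.1 (by rw [e, ← Γ.gen]; exact iSup_le hJ)⟩
  exfalso
  push Not at hall
  have cen : ∀ J, JBlk Γ J → ∀ j ∈ J, j ∈ centralizer (J : Set G) → j = 1 := fun J hb j hj hz => by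
    obtain ⟨c, hc⟩ := hb.ex
    obtain ⟨d, -, -, dc, -, -, -, e⟩ := h.isL hb hc
    have hA := Γ.cent_mem_A hz hc
    exact sub_eq_one dc.symm (hb.wt1 j hj c hc (A_fix hA) (A_w hA))
      (A_fix (Γ.cent_mem_A hz (by rw [← e]; exact Γ.on_right _ _)))
  have swap : ∀ (g : G) (r : Ω), g • r ≠ r → g • g • r = r →
      ∃ J, JBlk Γ J ∧ Γ.sub r ≤ J ∧ ∃ j ∈ J, ∃ z ∈ centralizer (J : Set G), g = j * z ∧
        (∀ n, g ^ n = 1 → j ^ n = 1 ∧ z ^ n = 1) ∧ j * z = z * j ∧ ∀ e, Γ.sub e ≤ J →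
        g • e = j • e ∧ (j • e = e → Γ.w g e = Γ.w j e) := fun g r h1 h2 => by
    obtain ⟨J, hb, hr, hr', hu⟩ := hU r (g • r) h1.symm
    have := hu _ (h.conjB g J hb) (by rw [← h2, Γ.sub_smul]; exact map_mono hr')
      (by rw [Γ.sub_smul]; exact map_mono hr)
    obtain ⟨j, hj, z, hz, e, hd⟩ := hb.dec (g := g) fun x hx => this ▸ ⟨x, hx, rfl⟩
    have hc : j * z = z * j := mem_centralizer_iff.1 hz j hj
    refine ⟨J, hb, hr, j, hj, z, hz, e, fun n hn => ?_, hc, hd⟩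
    rw [e, Commute.mul_pow hc] at hn
    have := cen J hb _ (pow_mem hj n) (by
      rw [eq_inv_of_mul_eq_one_left hn]; exact inv_mem (pow_mem hz n))
    exact ⟨this, by simpa [this] using hn⟩
  have odd : ∀ J, JBlk Γ J → ∀ z ∈ centralizer (J : Set G), z ^ 2 = 1 → z = 1 := by
    intro J hb z hz zz
    by_contra z1
    obtain ⟨r, hr⟩ := hall J hb
    obtain ⟨a, ha⟩ := hb.ex
    have hA := Γ.cent_mem_A hz ha
    have h1 : z • r ≠ r := fun e => hr (h.fixC J hb z hz z1 r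
      (Γ.mem_A_iff.2 ⟨e, h.w1 z a r (A_fix hA) e (A_w hA)⟩))
    obtain ⟨J', hb', hr', j, hj, z', -, -, hn, -, hd⟩ := swap z r h1
      (by rw [← mul_smul, ← pow_two, zz, one_smul])
    obtain ⟨c, hc, jc, wc⟩ := hb'.fix2 j hj (by rw [← pow_two, (hn 2 zz).1]) fun e =>
      h1 (by rw [(hd r hr').1, e, one_smul])
    have := h.w1 z a c (A_fix hA) ((hd c hc).1.trans jc) (A_w hA)
    rw [(hd c hc).2 jc, wc] at this
    exact absurd this (by decide)
  obtain ⟨p, q, pq, hb0⟩ := h.exJ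
  have faith : ∀ t : G, (∀ r : Ω, t • r = r) → t = 1 := fun t ht => by
    rcases h.simple.eq_bot_or_eq_top_of_normal (toPermHom G Ω).ker inferInstance with e | e
    · have : t ∈ (toPermHom G Ω).ker := Equiv.ext ht
      rwa [e, mem_bot] at this
    · obtain ⟨g, hg⟩ := Γ.trans p q
      have : g ∈ (toPermHom G Ω).ker := e ▸ mem_top g
      exact absurd ((DFunLike.congr_fun this p).symm.trans hg) pq
  have no4 : ∀ g : G, g ^ 4 = 1 → g ^ 2 = 1 := fun g g4 => by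
    by_contra t1
    have tt : (g ^ 2) ^ 2 = 1 := by rw [← pow_mul, g4]
    obtain ⟨r, hr⟩ : ∃ r : Ω, g ^ 2 • r ≠ r := by
      by_contra hn
      push Not at hn
      exact t1 (faith _ hn)
    obtain ⟨J, hb, -, j, hj, z, hz, e, hn, -, -⟩ := swap _ r hr
      (by rw [← mul_smul, ← pow_two, tt, one_smul])
    rw [odd J hb z hz (hn 2 tt).2, mul_one] at e
    obtain ⟨c, -, tc, wc⟩ := hb.fix2 (g ^ 2) (e ▸ hj) (by rw [← pow_two, tt]) t1
    by_cases gc : g • c = c
    · rw [Γ.w_pow gc] at wc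
      revert wc; generalize Γ.w g c = k; revert k; decide
    · obtain ⟨J', hb', hc, j', hj', z', hz', e', hn', hcm, -⟩ := swap g c gc
        (by rw [← mul_smul, ← pow_two, tc])
      rw [e', Commute.mul_pow hcm, hb'.no4 j' hj' (hn' 4 g4).1, one_mul,
        A_w (Γ.cent_mem_A (pow_mem hz' 2) hc)] at wc
      exact absurd wc (by decide)
  obtain ⟨d, j, hj, dp, jp, jd, wj, -⟩ := h.isL hb0 (Γ.on_left p q)
  have := hAb G h.simple default (sylow_comm _ fun g _ => no4 g)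
    (Dvd.dvd.trans (by rw [hb0.card]; norm_num) (card_subgroup_dvd_card (Γ.L p q)))
    ⟨j, orderOf_ten (Γ := Γ) jp (by rw [wj]; unfold Ord10; decide) (sub_eq_one dp.symm
      (hb0.wt1 _ (pow_mem hj 10) p (Γ.on_left p q) (Geo.pow_smul_of_fix jp 10)
        (by rw [Γ.w_pow jp, wj]; decide)) (Geo.pow_smul_of_fix jd 10))⟩
  obtain ⟨r, hr⟩ := hall _ hb0
  exact hr (by rw [eq_top_of_card_eq _ (hb0.card.trans this.symm)]; exact le_top)

end H74.O11
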