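import Cfsg.Agent.H74.O11IIa

/-! O11 tower: slot Ib. -/

set_option autoImplicit false

namespace H74.O11

open Subgroup MulAction

universe u

variable {G Ω : Type u} [Group G] [MulAction G Ω] {Γ : Geo G Ω}

/-- the weight as a homomorphism -/
noncomputable def wN (Γ : Geo G Ω) (a : Ω) : stabilizer G a →* ZMod 11 where
  toFun g := Γ.w g a
  map_one' := Γ.w_one a
  map_mul' g h := Γ.w_mul g.2 h.2

/-- the elements fixing `a` whose weight is a square -/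
def N0 (Γ : Geo G Ω) (a : Ω) : Subgroup G where
  carrier := {g | g • a = a ∧ Γ.w g a ^ 5 = 1}
  one_mem' := ⟨one_smul _ _, by rw [Γ.w_one]; simp⟩
  mul_mem' := fun {g h} hg hh => ⟨by rw [mul_smul, hh.1, hg.1], by
    rw [Γ.w_mul hg.1 hh.1, mul_pow, hg.2, hh.2, one_mul]⟩
  inv_mem' := fun {g} hg => ⟨inv_smul_eq_iff.2 hg.1.symm, by
    have := congrArg (· ^ 5) (Γ.w_inv_mul hg.1)
    simpa [mul_pow, hg.2] using this⟩

theorem mem_N0 {a : Ω} {g : G} : g ∈ N0 Γ a ↔ g • a = a ∧ Γ.w g a ^ 5 = 1 := Iff.rfl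

theorem card_w {a : Ω} (X : Subgroup G) (hX : X ≤ stabilizer G a) (S : Set (ZMod 11))
    (h1 : ∀ g ∈ X, Γ.w g a ∈ S) (h2 : ∀ k ∈ S, ∃ g ∈ X, Γ.w g a = k) :
    S.ncard * Nat.card ↥(X ⊓ Γ.A a) = Nat.card X := by
  letI : MulAction (stabilizer G a) (ZMod 11) := MulAction.compHom _ (wN Γ a)
  have hs : ∀ g : stabilizer G a, g • (1 : ZMod 11) = Γ.w g a := fun g => mul_one (Γ.w g a)
  have := ncard_mul_card (X.subgroupOf (stabilizer G a)) S (a := 1)
    (fun g hg => by rw [hs]; exact h1 g hg) fun k hk => by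
      obtain ⟨g, hg, e⟩ := h2 k hk
      exact ⟨⟨g, hX hg⟩, hg, (hs _).trans e⟩
  rw [Nat.card_congr (subgroupOfEquivOfLe hX).toEquiv] at this
  rw [← this, ← Nat.card_congr (subgroupOfEquivOfLe (inf_le_left.trans hX)).toEquiv]
  congr 3
  ext g
  simp only [mem_subgroupOf, mem_inf, mem_stabilizer_iff, hs, Γ.mem_A_iff]
  exact and_congr_right fun _ => and_iff_right g.2

theorem ncard_ne [Finite Ω] (a : Ω) : {c | c ≠ a}.ncard = Nat.card Ω - 1 := by
  rw [← Set.ncard_univ, ← Set.ncard_diff_singleton_of_mem (Set.mem_univ a)]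
  congr 1
  ext c
  simp

namespace One1

variable (h : One1 Γ)
include h

theorem exists_frame {a b : Ω} (ab : a ≠ b) : ∃ y s, Frame Γ a b y s := by
  haveI : Fact (Nat.Prime 5) := ⟨by norm_num⟩
  have lp := h.lp a b ab
  obtain ⟨y, yL, ya, yb, wy, y5⟩ := lp.exy
  obtain ⟨s, sL, ss, sa⟩ := lp.exs
  have sb : s • b = a := by rw [← sa, ← mul_smul, ss, one_smul]
  have one : ∀ g ∈ Γ.L a b, g • a = a → g • b = b → Γ.w g a = 1 → g = 1 := fun g hg ga gb w =>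
    sub_eq_one ab (lp.wt1 g hg a (Γ.on_left a b) ga w) gb
  have dec : ∀ g ∈ Γ.H a b, Γ.w g a ^ 5 = 1 → ∃ i : ℕ, (g * (y ^ i)⁻¹) • a = a ∧
      (g * (y ^ i)⁻¹) • b = b ∧ Γ.w (g * (y ^ i)⁻¹) a = 1 := fun g hg w => by
    obtain ⟨i, -, hi⟩ := exists_three_pow _ w
    have ia := Geo.pow_smul_of_fix ya i
    have ia' := inv_smul_eq_iff.2 ia.symm
    exact ⟨i, by rw [mul_smul, ia', hg.1],
      by rw [mul_smul, inv_smul_eq_iff.2 (Geo.pow_smul_of_fix yb i).symm, hg.2],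
      by rw [Γ.w_mul hg.1 ia', ← hi, ← wy, ← Γ.w_pow ya, mul_comm, Γ.w_inv_mul ia]⟩
  refine ⟨y, s, ab, yL, ya, yb, wy, orderOf_eq_prime y5 fun e => ?_, sL, ss, sa, sb, ?_,
    fun g hg => ?_, fun g hg w => ?_, fun g hg gL => ?_⟩
  · rw [e, Γ.w_one] at wy; exact absurd wy (by decide)
  · have fa : (s * y * s⁻¹) • a = a := by
      rw [mul_smul, mul_smul, inv_smul_eq_iff.2 sb.symm, yb, sb]
    have fb : (s * y * s⁻¹) • b = b := by
      rw [mul_smul, mul_smul, inv_smul_eq_iff.2 sa.symm, ya, sa]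
    refine eq_inv_of_mul_eq_one_left (one _ (mul_mem (Nm.of_mem sL y yL) yL)
      (by rw [mul_smul, ya, fa]) (by rw [mul_smul, yb, fb]) ?_)
    have e1 : Γ.w (s * y * s⁻¹) a = Γ.w y b := by rw [← Γ.w_conj s yb, sb]
    rw [Γ.w_mul fa ya, e1, mul_comm, lp.wt y ya yb]
  · have hy := (Γ.H a b).mul_mem ((Γ.H a b).mul_mem hg ⟨ya, yb⟩) ((Γ.H a b).inv_mem hg)
    have ya' := inv_smul_eq_iff.2 ya.symm
    have := one _ (mul_mem (conj_H_L hg yL) (inv_mem yL)) (by rw [mul_smul, ya', hy.1])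
      (by rw [mul_smul, inv_smul_eq_iff.2 yb.symm, hy.2]) (by
        have := Γ.w_conj g ya
        rw [hg.1] at this
        rw [Γ.w_mul hy.1 ya', this, mul_comm, Γ.w_inv_mul ya])
    rwa [mul_inv_eq_one, mul_inv_eq_iff_eq_mul] at this
  · obtain ⟨i, h1, h2, h3⟩ := dec g hg w
    exact ⟨_, h.memZ a b _ ab h1 h2 h3, i, by simp⟩
  · obtain ⟨i, h1, h2, h3⟩ := dec g hg (lp.wt5 g gL a (Γ.on_left a b) hg.1)
    exact ⟨i, mul_inv_eq_one.1 (one _ (mul_mem gL (inv_mem (pow_mem yL i))) h1 h2 h3)⟩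

theorem L_two {a b c d : Ω} (ab : a ≠ b) (hc : Γ.On a b c) (hd : Γ.On a b d) (cd : c ≠ d) :
    ∃ l ∈ Γ.L a b, l • a = c ∧ l • b = d := by
  have lp := h.lp a b ab
  obtain ⟨l, hl, e⟩ : ∃ l ∈ Γ.L a b, l • a = c := by
    by_cases cb : c = b
    · obtain ⟨s, sL, -, sa⟩ := lp.exs
      exact ⟨s, sL, cb ▸ sa⟩
    · obtain ⟨x, hx, e⟩ := lp.reg b a c (Γ.on_right a b) (Γ.on_left a b) hc ab cb
      exact ⟨x, Γ.on_right a b hx, e⟩
  obtain ⟨x, hx, e'⟩ := lp.reg c (l • b) d hc (Γ.on_smul_of_mem hl (Γ.on_right a b)) hd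
    (fun e' => ab (smul_left_cancel l (e.trans e'.symm))) cd.symm
  exact ⟨x * l, mul_mem (hc hx) hl, by rw [mul_smul, e, Γ.smul_self hx], by rw [mul_smul, e']⟩

theorem odd_swap [Finite G] [Finite Ω] {a b : Ω} (ab : a ≠ b) {g : G} (ga : g • a = b) (gb : g • b = a)
    (gg : g * g ∈ Γ.Z a b) (hf : ∀ c, Γ.On a b c → g • c ≠ c) :
    ∃ l ∈ Γ.L a b, ∃ z ∈ Γ.Z a b, g = l * z := by
  classical
  obtain ⟨y, s, f⟩ := h.exists_frame ab
  have lp := h.lp a b ab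
  have hH : s * g ∈ Γ.H a b := ⟨by show (s * g) • a = a; rw [mul_smul, ga, f.sb],
    by show (s * g) • b = b; rw [mul_smul, gb, f.sa]⟩
  have eg : g = s * (s * g) := by rw [← mul_assoc, f.ss, one_mul]
  by_cases w5 : Γ.w (s * g) a ^ 5 = 1
  · obtain ⟨z, hz, i, e⟩ := f.dec _ hH w5
    refine ⟨s * y ^ i, mul_mem f.sL (pow_mem f.yL i), z, hz, ?_⟩
    rw [eg, e, mul_assoc, Γ.mem_Z.1 hz _ (pow_mem f.yL i)]
  exfalso
  let M := normalizer (Γ.L a b : Set G)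
  letI : MulAction M {c // Γ.On a b c} :=
    { smul := fun m c => ⟨(m : G) • c.1,
        Γ.sub_smul_le (fun x hx => (mem_normalizer_iff.1 m.2 x).1 hx) c.2⟩
      one_smul := fun c => Subtype.ext (one_smul G c.1)
      mul_smul := fun m n c => Subtype.ext (mul_smul (m : G) (n : G) c.1) }
  haveI := Fintype.ofFinite {c // Γ.On a b c}
  let σ : M →* ℤˣ := Equiv.Perm.sign.comp (toPermHom M {c // Γ.On a b c})
  have hL : ∀ l (hl : l ∈ Γ.L a b), σ ⟨l, le_normalizer hl⟩ = 1 := by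
    have key : ∀ c, Γ.On a b c → Γ.sub c ≤ σ.ker.map M.subtype := fun c hc x hx => by
      refine ⟨⟨x, le_normalizer (hc hx)⟩, ?_, rfl⟩
      have : σ ⟨x, le_normalizer (hc hx)⟩ ^ 11 = 1 := by
        rw [← map_pow, show (⟨x, le_normalizer (hc hx)⟩ : M) ^ 11 = 1 from
          Subtype.ext (Γ.pow_eleven hx), map_one]
      rcases Int.units_eq_one_or (σ ⟨x, le_normalizer (hc hx)⟩) with e | e
      · exact e
      · rw [e] at this; exact absurd this (by decide)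
    intro l hl
    obtain ⟨m, hm, e⟩ := sup_le (key a (Γ.on_left a b)) (key b (Γ.on_right a b)) hl
    rwa [← show m = ⟨l, le_normalizer hl⟩ from Subtype.ext e]
  have hs : ∀ m : M, (m : G) * m ∈ Γ.Z a b →
      σ m = (-1) ^ ((12 - {c | Γ.On a b c ∧ (m : G) • c = c}.ncard) / 2) := fun m hm => by
    have := Equiv.Perm.sign_of_pow_two_eq_one (σ := toPermHom M {c // Γ.On a b c} m)
      (Equiv.ext fun c => Subtype.ext (by
        rw [← map_pow, pow_two]; exact Z_fix hm c.2))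
    rw [← Nat.card_eq_fintype_card, ← Nat.card_eq_fintype_card, Nat.card_coe_set_eq,
      show Nat.card {c // Γ.On a b c} = 12 from lp.line,
      ← Set.ncard_image_of_injective _ Subtype.val_injective] at this
    refine this.trans ?_
    congr 4
    ext c
    exact ⟨fun ⟨c', h1, h2⟩ => h2 ▸ ⟨c'.2, congrArg Subtype.val h1⟩,
      fun hc => ⟨⟨c, hc.1⟩, Subtype.ext hc.2, rfl⟩⟩
  obtain ⟨i, -, hi⟩ : ∃ i < 5, Γ.w (s * g) a * 3 ^ i = -1 := by
    have := Γ.w_ne_zero hH.1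
    revert this w5; generalize Γ.w (s * g) a = k; revert k; decide
  have oH : s * g * y ^ i ∈ Γ.H a b := mul_mem hH (pow_mem f.yH i)
  have wo : Γ.w (s * g * y ^ i) a = -1 := by rw [Γ.w_mul hH.1 (pow_mem f.yH i).1, f.w_pow, hi]
  have gM : g ∈ M := mem_normalizer_fintype (nm_L_swap ga gb)
  have h1 := hs ⟨g, gM⟩ gg
  have h2 := hs (⟨s, le_normalizer f.sL⟩ * ⟨g, gM⟩ * ⟨y ^ i, le_normalizer (pow_mem f.yL i)⟩)
    (h.memZ a b (s * g * y ^ i * (s * g * y ^ i)) ab (mul_mem oH oH).1 (mul_mem oH oH).2 (by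
      rw [Γ.w_mul oH.1 oH.1, wo]; decide))
  rw [map_mul, map_mul, hL _ f.sL, hL _ (pow_mem f.yL i), h1] at h2
  have e0 : {c | Γ.On a b c ∧ g • c = c} = ∅ :=
    Set.eq_empty_of_forall_notMem fun c hc => hf c hc.1 hc.2
  have e2 : {c | Γ.On a b c ∧ (s * g * y ^ i) • c = c} = {a, b} := by
    obtain ⟨c, -, -, -, hu⟩ := h.lfix a b _ ab oH.1 (by rw [oH.2]; exact Γ.on_right a b)
      (by rw [wo]; decide)
    ext d
    refine ⟨fun hd => (em (d = a)).imp_right fun da => (hu d hd.1 da hd.2).trans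
      (hu b (Γ.on_right a b) ab.symm oH.2).symm, ?_⟩
    rintro (rfl | rfl)
    · exact ⟨Γ.on_left _ _, oH.1⟩
    · exact ⟨Γ.on_right _ _, oH.2⟩
  simp only [Subgroup.coe_mul, e0, e2, Set.ncard_empty, Set.ncard_pair ab] at h2
  exact absurd h2 (by decide)

theorem H_inf_A {a b : Ω} (ab : a ≠ b) : Γ.H a b ⊓ Γ.A a = Γ.Z a b :=
  le_antisymm (fun g hg => h.memZ a b g ab hg.1.1 hg.1.2 (A_w hg.2))
    (le_inf (Γ.Z_le_H a b) (Γ.Z_le_A (Γ.on_left a b)))

theorem card_H0 {a b : Ω} (ab : a ≠ b) :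
    Nat.card ↥(Γ.H a b ⊓ N0 Γ a) = 5 * Nat.card (Γ.Z a b) := by
  obtain ⟨y, s, f⟩ := h.exists_frame ab
  rw [← card_w (Γ := Γ) (Γ.H a b ⊓ N0 Γ a) (fun g hg => hg.1.1) {k | k ^ 5 = 1} (fun g hg => hg.2.2)
    fun k hk => by
      obtain ⟨i, -, hi⟩ := exists_three_pow k hk
      exact ⟨y ^ i, pow_mem (mem_inf.2 ⟨f.yH, mem_N0.2 ⟨f.ya, by rw [f.wy]; decide⟩⟩) i, by rw [f.w_pow, hi]⟩]
  congr 1
  · rw [Set.ncard_eq_toFinset_card']; decide
  · rw [inf_right_comm, h.H_inf_A ab, inf_eq_left.2 fun z hz =>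
      ⟨Z_fix hz (Γ.on_left a b), by rw [Z_w hz (Γ.on_left a b)]; simp⟩]

end One1

theorem jobIb : JobIb.{u} := by
  intro G Ω _ _ _ _ Γ h
  have facM : ∀ (a b : Ω) (g : G), a ≠ b → Γ.On a b (g • a) → Γ.On a b (g • b) →
      ∃ l ∈ Γ.L a b, ∃ k ∈ Γ.H a b, g = l * k := fun a b g ab ha hb => by
    obtain ⟨l, hl, e1, e2⟩ := h.L_two ab ha hb fun e => ab (smul_left_cancel g e)
    exact ⟨l, hl, l⁻¹ * g, ⟨by show (l⁻¹ * g) • a = a; rw [mul_smul, ← e1, inv_smul_smul],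
      by show (l⁻¹ * g) • b = b; rw [mul_smul, ← e2, inv_smul_smul]⟩, by simp⟩
  have hco : ∀ a b, a ≠ b → {c | ¬ Γ.On a b c}.ncard + 12 = Nat.card Ω := fun a b ab => by
    rw [← (h.lp a b ab).line, add_comm]
    exact Set.ncard_add_ncard_compl _
  obtain ⟨p, q, r, pq, hr⟩ := h.big
  refine ⟨h, fun a b ab => h.exists_frame ab, fun a b g ab ha hb gg => ?_, facM, fun a b ab => ?_,
    fun a b ab => ?_, fun a b ab => ?_, fun a b ab => ?_, fun a b c d ab cd => ?_, ?_,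
    fun a b ab => ?_, ?_⟩
  · by_cases hf : ∃ c, Γ.On a b c ∧ g • c = c
    · obtain ⟨c, hc, gc⟩ := hf
      have h2 : Γ.w g c * Γ.w g c = 1 := by rw [← Γ.w_mul gc gc, Z_w gg hc]
      by_cases w : Γ.w g c = 1
      · obtain ⟨d, hd, cd⟩ : ∃ d, Γ.On a b d ∧ c ≠ d := by
          by_cases e : c = a
          · exact ⟨b, Γ.on_right a b, e ▸ ab⟩
          · exact ⟨a, Γ.on_left a b, e⟩
        obtain ⟨x, hx, z, hz, e⟩ := h.lfix1 c d g cd gc ((h.on_iff ab hc hd cd).2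
          (Γ.sub_smul_le (h.nm_L ab ha hb) hd)) w
        exact Or.inl ⟨x, hc hx, z, h.Z_eq ab hc hd cd ▸ hz, e⟩
      · refine Or.inr ⟨c, hc, gc, ?_⟩
        revert h2 w; generalize Γ.w g c = k; revert k; decide
    · push Not at hf
      have ne : a ≠ g • a := (hf a (Γ.on_left a b)).symm
      have := h.odd_swap ne rfl (by rw [← mul_smul, Z_fix gg (Γ.on_left a b)])
        (by rwa [h.Z_eq ab (Γ.on_left a b) ha ne])
        fun c hc => hf c ((h.on_iff ab (Γ.on_left a b) ha ne).1 hc)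
      rw [h.Z_eq ab (Γ.on_left a b) ha ne, h.line_eq a b _ _ ab (Γ.on_left a b) ha ne] at this
      exact Or.inl this
  · have h1 := ncard_mul_card (⊤ : Subgroup G) (Set.univ : Set Ω) (a := a) (fun _ _ => trivial)
      fun x _ => (Γ.trans a x).imp fun g hg => ⟨trivial, hg⟩
    have h2 := ncard_mul_card (stabilizer G a) {c | c ≠ a} (a := b)
      (fun g hg => smul_ne hg ab.symm) fun c hc => by
        obtain ⟨g, hg, e⟩ := h.transA a b c ab.symm hc
        exact ⟨g, A_fix hg, e⟩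
    rw [top_inf_eq, card_top, Set.ncard_univ, ← h2, ncard_ne] at h1
    rw [← h1, mul_assoc]
  · rw [← ncard_mul_card (Γ.A a) {c | c ≠ a} (a := b) (fun g hg => smul_ne (A_fix hg) ab.symm)
      (fun c hc => h.transA a b c ab.symm hc), ncard_ne, ← h.H_inf_A ab]
    congr 3
    ext g
    exact ⟨fun hg => ⟨⟨A_fix hg.1, hg.2⟩, hg.1⟩, fun hg => ⟨hg.2, hg.1.2⟩⟩
  · by_cases hw : ∀ g ∈ Γ.H a b, Γ.w g a ^ 5 = 1
    · exact Or.inl ⟨hw, by rw [← h.card_H0 ab, inf_eq_left.2 fun g hg => ⟨hg.1, hw g hg⟩]⟩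
    · push Not at hw
      obtain ⟨g, hg, w⟩ := hw
      obtain ⟨y, s, f⟩ := h.exists_frame ab
      have key : ∀ k : ZMod 11, k ≠ 0 → ∃ o ∈ Γ.H a b, Γ.w o a = k := fun k hk => by
        obtain ⟨i, -, j, -, e⟩ : ∃ i < 2, ∃ j < 5, Γ.w g a ^ i * 3 ^ j = k := by
          have := Γ.w_ne_zero hg.1
          revert this w hk; generalize Γ.w g a = l; revert k l; decide
        exact ⟨g ^ i * y ^ j, mul_mem (pow_mem hg i) (pow_mem f.yH j), by
          rw [Γ.w_mul (pow_mem hg i).1 (pow_mem f.yH j).1, Γ.w_pow hg.1, f.w_pow, e]⟩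
      refine Or.inr ⟨key _ (by decide), ?_⟩
      rw [← card_w (Γ := Γ) (Γ.H a b) (fun g hg => hg.1) {k | k ≠ 0}
        (fun g hg => Γ.w_ne_zero hg.1) key, h.H_inf_A ab]
      congr 1
      rw [Set.ncard_eq_toFinset_card']; decide
  · have hM : ∀ g ∈ normalizer (Γ.L a b : Set G), ∀ c, Γ.On a b c → Γ.On a b (g • c) :=
      fun g hg c hc => Γ.sub_smul_le (fun x hx => (mem_normalizer_iff.1 hg x).1 hx) hc
    have h1 := ncard_mul_card (normalizer (Γ.L a b : Set G)) {c | Γ.On a b c} (a := a)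
      (fun g hg => hM g hg a (Γ.on_left a b)) fun c hc => by
        by_cases e : c = b
        · obtain ⟨l, hl, e1, -⟩ := h.L_two ab (Γ.on_right a b) (Γ.on_left a b) ab.symm
          exact ⟨l, le_normalizer hl, e ▸ e1⟩
        · obtain ⟨l, hl, e1, -⟩ := h.L_two ab hc (Γ.on_right a b) e
          exact ⟨l, le_normalizer hl, e1⟩
    have h2 := ncard_mul_card (normalizer (Γ.L a b : Set G) ⊓ stabilizer G a)
      ({c | Γ.On a b c} \ {a}) (a := b)
      (fun g hg => ⟨hM g hg.1 b (Γ.on_right a b), smul_ne hg.2 ab.symm⟩) fun c hc => by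
        obtain ⟨l, hl, e1, e2⟩ := h.L_two ab (Γ.on_left a b) hc.1 (Ne.symm hc.2)
        exact ⟨l, ⟨le_normalizer hl, e1⟩, e2⟩
    rw [Set.ncard_diff_singleton_of_mem (Γ.on_left a b), (h.lp a b ab).line, inf_assoc,
      inf_eq_right.2 fun g hg => mem_normalizer_fintype (nm_L_fix hg.1 hg.2)] at h2
    rw [(h.lp a b ab).line, ← h2] at h1
    rw [← h1, ← mul_assoc]
    rfl
  · obtain ⟨g, rfl, rfl⟩ := h.two' a b c d ab cd
    refine Nat.card_congr ⟨fun z => ⟨_, Γ.conj_mem_Z g z.2⟩, fun z => ⟨g⁻¹ * z * g, by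
      simpa using Γ.conj_mem_Z g⁻¹ z.2⟩, fun z => Subtype.ext (by simp [mul_assoc]),
      fun z => Subtype.ext (by simp [mul_assoc])⟩
  · rw [← ncard_ne p, ← Γ.card p]
    exact card_dvd_of_free _ _ (Set.toFinite _) (fun g hg x hx => smul_ne (Γ.smul_self hg) hx)
      fun g hg x hx e => sub_eq_one (Ne.symm hx) hg e
  · rw [← h.card_H0 ab, ← hco a b ab, Nat.add_sub_cancel]
    refine card_dvd_of_free _ _ (Set.toFinite _) (fun g hg x hx e => hx ?_) fun g hg x hx e => ?_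
    · rwa [← hg.1.1, ← hg.1.2, Γ.on_smul_iff] at e
    · by_cases w : Γ.w g a = 1
      · exact h.Z_inter ab hx (h.memZ a b g ab hg.1.1 hg.1.2 w) e
      · rcases h.fix2 a b g x ab hg.1.1 hg.1.2 (by
          have := hg.2.2
          revert this w; generalize Γ.w g a = k; revert k; decide) e with e | e
        · exact absurd (e ▸ Γ.on_left a b) hx
        · exact absurd (e ▸ Γ.on_right a b) hx
  · have := (Set.ncard_pos (s := {c | ¬ Γ.On p q c})).2 ⟨r, hr⟩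
    have := hco p q pq
    omega

end H74.O11
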