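import Cfsg.Agent.H74.O11Res
import Cfsg.Agent.H74.JK7
import Cfsg.Agent.H74.J1Spec

/-! O11 tower: slot J. -/

set_option autoImplicit false

namespace H74.O11

open Subgroup MulAction

universe u

/-- the facts on J1 that are used -/
structure JL (K : Type u) [Group K] : Prop where
  card : Nat.card K = 175560
  simple : IsSimpleGroup K
  spec : ∀ g : K, orderOf g ∈ ({1, 2, 3, 5, 6, 7, 10, 11, 15, 19} : Finset ℕ)
  conj : ∀ u v : K, u * u = 1 → u ≠ 1 → v * v = 1 → v ≠ 1 → IsConj u v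
  inner : ∀ β : MulAut K, ∃ g, MulAut.conj g = β

theorem jl_of_iso {K : Type u} [Group K] (h : Cfsg.Spor.IsoJ1 K) : JL K := by
  obtain ⟨e⟩ := h
  let f : K ≃* H74.J1.J := e.trans H74.J1.equivJ1.symm
  refine ⟨(Nat.card_congr f.toEquiv).trans H74.J1.card, f.isSimpleGroup, fun g => ?_,
    fun u v hu hu1 hv hv1 => ?_, fun β => ?_⟩
  · have : orderOf (f g) ∈ Set.range (orderOf : H74.J1.J → ℕ) := ⟨_, rfl⟩
    rw [H74.JK.range_orderOf_J, f.orderOf_eq] at this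
    exact this
  · have := H74.JK.jh_J.2 (f u) (f v) ⟨by rw [← map_mul, hu, map_one], by simpa using hu1⟩
      ⟨by rw [← map_mul, hv, map_one], by simpa using hv1⟩
    simpa using f.symm.toMonoidHom.map_isConj this
  · obtain ⟨g, hg⟩ := H74.JK.inner_J (f.symm.trans (β.trans f))
    refine ⟨f.symm g, MulEquiv.ext fun x => ?_⟩
    have := congrArg f.symm (DFunLike.congr_fun hg (f x))
    simpa using this

/-- an element of `sub c` commuting with an element of weight `≠ 1` is trivial -/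
theorem eq_one_of_comm {G Ω : Type u} [Group G] [MulAction G Ω] {Γ : Geo G Ω}
    {j x : G} {c : Ω} (hj : j • c = c) (hw : Γ.w j c ≠ 1) (hx : x ∈ Γ.sub c)
    (hc : j * x = x * j) : x = 1 := by
  by_contra h1
  exact hw (Γ.w_eq hx h1 (by rw [hc, Geo.val_one]; simp)).2

theorem orderOf_dvd_natCard' {G : Type u} [Group G] {K : Subgroup G} {x : G} (hx : x ∈ K) :
    orderOf x ∣ Nat.card K := K.orderOf_dvd_natCard hx

theorem zm_cancel : ∀ a b c : ZMod 11, c ≠ 0 → a * c = b * c → a = b := by decide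

namespace JL

variable {K : Type u} [Group K] [Finite K] (h : JL K)
include h

omit [Finite K] in
theorem comm {x y : K} (hc : x * y = y * x) (hp : (orderOf x).Coprime (orderOf y)) :
    orderOf x * orderOf y ∈ ({1, 2, 3, 5, 6, 7, 10, 11, 15, 19} : Finset ℕ) := by
  rw [← Commute.orderOf_mul_eq_mul_orderOf_of_coprime hc hp]; exact h.spec _

omit [Finite K] in
theorem no4 (g : K) (h4 : g ^ 4 = 1) : g ^ 2 = 1 := by
  have h1 := orderOf_dvd_of_pow_eq_one h4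
  have h2 := h.spec g
  apply orderOf_dvd_iff_pow_eq_one.1
  revert h1 h2
  generalize orderOf g = m
  intro h1 h2
  fin_cases h2 <;> simp_all

theorem cent11 {x : K} (o : orderOf x = 11) :
    centralizer ({x} : Set K) = zpowers x ∧ Nat.card (normalizer (zpowers x : Set K)) = 110 := by
  haveI := h.simple
  obtain ⟨n, e, c, h1, h2, h3, h4, h5, h6⟩ := H74.JK.cent_data (p := 11) (by norm_num)
    (by rw [h.card]; norm_num) (by rw [h.card]; norm_num) o
  rw [h.card] at h4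
  have hc : c = 1 := by
    by_contra hc
    obtain ⟨r, hr, hrc⟩ := Nat.exists_prime_and_dvd hc
    obtain ⟨y, oy, hy⟩ := H74.JK.exists_comm_of_dvd hr (h5 ▸ Dvd.dvd.mul_left hrc 11)
    have hr11 : r ≠ 11 := by
      rintro rfl
      obtain ⟨k, rfl⟩ := hrc
      have : 121 ∣ 175560 := ⟨n * e * k, by rw [← h4]; ring⟩
      norm_num at this
    have := h.comm hy (by rw [oy, o]; exact (Nat.coprime_primes hr (by norm_num)).2 hr11)
    rw [oy, o] at this
    have := hr.two_le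
    simp only [Finset.mem_insert, Finset.mem_singleton] at *
    omega
  subst hc
  refine ⟨(eq_of_le_of_card_ge (zpowers_le.2 (mem_centralizer_singleton_iff.2 rfl))
    (by rw [h5, Nat.card_zpowers, o])).symm, ?_⟩
  have : e ≤ 10 := Nat.le_of_dvd (by norm_num) h3
  interval_cases e <;> omega

theorem cent5 {j t : K} (o : orderOf j = 5) (ot : orderOf t = 2) (hc : t * j = j * t) :
    Nat.card (centralizer ({j} : Set K)) = 30 ∧ ∃ n, n * j * n⁻¹ = j⁻¹ := by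
  haveI := h.simple
  obtain ⟨n, e, c, h1, h2, h3, h4, h5, h6⟩ := H74.JK.cent_data (p := 5) (by norm_num)
    (by rw [h.card]; norm_num) (by rw [h.card]; norm_num) o
  rw [h.card] at h4
  constructor
  · have h2c : 2 ∣ 5 * c := by
      rw [← h5, ← ot]
      exact orderOf_dvd_natCard' (mem_centralizer_singleton_iff.2 hc)
    have no : ∀ r, r = 7 ∨ r = 11 ∨ r = 19 → r.Coprime c := fun r hr => by
      have hp : r.Prime := by rcases hr with rfl | rfl | rfl <;> norm_num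
      refine (Nat.Prime.coprime_iff_not_dvd hp).2 fun hd => ?_
      obtain ⟨y, oy, hy⟩ := H74.JK.exists_comm_of_dvd hp (h5 ▸ Dvd.dvd.mul_left hd 5)
      have := h.comm hy (by rw [oy, o]; rcases hr with rfl | rfl | rfl <;> norm_num)
      rw [oy, o] at this
      rcases hr with rfl | rfl | rfl <;> simp at this
    have hd : c ∣ 24 := by
      have : c ∣ 24 * (7 * 11 * 19) := ⟨n * e, by nlinarith⟩
      exact (Nat.Coprime.mul_right (Nat.Coprime.mul_right (no 7 (by simp)).symm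
        (no 11 (by simp)).symm) (no 19 (by simp)).symm).dvd_of_dvd_mul_right this
    have hc24 := Nat.le_of_dvd (by norm_num) hd
    have he : e ≤ 4 := Nat.le_of_dvd (by norm_num) h3
    rw [h5]
    interval_cases e <;> interval_cases c <;> omega
  · have : ¬ normalizer (zpowers j : Set K) ≤ centralizer {j} := fun hle => by
      have := card_le_of_le hle
      rw [h5, h6] at this
      have : 0 < c := Nat.pos_of_ne_zero fun e => by simp [e] at h4
      nlinarith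
    obtain ⟨g, hg, hg'⟩ := SetLike.not_le_iff_exists.1 this
    obtain ⟨i, hi⟩ := (Submonoid.mem_powers_iff _ _).1
      (mem_powers_iff_mem_zpowers.2 ((mem_normalizer_iff.1 hg j).1 (mem_zpowers j)))
    have j5 : j ^ 5 = 1 := o ▸ pow_orderOf_eq_one j
    have j4 : j ^ 4 = j⁻¹ := eq_inv_of_mul_eq_one_left (by rw [← pow_succ, j5])
    have h2 : (g * g) * j * (g * g)⁻¹ = j ^ (i * i) := by
      rw [pow_mul, hi, conj_pow, hi]; group
    rw [pow_eq_pow_mod _ j5] at hi h2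
    have : i % 5 < 5 := Nat.mod_lt _ (by norm_num)
    rw [Nat.mul_mod] at h2
    interval_cases i % 5
    · have : j = 1 := by simpa using hi.symm
      simp [this] at o
    · exact absurd (mem_centralizer_singleton_iff.2 (mul_inv_eq_iff_eq_mul.1 (by simpa using hi.symm))) hg'
    · exact ⟨_, h2.trans j4⟩
    · exact ⟨_, h2.trans j4⟩
    · exact ⟨g, hi.symm.trans j4⟩

omit [Finite K] in
theorem conj5 {j g : K} (o : orderOf j = 5) {i : ℕ} (hi : g * j * g⁻¹ = j ^ i) :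
    i % 5 = 1 ∨ i % 5 = 4 := by
  have hn : ∀ n, g ^ n * j * (g ^ n)⁻¹ = j ^ (i ^ n) := fun n => by
    induction n with
    | zero => simp
    | succ n ih =>
      calc g ^ (n + 1) * j * (g ^ (n + 1))⁻¹ = g ^ n * (g * j * g⁻¹) * (g ^ n)⁻¹ := by
            rw [pow_succ]; group
        _ = j ^ (i ^ (n + 1)) := by rw [hi, ← conj_pow, ih, ← pow_mul, pow_succ]
  have := hn (orderOf g)
  rw [pow_orderOf_eq_one, one_mul, inv_one, mul_one, eq_comm, ← pow_one j, ← pow_mul, one_mul,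
    pow_eq_pow_iff_modEq, o, Nat.ModEq, Nat.pow_mod] at this
  have h2 := h.spec g
  have h5 : i % 5 < 5 := Nat.mod_lt _ (by norm_num)
  revert this h2
  generalize orderOf g = m
  intro this h2
  fin_cases h2 <;> interval_cases i % 5 <;> simp_all

variable {Ω : Type u} [MulAction K Ω] (Γ : Geo K Ω)

theorem wt1 {j : K} {c : Ω} (hj : j • c = c) (hw : Γ.w j c = 1) : j ∈ Γ.sub c := by
  obtain ⟨x, hx, h1⟩ := Γ.exists_ne_one c
  rw [← Γ.zpowers_eq hx h1, ← (h.cent11 (Γ.orderOf_eq hx h1)).1]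
  exact mem_centralizer_singleton_iff.2 (Γ.mem_A.1 (Γ.mem_A_iff.2 ⟨hj, hw⟩) x hx).symm

theorem ex10 (c : Ω) : ∃ j : K, j • c = c ∧ Γ.w j c = 2 := by
  obtain ⟨x, hx, h1⟩ := Γ.exists_ne_one c
  have hs : Nat.card (stabilizer K c) = 110 := by
    rw [stab_eq (Γ := Γ), ← Γ.zpowers_eq hx h1, (h.cent11 (Γ.orderOf_eq hx h1)).2]
  have key : ∀ p, p = 2 ∨ p = 5 → ∃ f : K, f • c = c ∧ Γ.w f c ^ p = 1 ∧ Γ.w f c ≠ 1 := by
    intro p hp
    haveI : Fact p.Prime := ⟨by rcases hp with rfl | rfl <;> norm_num⟩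
    obtain ⟨f, hf⟩ := exists_prime_orderOf_dvd_card' (G := stabilizer K c) p
      (by rw [hs]; rcases hp with rfl | rfl <;> norm_num)
    rw [← orderOf_coe] at hf
    refine ⟨f, f.2, by rw [← Γ.w_pow f.2, ← hf, pow_orderOf_eq_one, Γ.w_one], fun e => ?_⟩
    have := orderOf_dvd_of_pow_eq_one (Γ.pow_eleven (h.wt1 Γ f.2 e))
    rw [hf] at this
    rcases hp with rfl | rfl <;> norm_num at this
  obtain ⟨t, ht, t1, t2⟩ := key 2 (Or.inl rfl)
  obtain ⟨f, hf, f1, f2⟩ := key 5 (Or.inr rfl)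
  have : ∀ k l : ZMod 11, k ^ 2 = 1 → k ≠ 1 → l ^ 5 = 1 → l ≠ 1 → ∃ i < 5, l ^ i * k = 2 := by
    decide
  obtain ⟨i, -, hi⟩ := this _ _ t1 t2 f1 f2
  exact ⟨f ^ i * t, by rw [mul_smul, ht, Geo.pow_smul_of_fix hf],
    by rw [Γ.w_mul (Geo.pow_smul_of_fix hf i) ht, Γ.w_pow hf, hi]⟩

theorem ex10' {j : K} {c : Ω} (hj : j • c = c) (hw : Γ.w j c ≠ 1) :
    ∃ g : K, g • c = c ∧ Γ.w g c = 2 ∧ g ^ 10 = 1 ∧ ∃ k : ℕ, j = g ^ k := by
  obtain ⟨g, hg, wg⟩ := h.ex10 Γ c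
  obtain ⟨k, -, hk⟩ : ∃ k < 10, (2 : ZMod 11) ^ k = Γ.w j c := by
    have := Γ.w_ne_zero hj
    revert this; generalize Γ.w j c = l; revert l; decide
  have hgk := Geo.pow_smul_of_fix hg k
  have wk : Γ.w (g ^ k) c = Γ.w j c := by rw [Γ.w_pow hg, wg, hk]
  obtain ⟨x, hx, e⟩ := conj_of_w hgk (wk ▸ hw) (j' := j) (h.wt1 Γ
    (by rw [mul_smul, inv_smul_eq_iff.2 hgk.symm, hj])
    (by rw [Γ.w_mul hj (inv_smul_eq_iff.2 hgk.symm), ← wk, mul_comm, Γ.w_inv_mul hgk]))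
  have hx' : x⁻¹ • c = c := Γ.smul_self (inv_mem hx)
  have h1 : (x⁻¹ * g * x) • c = c := by rw [mul_smul, mul_smul, Γ.smul_self hx, hg, hx']
  have h2 : Γ.w (x⁻¹ * g * x) c = 2 := by
    have := Γ.w_conj x⁻¹ hg
    rwa [hx', inv_inv, wg] at this
  refine ⟨x⁻¹ * g * x, h1, h2, ?_, k, ?_⟩
  · exact eq_one_of_comm h1 (by rw [h2]; decide) (h.wt1 Γ (Geo.pow_smul_of_fix h1 10)
      (by rw [Γ.w_pow h1, h2]; decide)) (Commute.self_pow _ 10).eq
  · rw [← e]
    simpa using (conj_pow (a := x⁻¹) (b := g) (i := k)).symm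

theorem order10 {g : K} {c : Ω} (hg : g • c = c) (hw : Γ.w g c = 2) (h10 : g ^ 10 = 1) :
    orderOf g = 10 := by
  have := orderOf_dvd_of_pow_eq_one h10
  have h2 : (2 : ZMod 11) ^ orderOf g = 1 := by rw [← hw, ← Γ.w_pow hg, pow_orderOf_eq_one, Γ.w_one]
  have h3 := Nat.le_of_dvd (by norm_num) this
  revert this h2
  generalize orderOf g = m at *
  interval_cases m <;> decide

theorem count {j : K} {c : Ω} (hj : j • c = c) (hw : Γ.w j c ≠ 1) :
    {e | j • e = e ∧ Γ.w j e = Γ.w j c}.ncard * 10 = Nat.card (centralizer ({j} : Set K)) := by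
  obtain ⟨g, hg, wg, g10, k, hk⟩ := h.ex10' Γ hj hw
  have e1 : centralizer ({j} : Set K) ⊓ stabilizer K c = zpowers g := by
    refine le_antisymm (fun f hf => ?_) (zpowers_le.2 ⟨mem_centralizer_singleton_iff.2
      (by rw [hk]; exact (Commute.self_pow g k).eq), hg⟩)
    obtain ⟨i, -, hi⟩ : ∃ i < 10, (2 : ZMod 11) ^ i * Γ.w f c = 1 := by
      have := Γ.w_ne_zero hf.2
      revert this; generalize Γ.w f c = l; revert l; decide
    have hgi := Geo.pow_smul_of_fix hg i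
    have := eq_one_of_comm hj hw (h.wt1 Γ (j := g ^ i * f) (by rw [mul_smul, hf.2, hgi])
      (by rw [Γ.w_mul hgi hf.2, Γ.w_pow hg, wg, hi])) (by
        rw [mul_assoc, mem_centralizer_singleton_iff.1 hf.1, ← mul_assoc, ← mul_assoc, hk,
          (Commute.pow_pow_self g k i).eq])
    rw [eq_inv_of_mul_eq_one_right this]
    exact inv_mem (pow_mem (mem_zpowers g) i)
  rw [← ncard_mul_card (centralizer ({j} : Set K)) {e | j • e = e ∧ Γ.w j e = Γ.w j c} (a := c),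
    e1, Nat.card_zpowers, h.order10 Γ hg wg g10]
  · intro f hf
    have e : f * j * f⁻¹ = j := by rw [mem_centralizer_singleton_iff.1 hf]; simp
    refine ⟨by rw [← mul_smul, ← mem_centralizer_singleton_iff.1 hf, mul_smul, hj], ?_⟩
    conv_lhs => rw [← e]
    exact Γ.w_conj f hj
  · rintro e ⟨he, we⟩
    obtain ⟨f, rfl⟩ := Γ.trans c e
    have h1 : (f⁻¹ * j * f) • c = c := by rw [mul_smul, mul_smul, he, inv_smul_smul]
    have h2 : Γ.w (f⁻¹ * j * f) c = Γ.w j c := by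
      have := Γ.w_conj f⁻¹ he
      rwa [inv_smul_smul, inv_inv, we] at this
    obtain ⟨x, hx, e⟩ := conj_of_w hj hw (j' := f⁻¹ * j * f) (h.wt1 Γ
      (by rw [mul_smul, inv_smul_eq_iff.2 hj.symm, h1])
      (by rw [Γ.w_mul h1 (inv_smul_eq_iff.2 hj.symm), h2, mul_comm, Γ.w_inv_mul hj]))
    refine ⟨f * x⁻¹, mem_centralizer_singleton_iff.2 ?_,
      by rw [mul_smul, Γ.smul_self (inv_mem hx)]⟩
    calc f * x⁻¹ * j = f * (x⁻¹ * j * x) * x⁻¹ := by group
      _ = _ := by rw [e]; group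

theorem fix5 {j : K} {c : Ω} (hj : j • c = c) (hw : Ord5 (Γ.w j c)) :
    (∀ e, j • e = e → Γ.w j e = Γ.w j c ∨ Γ.w j e * Γ.w j c = 1) ∧
    {e | j • e = e ∧ Γ.w j e = Γ.w j c}.ncard = 3 ∧
    {e | j • e = e ∧ Γ.w j e * Γ.w j c = 1}.ncard = 3 ∧
    Nat.card (centralizer ({j} : Set K)) = 30 ∧
    ∃ t, t * t = 1 ∧ t * j = j * t ∧ t • c = c ∧ Γ.w t c = -1 := by
  haveI : Fact (Nat.Prime 5) := ⟨by norm_num⟩
  obtain ⟨g, hg, wg, g10, k, hk⟩ := h.ex10' Γ hj hw.1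
  have j5 : j ^ 5 = 1 := eq_one_of_comm hj hw.1 (h.wt1 Γ (Geo.pow_smul_of_fix hj 5)
    (by rw [Γ.w_pow hj, hw.2])) (Commute.self_pow _ 5).eq
  have o : orderOf j = 5 := orderOf_eq_prime j5 fun e => hw.1 (by rw [e, Γ.w_one])
  have wt : Γ.w (g ^ 5) c = -1 := by rw [Γ.w_pow hg, wg]; decide
  have tt : g ^ 5 * g ^ 5 = 1 := by rw [← pow_add, g10]
  have tj : g ^ 5 * j = j * g ^ 5 := by rw [hk, (Commute.pow_pow_self g 5 k).eq]
  obtain ⟨hc, n, hn⟩ := h.cent5 o (orderOf_eq_prime (by rw [pow_two, tt]) fun e => by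
    rw [e, Γ.w_one] at wt; exact absurd wt (by decide)) tj
  refine ⟨fun e he => ?_, by have := h.count Γ hj hw.1; omega, ?_, hc,
    g ^ 5, tt, tj, Geo.pow_smul_of_fix hg 5, wt⟩
  · obtain ⟨f, rfl⟩ := Γ.trans c e
    have h1 : (f⁻¹ * j * f) • c = c := by rw [mul_smul, mul_smul, he, inv_smul_smul]
    have h2 : Γ.w (f⁻¹ * j * f) c = Γ.w j (f • c) := by
      have := Γ.w_conj f⁻¹ he
      rwa [inv_smul_smul, inv_inv] at this
    have h5 : Γ.w j (f • c) ^ 5 = 1 := by rw [← Γ.w_pow he, j5, Γ.w_one]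
    have hne : Γ.w j (f • c) ≠ 1 := fun e => by
      have := orderOf_dvd_of_pow_eq_one (Γ.pow_eleven (h.wt1 Γ he e))
      rw [o] at this; norm_num at this
    obtain ⟨i, -, hi⟩ : ∃ i < 5, Γ.w j c ^ i = Γ.w j (f • c) := by
      obtain ⟨a1, a2⟩ := hw
      revert a1 a2 h5; generalize Γ.w j c = l; generalize Γ.w j (f • c) = m; revert l m; decide
    have hji := Geo.pow_smul_of_fix hj i
    have wi : Γ.w (j ^ i) c = Γ.w (f⁻¹ * j * f) c := by rw [Γ.w_pow hj, hi, h2]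
    obtain ⟨x, hx, e⟩ := conj_of_w h1 (h2 ▸ hne) (j' := j ^ i) (h.wt1 Γ
      (by rw [mul_smul, inv_smul_eq_iff.2 h1.symm, hji])
      (by rw [Γ.w_mul hji (inv_smul_eq_iff.2 h1.symm), wi, mul_comm, Γ.w_inv_mul h1]))
    have := h.conj5 o (g := x⁻¹ * f⁻¹) (i := i) (by rw [← e]; group)
    rw [← hi, pow_eq_pow_mod i hw.2]
    rcases this with e | e <;> rw [e]
    · exact Or.inl (pow_one _)
    · exact Or.inr (by rw [← pow_succ, hw.2])
  · have e : n * j⁻¹ * n⁻¹ = j := by rw [← conj_inv, hn, inv_inv]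
    have hj' : j⁻¹ • c = c := inv_smul_eq_iff.2 hj.symm
    have h1 : j • n • c = n • c := by
      conv_lhs => rw [← e]
      simp [mul_smul, hj']
    have h2 : Γ.w j (n • c) * Γ.w j c = 1 := by
      conv_lhs => rw [← e]
      rw [Γ.w_conj n hj', e, Γ.w_inv_mul hj]
    have := h.count Γ h1 (fun e => hw.1 (by simpa [e] using h2))
    have e2 : {e | j • e = e ∧ Γ.w j e * Γ.w j c = 1} = {e | j • e = e ∧ Γ.w j e = Γ.w j (n • c)} := by
      ext e
      refine and_congr_right fun _ => ⟨fun h3 => ?_, fun h3 => h3 ▸ h2⟩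
      exact zm_cancel _ _ _ (Γ.w_ne_zero hj) (h3.trans h2.symm)
    rw [e2]; omega

theorem fix10 {j : K} {c : Ω} (hj : j • c = c) (hw : Ord10 (Γ.w j c)) :
    ∃ d, d ≠ c ∧ j • d = d ∧ Γ.w j d * Γ.w j c = 1 ∧ ∀ e, j • e = e → e = c ∨ e = d := by
  have w1 : Γ.w j c ≠ 1 := fun e => hw.1 (by rw [e]; simp)
  have w10 := Γ.w_pow_ten hj
  have hj2 := Geo.pow_smul_of_fix hj 2
  have j10 : j ^ 10 = 1 := eq_one_of_comm hj w1 (h.wt1 Γ (Geo.pow_smul_of_fix hj 10)
    (by rw [Γ.w_pow hj, w10])) (Commute.self_pow _ 10).eq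
  have o : orderOf j = 10 := by
    refine orderOf_eq_of_pow_and_pow_div_prime (by norm_num) j10 fun p hp hd e => ?_
    have := congrArg (Γ.w · c) e
    simp only [Γ.w_pow hj, Γ.w_one] at this
    rcases (Nat.Prime.dvd_mul hp).1 (show p ∣ 2 * 5 from hd) with h2 | h2
    · rw [(Nat.prime_dvd_prime_iff_eq hp (by norm_num)).1 h2] at this
      exact hw.2 this
    · rw [(Nat.prime_dvd_prime_iff_eq hp (by norm_num)).1 h2] at this
      exact hw.1 this
  obtain ⟨f1, -, f3, f4, -⟩ := h.fix5 Γ hj2 (by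
    rw [Γ.w_pow hj]; exact ⟨hw.1, by rw [← pow_mul, w10]⟩)
  have hc : Nat.card (centralizer ({j} : Set K)) = 10 := by
    have d1 : Nat.card (centralizer ({j} : Set K)) ∣ 30 := f4 ▸ card_dvd_of_le fun g hg =>
      mem_centralizer_singleton_iff.2 (Commute.pow_right (mem_centralizer_singleton_iff.1 hg) 2).eq
    have d2 : 10 ∣ Nat.card (centralizer ({j} : Set K)) :=
      o ▸ orderOf_dvd_natCard' (mem_centralizer_singleton_iff.2 rfl)
    have d3 : ¬ 3 ∣ Nat.card (centralizer ({j} : Set K)) := fun d => by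
      obtain ⟨y, oy, hy⟩ := H74.JK.exists_comm_of_dvd (by norm_num) d
      have := h.comm hy (by rw [oy, o]; norm_num)
      rw [oy, o] at this
      simp at this
    have := Nat.le_of_dvd (by norm_num) d1
    revert d1 d2 d3
    generalize Nat.card (centralizer ({j} : Set K)) = m at *
    interval_cases m <;> decide
  have w5 : ∀ e, j • e = e → Γ.w j e ^ 5 ≠ 1 := fun e he e5 => by
    have := Γ.pow_eleven (h.wt1 Γ (Geo.pow_smul_of_fix he 5) (by rw [Γ.w_pow he, e5]))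
    rw [← pow_mul, ← orderOf_dvd_iff_pow_eq_one, o] at this
    norm_num at this
  have uniq : ∀ d e, j • d = d → j • e = e → Γ.w j e = Γ.w j d → e = d := fun d e hd he hde => by
    have := h.count Γ hd fun e => w5 d hd (by rw [e]; simp)
    obtain ⟨p, hp⟩ := Set.ncard_eq_one.1 (show {e | j • e = e ∧ Γ.w j e = Γ.w j d}.ncard = 1 by omega)
    have h1 : e ∈ ({p} : Set Ω) := hp ▸ ⟨he, hde⟩
    have h2 : d ∈ ({p} : Set Ω) := hp ▸ ⟨hd, rfl⟩
    exact h1.trans h2.symm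
  obtain ⟨d, ⟨hd, wd⟩, td⟩ := exists_fix_of_odd (t := j ^ 5) (by rw [← pow_add, j10])
    {e | j ^ 2 • e = e ∧ Γ.w (j ^ 2) e * Γ.w (j ^ 2) c = 1} (fun e he => by
      refine ⟨by rw [← mul_smul, (Commute.pow_pow_self j 2 5).eq, mul_smul, he.1], ?_⟩
      have := Γ.w_conj (j ^ 5) he.1
      rw [(Commute.pow_pow_self j 5 2).eq, mul_inv_cancel_right] at this
      rw [this, he.2]) (by rw [f3]; decide)
  have jd : j • d = d := by
    have : j = (j ^ 2) ^ 3 * j ^ 5 := by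
      rw [← pow_mul, ← pow_add, show 2 * 3 + 5 = 10 + 1 from rfl, pow_succ, j10, one_mul]
    rw [this, mul_smul, td, Geo.pow_smul_of_fix hd]
  have dec : ∀ l m : ZMod 11, l ≠ 0 → m ≠ 0 → l ^ 5 ≠ 1 → m ^ 5 ≠ 1 →
      (m ^ 2 = l ^ 2 → m = l) ∧ (m ^ 2 * l ^ 2 = 1 → m * l = 1) := by decide
  rw [Γ.w_pow jd, Γ.w_pow hj] at wd
  have wd' := (dec _ _ (Γ.w_ne_zero hj) (Γ.w_ne_zero jd) hw.2 (w5 d jd)).2 wd
  refine ⟨d, fun e => hw.1 (by rw [e] at wd'; rw [pow_two, wd']), jd, wd', fun e he => ?_⟩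
  have := f1 e (Geo.pow_smul_of_fix he 2)
  rw [Γ.w_pow he, Γ.w_pow hj] at this
  have dd := dec _ _ (Γ.w_ne_zero hj) (Γ.w_ne_zero he) hw.2 (w5 e he)
  exact this.imp (fun h1 => uniq c e hj he (dd.1 h1)) fun h1 => uniq d e jd he
    (zm_cancel _ _ _ (Γ.w_ne_zero hj) ((dd.2 h1).trans wd'.symm))

theorem fix2 (c : Ω) {t : K} (ht : t * t = 1) (h1 : t ≠ 1) : ∃ c, t • c = c ∧ Γ.w t c = -1 := by
  obtain ⟨j, hj, wj⟩ := h.ex10 Γ c
  obtain ⟨g, hg, wg, g10, -⟩ := h.ex10' Γ hj (by rw [wj]; decide)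
  have wt : Γ.w (g ^ 5) c = -1 := by rw [Γ.w_pow hg, wg]; decide
  obtain ⟨n, rfl⟩ := isConj_iff.1 (h.conj (g ^ 5) t (by rw [← pow_add, g10]) (fun e => by
    rw [e, Γ.w_one] at wt; exact absurd wt (by decide)) ht h1)
  have := Geo.pow_smul_of_fix hg 5
  exact ⟨n • c, by simp [mul_smul, this], by rw [Γ.w_conj n this, wt]⟩

end JL

variable {G Ω : Type u} [Group G] [MulAction G Ω] {Γ : Geo G Ω}

theorem notL_of [Finite G] {J : Subgroup G} (no4 : ∀ j ∈ J, j ^ 4 = 1 → j ^ 2 = 1)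
    (wt1 : ∀ j ∈ J, ∀ c, Γ.sub c ≤ J → j • c = c → Γ.w j c = 1 → j ∈ Γ.sub c)
    {j : G} (hj : j ∈ J) {c d : Ω} (hc : Γ.sub c ≤ J) (hd : Γ.sub d ≤ J) (jc : j • c = c)
    (jd : j • d = d) (hw : Ord10 (Γ.w j c)) (lp : LPair Γ c d) : False := by
  have tc := Geo.pow_smul_of_fix jc 5
  have td := Geo.pow_smul_of_fix jd 5
  have wt : Γ.w (j ^ 5) c = -1 := by
    have := Γ.w_ne_zero jc
    have h2 := hw.2
    rw [Γ.w_pow jc]
    revert this h2; generalize Γ.w j c = k; revert k; decide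
  have tJ := pow_mem hj 5
  generalize j ^ 5 = t at *
  have one : ∀ g ∈ J, g • c = c → g * g = 1 → Γ.w g c = 1 → g = 1 := fun g hg gc gg wg => by
    have := Γ.pow_eleven (wt1 g hg c hc gc wg)
    calc g = (g * g) ^ 5 * g := by rw [gg]; simp
      _ = g ^ 11 := by rw [← pow_two, ← pow_mul, ← pow_succ]
      _ = 1 := this
  have tt : t * t = 1 := sub_eq_one lp.ne (wt1 _ (mul_mem tJ tJ) c hc (by rw [mul_smul, tc, tc])
    (by rw [Γ.w_mul tc tc, wt]; decide)) (by rw [mul_smul, td, td])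
  have LJ : Γ.L c d ≤ J := sup_le hc hd
  let X : Subgroup G := normalizer (Γ.L c d : Set G) ⊓ J
  have LX : Γ.L c d ≤ X := le_inf le_normalizer LJ
  have tX : t ∈ X := ⟨mem_normalizer_fintype fun x hx => conj_H_L ⟨tc, td⟩ hx, tJ⟩
  haveI : ((Γ.L c d).subgroupOf X).Normal := normal_subgroupOf_of_le_normalizer inf_le_left
  have h8 : 2 ^ 3 ∣ Nat.card X := by
    have h2 : orderOf (QuotientGroup.mk' ((Γ.L c d).subgroupOf X) ⟨t, tX⟩) = 2 :=
      orderOf_eq_prime (by rw [← map_pow, pow_two, show (⟨t, tX⟩ : X) * ⟨t, tX⟩ = 1 from Subtype.ext tt, map_one]) fun e => by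
        have := lp.wt5 t ((QuotientGroup.eq_one_iff (⟨t, tX⟩ : X)).1 e) c (Γ.on_left c d) tc
        rw [wt] at this
        exact absurd this (by decide)
    obtain ⟨k, hk⟩ := h2 ▸ orderOf_dvd_natCard (QuotientGroup.mk' ((Γ.L c d).subgroupOf X) ⟨t, tX⟩)
    rw [card_eq_card_quotient_mul_card_subgroup ((Γ.L c d).subgroupOf X), hk,
      Nat.card_congr (subgroupOfEquivOfLe LX).toEquiv, lp.card]
    exact ⟨k * 165, by ring⟩
  have pt : IsPGroup 2 (zpowers (⟨t, tX⟩ : X)) := by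
    rintro ⟨_, n, rfl⟩
    refine ⟨1, Subtype.ext (Subtype.ext ?_)⟩
    simp only [pow_one, SubmonoidClass.coe_pow, SubgroupClass.coe_zpow, OneMemClass.coe_one]
    rw [← zpow_natCast, ← zpow_mul, mul_comm, zpow_mul, zpow_natCast, pow_two, tt, one_zpow]
  obtain ⟨E, hE⟩ := pt.exists_le_sylow
  have tE : (⟨t, tX⟩ : X) ∈ E := hE (mem_zpowers _)
  have e8 : 8 ≤ Nat.card E := Nat.le_of_dvd Nat.card_pos (E.pow_dvd_card_of_pow_dvd_card h8)
  have sq : ∀ g ∈ E, (g : G) * g = 1 := fun g hg => by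
    obtain ⟨k, hk⟩ := E.2 ⟨g, hg⟩
    have hk' : (g : G) ^ 2 ^ k = 1 := congrArg (fun x => ((x : X) : G)) (congrArg Subtype.val hk)
    have gJ := g.2.2
    generalize (g : G) = g' at *
    clear hk
    rw [← pow_two]
    induction k using Nat.twoStepInduction generalizing g' with
    | zero => simp_all
    | one => simpa using hk'
    | more k _ ih =>
      refine no4 _ gJ ?_
      have := ih (g' ^ 2) (by rw [← pow_mul, ← pow_succ']; exact hk') (pow_mem gJ 2)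
      rwa [← pow_mul] at this
  have cm : ∀ g ∈ E, (g : G) * t = t * g := fun g hg => by
    have h1 := sq _ (E.mul_mem hg tE)
    have h2 := sq g hg
    simp only [Subgroup.coe_mul] at h1
    rw [eq_inv_of_mul_eq_one_left h1, mul_inv_rev, inv_eq_of_mul_eq_one_right h2,
      inv_eq_of_mul_eq_one_right tt]
  have fx : ∀ g ∈ E, (g : G) • c = c ∨ (g : G) • c = d := fun g hg => by
    by_contra hne
    push Not at hne
    obtain ⟨x, hx, e⟩ := lp.reg c d _ (Γ.on_left c d) (Γ.on_right c d)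
      (Γ.sub_smul_le (fun x hx => (mem_normalizer_iff.1 g.2.1 x).1 hx) (Γ.on_left c d))
      lp.ne.symm hne.1
    have h1 : t • x • d = x • d := by rw [e, ← mul_smul, ← cm g hg, mul_smul, tc]
    have h2 : x⁻¹ * (t * x * t⁻¹) = 1 := sub_eq_one lp.ne
      (mul_mem (inv_mem hx) (tc ▸ Γ.conj t c x hx))
      (by rw [mul_smul, mul_smul, mul_smul, inv_smul_eq_iff.2 td.symm, h1, inv_smul_smul])
    have := eq_one_of_comm tc (by rw [wt]; decide) hx (by
      rw [inv_mul_eq_one, eq_mul_inv_iff_mul_eq] at h2; exact h2.symm)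
    exact hne.2 (by rw [← e, this, one_smul])
  have st : ∀ g ∈ E, (g : G) • c = c → g = 1 ∨ g = ⟨t, tX⟩ := fun g hg gc => by
    have h2 : Γ.w g c * Γ.w g c = 1 := by rw [← Γ.w_mul gc gc, sq g hg, Γ.w_one]
    have : Γ.w g c = 1 ∨ Γ.w g c * -1 = 1 := by
      revert h2; generalize Γ.w g c = k; revert k; decide
    refine this.imp (fun h => Subtype.ext (one g g.2.2 gc (sq g hg) h)) fun h => Subtype.ext ?_
    have := one _ (mul_mem g.2.2 tJ) (by rw [mul_smul, tc, gc]) (sq _ (E.mul_mem hg tE))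
      (by rw [Γ.w_mul gc tc, wt, h])
    exact (eq_inv_of_mul_eq_one_left this).trans (inv_eq_of_mul_eq_one_right tt)
  obtain ⟨g0, h0⟩ : ∃ g0 : X, ((E : Subgroup X) : Set X) ⊆ {1, ⟨t, tX⟩, g0, g0 * ⟨t, tX⟩} := by
    by_cases hex : ∃ g ∈ E, (g : G) • c = d
    · obtain ⟨g0, h0, e0⟩ := hex
      refine ⟨g0, fun g hg => ?_⟩
      rcases fx g hg with e | e
      · rcases st g hg e with e | e <;> simp [e]
      · rcases st (g0⁻¹ * g) (E.mul_mem (E.inv_mem h0) hg)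
          (by rw [Subgroup.coe_mul, mul_smul, e, ← e0]; simp) with e | e
        · simp [← inv_mul_eq_one.1 e]
        · simp [inv_mul_eq_iff_eq_mul.1 e]
    · refine ⟨1, fun g hg => ?_⟩
      rcases st g hg ((fx g hg).resolve_right fun e => hex ⟨g, hg, e⟩) with e | e <;> simp [e]
  have h1 := Set.ncard_le_ncard h0
  have h2 := Set.ncard_insert_le (1 : X) {⟨t, tX⟩, g0, g0 * ⟨t, tX⟩}
  have h3 := Set.ncard_insert_le (⟨t, tX⟩ : X) {g0, g0 * ⟨t, tX⟩}
  have h4 := Set.ncard_insert_le g0 {g0 * ⟨t, tX⟩}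
  rw [Set.ncard_singleton] at h4
  have h5 : Nat.card E = ((E : Subgroup X) : Set X).ncard := (Nat.card_coe_set_eq _)
  omega

theorem jobJ : JobJ.{u} := by
  intro G Ω _ _ _ _ Γ J hJ hex
  have h := jl_of_iso hJ
  let Γ' := geoRes Γ J (Or.inr h.card) h.simple hex
  have hw : ∀ {g : J} {c : {c : Ω // Γ.sub c ≤ J}}, g • c = c → Γ'.w g c = Γ.w g c :=
    fun e => geoRes_w Γ J _ _ _ e
  have no4 : ∀ j ∈ J, j ^ 4 = 1 → j ^ 2 = 1 := fun j hj e =>
    congrArg Subtype.val (h.no4 ⟨j, hj⟩ (Subtype.ext e))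
  have wt1 : ∀ j ∈ J, ∀ c, Γ.sub c ≤ J → j • c = c → Γ.w j c = 1 → j ∈ Γ.sub c :=
    fun j hj c hc e w => h.wt1 Γ' (j := ⟨j, hj⟩) (c := ⟨c, hc⟩) (Subtype.ext e)
      ((hw (Subtype.ext e)).trans w)
  have nc : ∀ (j : J) (p : ZMod 11 → Prop), {e | Γ.sub e ≤ J ∧ (j : G) • e = e ∧ p (Γ.w j e)}.ncard =
      {e | j • e = e ∧ p (Γ'.w j e)}.ncard := fun j p => by
    rw [← Set.ncard_image_of_injective _ Subtype.val_injective]
    congr 1
    ext e
    exact ⟨fun ⟨h1, h2, h3⟩ => ⟨⟨e, h1⟩, ⟨Subtype.ext h2, by rwa [hw (Subtype.ext h2)]⟩, rfl⟩,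
      fun ⟨e', ⟨h1, h2⟩, h3⟩ => h3 ▸ ⟨e'.2, congrArg Subtype.val h1, by rwa [← hw h1]⟩⟩
  refine ⟨h.card, fun g hg => ?_, no4, wt1, hex, fun c hc => ?_, fun j hj c hc jc w => ?_,
    fun j hj c hc jc w => ?_, fun t ht tt t1 => ?_,
    fun j hj c d hc hd jc jd w lp => notL_of no4 wt1 hj hc hd jc jd w lp⟩
  · obtain ⟨j, e⟩ := h.inner (normalizerMonoidHom J ⟨g, mem_normalizer_fintype hg⟩)
    refine ⟨j, j.2, mem_centralizer_iff.2 fun x hx => ?_⟩
    have : (j : G) * x * (j : G)⁻¹ = g * x * g⁻¹ := by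
      simpa using congrArg Subtype.val (DFunLike.congr_fun e ⟨x, hx⟩)
    calc x * ((j : G)⁻¹ * g) = (j : G)⁻¹ * (j * x * (j : G)⁻¹) * g := by group
      _ = _ := by rw [this]; group
  · obtain ⟨j, h1, h2⟩ := h.ex10 Γ' ⟨c, hc⟩
    exact ⟨j, j.2, congrArg Subtype.val h1, (hw h1).symm.trans h2⟩
  · have jc' : (⟨j, hj⟩ : J) • (⟨c, hc⟩ : {c : Ω // Γ.sub c ≤ J}) = ⟨c, hc⟩ := Subtype.ext jc
    obtain ⟨d, h1, h2, h3, h4⟩ := h.fix10 Γ' jc' (by rwa [hw jc'])
    refine ⟨d, fun e => h1 (Subtype.ext e), d.2, congrArg Subtype.val h2,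
      by rwa [hw h2, hw jc'] at h3, fun e he je => ?_⟩
    exact (h4 ⟨e, he⟩ (Subtype.ext je)).imp (congrArg Subtype.val) (congrArg Subtype.val)
  · have jc' : (⟨j, hj⟩ : J) • (⟨c, hc⟩ : {c : Ω // Γ.sub c ≤ J}) = ⟨c, hc⟩ := Subtype.ext jc
    obtain ⟨h1, h2, h3, -, t, t1, t2, t3, t4⟩ := h.fix5 Γ' jc' (by rwa [hw jc'])
    rw [hw jc'] at h1 h2 h3
    refine ⟨fun e he je => ?_, (nc ⟨j, hj⟩ (· = Γ.w j c)).trans h2,
      (nc ⟨j, hj⟩ (· * Γ.w j c = 1)).trans h3, t, t.2, congrArg Subtype.val t1,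
      congrArg Subtype.val t2, congrArg Subtype.val t3, (hw t3).symm.trans t4⟩
    have je' : (⟨j, hj⟩ : J) • (⟨e, he⟩ : {c : Ω // Γ.sub c ≤ J}) = ⟨e, he⟩ := Subtype.ext je
    have := h1 _ je'
    rwa [hw je'] at this
  · obtain ⟨c, hc⟩ := id hex
    obtain ⟨e, h1, h2⟩ := h.fix2 Γ' ⟨c, hc⟩ (t := ⟨t, ht⟩) (Subtype.ext tt)
      fun e => t1 (congrArg Subtype.val e)
    exact ⟨e, e.2, congrArg Subtype.val h1, (hw h1).symm.trans h2⟩

end H74.O11
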