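import Cfsg.Agent.H74.O11Spec
import Cfsg.Agent.H74.J1M
import Cfsg.Agent.H57.SLGen
import Cfsg.Agent.S0243

/-! O11 tower: induction, reduction to simple groups, and the geometry of the row. -/

set_option autoImplicit false

namespace H74.O11

open Subgroup MulAction

universe u v

/-- PSL(2,F) or J1 -/
def Good (F : Type v) [Field F] (K : Type u) [Group K] : Prop :=
  Nonempty (K ≃* Matrix.ProjectiveSpecialLinearGroup (Fin 2) F) ∨ Cfsg.Spor.IsoJ1 K

section Good

variable {F : Type v} [Field F] [Fintype F] {K K' : Type u} [Group K] [Group K']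

omit [Fintype F] in
theorem Good.of_equiv (h : Good F K) (e : K' ≃* K) : Good F K' := by
  rcases h with ⟨⟨f⟩⟩ | ⟨⟨f⟩⟩
  · exact Or.inl ⟨e.trans f⟩
  · exact Or.inr ⟨e.trans f⟩

theorem card_psl (hF : Fintype.card F = 11) :
    Nat.card (Matrix.ProjectiveSpecialLinearGroup (Fin 2) F) = 660 := by
  have := Cfsg.Agent.S0243.result hF 2 le_rfl
  simp only [Fin.prod_univ_two] at this
  norm_num at this
  omega

theorem Good.card (hF : Fintype.card F = 11) (h : Good F K) :
    Nat.card K = 660 ∨ Nat.card K = 175560 := by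
  rcases h with ⟨⟨f⟩⟩ | ⟨⟨f⟩⟩
  · exact Or.inl ((Nat.card_congr f.toEquiv).trans (card_psl hF))
  · exact Or.inr ((Nat.card_congr f.toEquiv).trans H74.J1.card_J1)

theorem Good.simple (hF : Fintype.card F = 11) (h : Good F K) : IsSimpleGroup K := by
  rcases h with ⟨⟨f⟩⟩ | ⟨⟨f⟩⟩
  · haveI := H57.psl_fin_isSimpleGroup (F := F) (n := 2) le_rfl (fun _ => by omega)
    exact f.isSimpleGroup
  · exact f.isSimpleGroup

end Good

/-- two subgroups of order 11 of a group of order prime to 121 are conjugate -/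
theorem conj_of_card {G : Type u} [Group G] [Finite G] {K P Q : Subgroup G} (hP : P ≤ K)
    (hQ : Q ≤ K) (cP : Nat.card P = 11) (cQ : Nat.card Q = 11)
    (hK : Nat.card K = 660 ∨ Nat.card K = 175560) : ∃ g ∈ K, ∀ x ∈ P, g * x * g⁻¹ ∈ Q := by
  haveI : Fact (Nat.Prime 11) := ⟨by norm_num⟩
  have hf : (Nat.card K).factorization 11 = 1 := by
    rcases hK with h | h <;> rw [h]
    all_goals
      apply le_antisymm
      · by_contra h'
        exact absurd ((Nat.Prime.pow_dvd_iff_le_factorization (p := 11) (k := 2) (by norm_num)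
          (by norm_num)).2 (not_le.1 h')) (by norm_num)
      · exact (Nat.Prime.dvd_iff_one_le_factorization (by norm_num) (by norm_num)).1 (by norm_num)
  let S := Sylow.ofCard (P.subgroupOf K)
    (by rw [Nat.card_congr (subgroupOfEquivOfLe hP).toEquiv, cP, hf, pow_one])
  let T := Sylow.ofCard (Q.subgroupOf K)
    (by rw [Nat.card_congr (subgroupOfEquivOfLe hQ).toEquiv, cQ, hf, pow_one])
  obtain ⟨g, hg⟩ := exists_smul_eq K S T
  refine ⟨g, g.2, fun x hx => ?_⟩
  have h1 : (⟨x, hP hx⟩ : K) ∈ (S : Subgroup K) := hx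
  have h2 : g * ⟨x, hP hx⟩ * g⁻¹ ∈ (T : Subgroup K) := by
    rw [← hg, Sylow.coe_subgroup_smul]
    exact smul_mem_pointwise_smul _ (MulAut.conj g) _ h1
  exact h2

section Sub

variable {G Ω : Type u} [Group G] [MulAction G Ω] (Γ : Geo G Ω) (z : G)

/-- the subgroup generated by the members centralised by `z` -/
def Mz : Subgroup G := ⨆ c : {c : Ω // z ∈ Γ.A c}, Γ.sub c

theorem Mz_le : Mz Γ z ≤ centralizer {z} :=
  iSup_le fun c x hx => mem_centralizer_singleton_iff.2 (Γ.mem_A.1 c.2 x hx)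

theorem le_Mz {c : Ω} (hc : z ∈ Γ.A c) : Γ.sub c ≤ Mz Γ z :=
  le_iSup (fun c : {c : Ω // z ∈ Γ.A c} => Γ.sub c) ⟨c, hc⟩

instance actMz : MulAction (Mz Γ z) {c : Ω // z ∈ Γ.A c} where
  smul g c := ⟨(g : G) • c.1, by
    have := Γ.conj_mem_A g c.2
    rwa [mem_centralizer_singleton_iff.1 (Mz_le Γ z g.2), mul_inv_cancel_right] at this⟩
  one_smul c := Subtype.ext (one_smul G c.1)
  mul_smul g h c := Subtype.ext (mul_smul (g : G) (h : G) c.1)

theorem actMz_val (g : Mz Γ z) (c : {c : Ω // z ∈ Γ.A c}) : (g • c).1 = (g : G) • c.1 := rfl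

/-- the geometry of the members centralised by `z` -/
noncomputable def geoMz [Finite G]
    (hc : ∀ a b, a ≠ b → Nat.card (Γ.L a b) = 660 ∨ Nat.card (Γ.L a b) = 175560) :
    Geo (Mz Γ z) {c : Ω // z ∈ Γ.A c} where
  sub c := (Γ.sub c).subgroupOf (Mz Γ z)
  card c := (Nat.card_congr (subgroupOfEquivOfLe (le_Mz Γ z c.2)).toEquiv).trans (Γ.card c)
  inj c d h := by
    obtain ⟨x, hx, h1⟩ := Γ.exists_ne_one c
    have : (⟨x, le_Mz Γ z c.2 hx⟩ : Mz Γ z) ∈ (Γ.sub d).subgroupOf (Mz Γ z) := by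
      have h' : (Γ.sub c).subgroupOf (Mz Γ z) = (Γ.sub d).subgroupOf (Mz Γ z) := h
      rw [← h']; exact hx
    exact Subtype.ext (Γ.eq_of_mem hx this h1)
  conj g c x hx := Γ.conj g c x hx
  trans c d := by
    by_cases h : (c : Ω) = d
    · exact ⟨1, by rw [one_smul]; exact Subtype.ext h⟩
    obtain ⟨g, hg, hx⟩ := conj_of_card (Γ.on_left c d) (Γ.on_right c d) (Γ.card c) (Γ.card d)
      (hc _ _ h)
    obtain ⟨x, hx', h1⟩ := Γ.exists_ne_one c
    exact ⟨⟨g, sup_le (le_Mz Γ z c.2) (le_Mz Γ z d.2) hg⟩,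
      Subtype.ext (Γ.smul_eq_of_conj hx' h1 (hx x hx'))⟩
  semi a c x hx h1 h := Subtype.ext
    (Γ.semi a c x hx (fun h => h1 (Subtype.ext h)) (congrArg Subtype.val h))
  gen := by
    apply map_injective (Mz Γ z).subtype_injective
    rw [Subgroup.map_iSup, ← MonoidHom.range_eq_map, range_subtype]
    exact iSup_congr fun c => map_subgroupOf_eq_of_le (le_Mz Γ z c.2)

end Sub

section Quot

variable {G Ω : Type u} [Group G] [MulAction G Ω] (Γ : Geo G Ω) (N : Subgroup G) [N.Normal]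

/-- the action of the quotient by a normal subgroup acting trivially -/
@[reducible] def actQ (hN : ∀ n ∈ N, ∀ c : Ω, n • c = c) : MulAction (G ⧸ N) Ω :=
  MulAction.compHom Ω
    (QuotientGroup.lift N (toPermHom G Ω) fun n hn => Equiv.ext fun c => hN n hn c)

/-- the geometry of the quotient -/
noncomputable def geoQ (hN : ∀ n ∈ N, ∀ c : Ω, n • c = c)
    (h1 : ∀ c, ∀ x ∈ Γ.sub c, x ∈ N → x = 1) (h2 : ∀ c d, c ≠ d → ∀ x ∈ Γ.L c d, x ∈ N → x = 1) :
    @Geo (G ⧸ N) Ω _ (actQ N hN) :=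
  letI := actQ N hN
  { sub c := (Γ.sub c).map (QuotientGroup.mk' N)
    card c := by
      rw [← Γ.card c]
      refine (Nat.card_congr (Equiv.ofBijective ((QuotientGroup.mk' N).subgroupMap (Γ.sub c))
        ⟨(injective_iff_map_eq_one _).2 fun x hx => Subtype.ext (h1 c x x.2 ?_),
          MonoidHom.subgroupMap_surjective _ _⟩)).symm
      exact (QuotientGroup.eq_one_iff _).1 (congrArg Subtype.val hx)
    inj c d h := by
      by_contra hcd
      obtain ⟨x, hx, hx1⟩ := Γ.exists_ne_one c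
      have h' : (Γ.sub c).map (QuotientGroup.mk' N) = (Γ.sub d).map (QuotientGroup.mk' N) := h
      obtain ⟨y, hy, he⟩ : QuotientGroup.mk' N x ∈ (Γ.sub d).map (QuotientGroup.mk' N) :=
        h' ▸ mem_map_of_mem _ hx
      have := h2 c d hcd (y⁻¹ * x) (mul_mem (inv_mem (Γ.on_right c d hy)) (Γ.on_left c d hx))
        (QuotientGroup.eq.1 he)
      rw [inv_mul_eq_one] at this
      exact hcd (Γ.eq_of_mem hx (this ▸ hy) hx1)
    conj g c x hx := by
      obtain ⟨g, rfl⟩ := QuotientGroup.mk'_surjective N g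
      obtain ⟨x, hx, rfl⟩ := hx
      exact ⟨g * x * g⁻¹, Γ.conj g c x hx, by simp⟩
    trans c d := by
      obtain ⟨g, hg⟩ := Γ.trans c d
      exact ⟨QuotientGroup.mk' N g, hg⟩
    semi a c x hx hx1 h := by
      obtain ⟨x, hx, rfl⟩ := hx
      exact Γ.semi a c x hx (fun h => hx1 (by rw [h, map_one])) h
    gen := by
      rw [← Subgroup.map_iSup, Γ.gen, ← MonoidHom.range_eq_map]
      exact MonoidHom.range_eq_top.2 (QuotientGroup.mk'_surjective N) }

end Quot

theorem core (hL : JobL.{u, v}) (hJ : JobJ.{u}) (hI : All.{u} fun Γ => One0 Γ → False)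
    (hII : All.{u} fun Γ => Two Γ → ∃ a b, a ≠ b ∧ Γ.L a b = ⊤)
    {F : Type v} [Field F] [Fintype F] (hF : Fintype.card F = 11) (n : ℕ) :
    ∀ (G Ω : Type u) [Group G] [Finite G] [MulAction G Ω] [Finite Ω] (Γ : Geo G Ω),
      Nat.card G = n → (∃ a b : Ω, a ≠ b) → (∀ a b, a ≠ b → Good F (Γ.L a b)) →
      ∃ a b, a ≠ b ∧ Γ.L a b = ⊤ := by
  induction n using Nat.strong_induction_on with
  | _ n ih =>
  intro G Ω _ _ _ _ Γ hn ⟨a0, b0, hab0⟩ hg
  have hc : ∀ a b, a ≠ b → Nat.card (Γ.L a b) = 660 ∨ Nat.card (Γ.L a b) = 175560 :=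
    fun a b h => (hg a b h).card hF
  have top_of : ∀ a b, (∀ c, Γ.On a b c) → Γ.L a b = ⊤ := fun a b h =>
    top_le_iff.1 (Γ.gen ▸ iSup_le h)
  by_cases hs : IsSimpleGroup G
  · -- the induction hypothesis for centralisers
    have hsub : ∀ z : G, z ≠ 1 → ∀ c d, c ≠ d → z ∈ Γ.A c → z ∈ Γ.A d →
        ∃ c' d', c' ≠ d' ∧ ∀ e, z ∈ Γ.A e → Γ.On c' d' e := by
      intro z hz c d hcd hzc hzd
      have hne : Mz Γ z ≠ ⊤ := by
        intro ht
        have hcen : z ∈ center G := mem_center_iff.2 fun g =>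
          mem_centralizer_singleton_iff.1 (Mz_le Γ z (ht ▸ mem_top g))
        rcases hs.eq_bot_or_eq_top_of_normal (center G) inferInstance with h | h
        · exact hz (by simpa [h] using hcen)
        · obtain ⟨g, hg'⟩ := Γ.trans c d
          have : g ∈ Γ.A c := Γ.mem_A.2 fun x _ => mem_center_iff.1 (h ▸ mem_top g) x
          exact hcd ((Γ.mem_A_iff.1 this).1.symm.trans hg')
      have hlt : Nat.card (Mz Γ z) < n := by
        rw [← hn]
        exact lt_of_le_of_ne (card_le_card_group _) fun h => hne (eq_top_of_card_eq _ h)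
      have hLe : ∀ p q : {c : Ω // z ∈ Γ.A c}, ((geoMz Γ z hc).L p q).map (Mz Γ z).subtype =
          Γ.L p q := fun p q => by
        rw [Geo.L, Subgroup.map_sup]
        exact congrArg₂ _ (map_subgroupOf_eq_of_le (le_Mz Γ z p.2))
          (map_subgroupOf_eq_of_le (le_Mz Γ z q.2))
      obtain ⟨p, q, hpq, ht⟩ := ih _ hlt (Mz Γ z) _ (geoMz Γ z hc) rfl
        ⟨⟨c, hzc⟩, ⟨d, hzd⟩, fun h => hcd (congrArg Subtype.val h)⟩ fun p q hpq =>
          (hg p q fun h => hpq (Subtype.ext h)).of_equiv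
            ((equivMapOfInjective _ _ (Mz Γ z).subtype_injective).trans
              (MulEquiv.subgroupCongr (hLe p q)))
      refine ⟨p, q, fun h => hpq (Subtype.ext h), fun e he => ?_⟩
      rw [Geo.On, ← hLe, ht, ← MonoidHom.range_eq_map, range_subtype]
      exact le_Mz Γ z he
    by_cases hall : ∀ a b, a ≠ b → LPair Γ a b
    · by_contra hcon
      refine hI G Ω Γ ⟨hs, hall, ?_, fun a b hab z hz h1 c hzc => ?_⟩
      · by_contra hb
        push Not at hb
        exact hcon ⟨a0, b0, hab0, top_of _ _ fun c => hb a0 b0 c hab0⟩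
      · obtain ⟨ha, hb⟩ := Γ.mem_Z_iff.1 hz
        obtain ⟨c', d', hcd, h⟩ := hsub z h1 a b hab ha hb
        have : Γ.L a b = Γ.L c' d' := eq_of_le_of_card_ge (sup_le (h a ha) (h b hb))
          (by rw [(hall _ _ hab).card, (hall _ _ hcd).card])
        rw [Geo.On, this]
        exact h c hzc
    · have hp : ∀ a b, a ≠ b → LPair Γ a b ∨ JBlk Γ (Γ.L a b) := fun a b hab =>
        (hg a b hab).imp (hL G Ω Γ F hF a b hab) fun h => hJ G Ω Γ _ h ⟨a, Γ.on_left a b⟩
      refine hII G Ω Γ ⟨hs, hp, ?_, fun J hb z hz h1 e hze => ?_⟩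
      · push Not at hall
        obtain ⟨a, b, hab, h⟩ := hall
        exact ⟨a, b, hab, (hp a b hab).resolve_left h⟩
      · obtain ⟨c, hcJ⟩ := hb.ex
        obtain ⟨j, hj, hjc, hw⟩ := hb.ex10 c hcJ
        have h10 : Ord10 (Γ.w j c) := by rw [hw]; unfold Ord10; decide
        obtain ⟨d, hdc, hdJ, hjd, -⟩ := hb.fix10 j hj c hcJ hjc h10
        have hb' := (hp c d hdc.symm).resolve_left (hb.notL j hj c d hcJ hdJ hjc hjd h10)
        have e1 : Γ.L c d = J := eq_of_le_of_card_ge (sup_le hcJ hdJ) (by rw [hb.card, hb'.card])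
        obtain ⟨c', d', hcd, h⟩ := hsub z h1 c d hdc.symm (Γ.cent_mem_A hz hcJ)
          (Γ.cent_mem_A hz hdJ)
        have e2 : Γ.L c d = Γ.L c' d' :=
          eq_of_le_of_card_ge (sup_le (h c (Γ.cent_mem_A hz hcJ)) (h d (Γ.cent_mem_A hz hdJ)))
            (by rw [hb'.card]; rcases hc _ _ hcd with h | h <;> omega)
        rw [← e1, e2]
        exact h e hze
  · obtain ⟨x0, -, hx0⟩ := Γ.exists_ne_one a0
    haveI : Nontrivial G := ⟨⟨x0, 1, hx0⟩⟩
    obtain ⟨N, hN, hb, ht⟩ : ∃ N : Subgroup G, N.Normal ∧ N ≠ ⊥ ∧ N ≠ ⊤ := by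
      by_contra h
      push Not at h
      exact hs ⟨fun N hN => (em (N = ⊥)).imp_right (h N hN)⟩
    have h0 : ∀ c, ¬ Γ.sub c ≤ N := fun c h => ht (top_le_iff.1 (Γ.gen ▸ iSup_le fun d => by
      obtain ⟨g, rfl⟩ := Γ.trans c d
      exact Γ.sub_smul_le (fun x hx => hN.conj_mem x hx g) h))
    have h1 : ∀ c, ∀ x ∈ Γ.sub c, x ∈ N → x = 1 := fun c x hx hxN => by
      by_contra h
      exact h0 c (Γ.zpowers_eq hx h ▸ zpowers_le.2 hxN)
    have h2 : ∀ c d, c ≠ d → ∀ x ∈ Γ.L c d, x ∈ N → x = 1 := fun c d hcd x hx hxN => by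
      rcases ((hg c d hcd).simple hF).eq_bot_or_eq_top_of_normal (N.subgroupOf (Γ.L c d))
        inferInstance with h | h
      · have : (⟨x, hx⟩ : Γ.L c d) ∈ N.subgroupOf (Γ.L c d) := hxN
        rw [h] at this
        exact congrArg Subtype.val (mem_bot.1 this)
      · exact absurd ((Γ.on_left c d).trans (subgroupOf_eq_top.1 h)) (h0 c)
    have hfix : ∀ m ∈ N, ∀ c : Ω, m • c = c := fun m hm c => by
      by_contra h
      obtain ⟨x, hx, hx1⟩ := Γ.exists_ne_one c
      have := h2 _ _ h (m * x * m⁻¹ * x⁻¹)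
        (mul_mem (Γ.on_left _ _ (Γ.conj m c x hx)) (inv_mem (Γ.on_right _ _ hx)))
        (by simpa [mul_assoc] using mul_mem hm (hN.conj_mem _ (inv_mem hm) x))
      exact h (Γ.smul_eq_of_conj hx hx1 (by rw [mul_inv_eq_one.1 this]; exact hx))
    letI := actQ N hfix
    have hLq : ∀ p q, (geoQ Γ N hfix h1 h2).L p q = (Γ.L p q).map (QuotientGroup.mk' N) :=
      fun p q => (Subgroup.map_sup _ _ _).symm
    have hlt : Nat.card (G ⧸ N) < n := by
      rw [← hn, card_eq_card_quotient_mul_card_subgroup N]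
      exact lt_mul_of_one_lt_right Nat.card_pos ((one_lt_card_iff_ne_bot N).2 hb)
    obtain ⟨p, q, hpq, htop⟩ := ih _ hlt (G ⧸ N) Ω (geoQ Γ N hfix h1 h2) rfl ⟨a0, b0, hab0⟩
      fun p q hpq => (hg p q hpq).of_equiv ((MulEquiv.subgroupCongr (hLq p q)).trans
        (MulEquiv.ofBijective ((QuotientGroup.mk' N).subgroupMap (Γ.L p q))
          ⟨(injective_iff_map_eq_one _).2 fun x hx => Subtype.ext (h2 p q hpq x x.2
            ((QuotientGroup.eq_one_iff _).1 (congrArg Subtype.val hx))),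
          MonoidHom.subgroupMap_surjective _ _⟩).symm)
    refine ⟨p, q, hpq, top_of _ _ fun c => ?_⟩
    obtain ⟨g, rfl⟩ := Γ.trans p c
    obtain ⟨l, hl, he⟩ : QuotientGroup.mk' N g ∈ (Γ.L p q).map (QuotientGroup.mk' N) := by
      rw [← hLq, htop]; exact mem_top _
    have : g • p = l • p := by
      conv_rhs => rw [← hfix _ (QuotientGroup.eq.1 he) p, ← mul_smul, mul_inv_cancel_left]
    rw [this]
    exact Γ.on_smul_of_mem hl (Γ.on_left p q)

section Row

variable {G : Type u} [Group G] (P : Subgroup G)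

/-- the conjugates of `P` -/
def Cl : Type u := {Q : Subgroup G // ∃ g : G, P.map (MulAut.conj g).toMonoidHom = Q}

theorem map_conj_mul (Q : Subgroup G) (g h : G) : Q.map (MulAut.conj (g * h)).toMonoidHom =
    (Q.map (MulAut.conj h).toMonoidHom).map (MulAut.conj g).toMonoidHom := by
  rw [Subgroup.map_map]
  congr 1
  ext x
  simp [mul_assoc]

theorem map_conj_one (Q : Subgroup G) : Q.map (MulAut.conj (1 : G)).toMonoidHom = Q := by
  ext x
  simp

instance actCl : MulAction G (Cl P) where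
  smul g Q := ⟨Q.1.map (MulAut.conj g).toMonoidHom, by
    obtain ⟨h, hh⟩ := Q.2
    exact ⟨g * h, by rw [map_conj_mul, hh]⟩⟩
  one_smul Q := Subtype.ext (map_conj_one Q.1)
  mul_smul g h Q := Subtype.ext (map_conj_mul Q.1 g h)

theorem actCl_val (g : G) (Q : Cl P) : (g • Q).1 = Q.1.map (MulAut.conj g).toMonoidHom := rfl

end Row

theorem row (hL : JobL.{u, v}) (hJ : JobJ.{u}) (hI : All.{u} fun Γ => One0 Γ → False)
    (hII : All.{u} fun Γ => Two Γ → ∃ a b, a ≠ b ∧ Γ.L a b = ⊤)
    {G : Type u} [Group G] [Finite G] {F : Type v} [Field F] [Fintype F] (hF : Fintype.card F = 11)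
    (P : Subgroup G) (hP : Nat.card P = 11) (hPn : ¬ P.Normal)
    (hgen : normalClosure (P : Set G) = ⊤)
    (hpair : ∀ g : G, P.map (MulAut.conj g).toMonoidHom ≠ P →
      Good F ↥(P ⊔ P.map (MulAut.conj g).toMonoidHom)) : Good F G := by
  let p0 : Cl P := ⟨P, 1, map_conj_one P⟩
  haveI : Finite (Cl P) := inferInstanceAs (Finite {Q : Subgroup G // _})
  have hex : ∀ a : Cl P, ∃ g : G, g • p0 = a := fun a => a.2.imp fun g hg => Subtype.ext hg
  have hcard : ∀ a : Cl P, Nat.card a.1 = 11 := fun a => by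
    obtain ⟨g, rfl⟩ := hex a
    exact (card_map_of_injective (MulAut.conj g).injective).trans hP
  have hgood : ∀ a b : Cl P, a ≠ b → Good F ↥(a.1 ⊔ b.1) := fun a b hab => by
    obtain ⟨g, rfl⟩ := hex a
    obtain ⟨h, rfl⟩ := hex b
    have hne : (g⁻¹ * h) • p0 ≠ p0 := fun e => hab (by rw [mul_smul, inv_smul_eq_iff] at e; exact e.symm)
    have e : (g • p0).1 ⊔ (h • p0).1 =
        (P ⊔ P.map (MulAut.conj (g⁻¹ * h)).toMonoidHom).map (MulAut.conj g).toMonoidHom := by
      rw [Subgroup.map_sup, ← map_conj_mul, mul_inv_cancel_left]; rfl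
    exact (hpair _ fun e => hne (Subtype.ext e)).of_equiv ((MulEquiv.subgroupCongr e).trans
      (equivMapOfInjective _ _ (MulAut.conj g).injective).symm)
  let Γ : Geo G (Cl P) :=
    { sub := fun a => a.1
      card := hcard
      inj := Subtype.val_injective
      conj := fun g a x hx => ⟨x, hx, rfl⟩
      trans := fun a b => by
        obtain ⟨g, rfl⟩ := hex a
        obtain ⟨h, rfl⟩ := hex b
        exact ⟨h * g⁻¹, by rw [mul_smul, inv_smul_smul]⟩
      semi := fun a c x hx h1 h => by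
        by_contra hne
        haveI : Fact (Nat.Prime 11) := ⟨by norm_num⟩
        have hz : zpowers x = a.1 := by
          apply eq_of_le_of_card_ge (zpowers_le.2 hx)
          have h11 : x ^ 11 = 1 := by
            have := pow_card_eq_one' (x := (⟨x, hx⟩ : a.1))
            rw [hcard] at this
            exact congrArg Subtype.val this
          rw [hcard, Nat.card_zpowers, orderOf_eq_prime h11 h1]
        have hxn : x ∈ normalizer (c.1 : Set G) := by
          refine mem_normalizer_fintype fun y hy => ?_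
          have : x * y * x⁻¹ ∈ (x • c).1 := ⟨y, hy, rfl⟩
          rwa [h] at this
        have hle : c.1 ⊔ a.1 ≤ normalizer (c.1 : Set G) :=
          sup_le le_normalizer (hz ▸ zpowers_le.2 hxn)
        have hnorm := normal_subgroupOf_of_le_normalizer hle
        have hc' : Nat.card (c.1.subgroupOf (c.1 ⊔ a.1)) = 11 :=
          (Nat.card_congr (subgroupOfEquivOfLe le_sup_left).toEquiv).trans (hcard c)
        rcases ((hgood c a hne).simple hF).eq_bot_or_eq_top_of_normal _ hnorm with h | h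
        · rw [h] at hc'; simp at hc'
        · rw [h, card_top] at hc'
          rcases (hgood c a hne).card hF with h | h <;> omega
      gen := by
        rw [eq_top_iff, ← hgen]
        haveI : (⨆ a : Cl P, a.1).Normal := ⟨fun x hx g => by
          have : (⨆ a : Cl P, a.1).map (MulAut.conj g).toMonoidHom ≤ ⨆ a : Cl P, a.1 := by
            rw [Subgroup.map_iSup]
            exact iSup_le fun a => le_iSup (fun a : Cl P => a.1) (g • a)
          exact this ⟨x, hx, rfl⟩⟩
        exact normalClosure_le_normal (le_iSup (fun a : Cl P => a.1) p0) }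
  have hnt : ∃ a b : Cl P, a ≠ b := by
    by_contra h
    push Not at h
    refine hPn ⟨fun x hx g => ?_⟩
    have : g * x * g⁻¹ ∈ (g • p0).1 := ⟨x, hx, rfl⟩
    rwa [h (g • p0) p0] at this
  obtain ⟨a, b, hab, ht⟩ := core hL hJ hI hII hF _ G (Cl P) Γ rfl hnt hgood
  exact (hgood a b hab).of_equiv (topEquiv.symm.trans (MulEquiv.subgroupCongr ht.symm))

end H74.O11
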