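import Cfsg.Agent.H74.O11Base
import Cfsg.Prelude.Def_Spor_J1

/-! O11 tower (row S3403): statements of the slots. Proof sketches: blueprints/O11.md. -/

set_option autoImplicit false

namespace H74.O11

open Subgroup MulAction

universe u v

section Defs

variable {G Ω : Type u} [Group G] [MulAction G Ω]

/-- weight of multiplicative order 10 -/
def Ord10 (k : ZMod 11) : Prop := k ^ 2 ≠ 1 ∧ k ^ 5 ≠ 1
/-- weight of multiplicative order 5 -/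
def Ord5 (k : ZMod 11) : Prop := k ≠ 1 ∧ k ^ 5 = 1
/-- the involutions of a subgroup -/
def invs (X : Subgroup G) : Set G := {t | t ∈ X ∧ t * t = 1 ∧ t ≠ 1}
/-- `g` normalises `J` (finite groups) -/
def Nm (g : G) (J : Subgroup G) : Prop := ∀ x ∈ J, g * x * g⁻¹ ∈ J

/-- facts on a pair generating PSL(2,11) -/
structure LPair (Γ : Geo G Ω) (a b : Ω) : Prop where
  ne : a ≠ b
  card : Nat.card (Γ.L a b) = 660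
  wt : ∀ g : G, g • a = a → g • b = b → Γ.w g a * Γ.w g b = 1
  line : {c | Γ.On a b c}.ncard = 12
  reg : ∀ c d e, Γ.On a b c → Γ.On a b d → Γ.On a b e → d ≠ c → e ≠ c → ∃ x ∈ Γ.sub c, x • d = e
  exy : ∃ y ∈ Γ.L a b, y • a = a ∧ y • b = b ∧ Γ.w y a = 3 ∧ y ^ 5 = 1
  exs : ∃ s ∈ Γ.L a b, s * s = 1 ∧ s • a = b
  wt5 : ∀ g ∈ Γ.L a b, ∀ c, Γ.On a b c → g • c = c → Γ.w g c ^ 5 = 1
  wt1 : ∀ g ∈ Γ.L a b, ∀ c, Γ.On a b c → g • c = c → Γ.w g c = 1 → g ∈ Γ.sub c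
  no4 : ∀ g ∈ Γ.L a b, g ^ 4 = 1 → g ^ 2 = 1
  four : ∀ s ∈ Γ.L a b, s * s = 1 → s ≠ 1 →
    ∃ t ∈ Γ.L a b, t * t = 1 ∧ t ≠ 1 ∧ t ≠ s ∧ t * s = s * t

/-- facts on a subgroup isomorphic to J1 that contains a member ("block") -/
structure JBlk (Γ : Geo G Ω) (J : Subgroup G) : Prop where
  card : Nat.card J = 175560
  aut : ∀ g : G, Nm g J → ∃ j ∈ J, j⁻¹ * g ∈ centralizer (J : Set G)
  no4 : ∀ j ∈ J, j ^ 4 = 1 → j ^ 2 = 1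
  wt1 : ∀ j ∈ J, ∀ c, Γ.sub c ≤ J → j • c = c → Γ.w j c = 1 → j ∈ Γ.sub c
  ex : ∃ c, Γ.sub c ≤ J
  ex10 : ∀ c, Γ.sub c ≤ J → ∃ j ∈ J, j • c = c ∧ Γ.w j c = 2
  fix10 : ∀ j ∈ J, ∀ c, Γ.sub c ≤ J → j • c = c → Ord10 (Γ.w j c) →
    ∃ d, d ≠ c ∧ Γ.sub d ≤ J ∧ j • d = d ∧ Γ.w j d * Γ.w j c = 1 ∧
      ∀ e, Γ.sub e ≤ J → j • e = e → e = c ∨ e = d
  fix5 : ∀ j ∈ J, ∀ c, Γ.sub c ≤ J → j • c = c → Ord5 (Γ.w j c) →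
    (∀ e, Γ.sub e ≤ J → j • e = e → Γ.w j e = Γ.w j c ∨ Γ.w j e * Γ.w j c = 1) ∧
    {e | Γ.sub e ≤ J ∧ j • e = e ∧ Γ.w j e = Γ.w j c}.ncard = 3 ∧
    {e | Γ.sub e ≤ J ∧ j • e = e ∧ Γ.w j e * Γ.w j c = 1}.ncard = 3 ∧
    ∃ t ∈ J, t * t = 1 ∧ t * j = j * t ∧ t • c = c ∧ Γ.w t c = -1
  fix2 : ∀ t ∈ J, t * t = 1 → t ≠ 1 → ∃ c, Γ.sub c ≤ J ∧ t • c = c ∧ Γ.w t c = -1
  notL : ∀ j ∈ J, ∀ c d, Γ.sub c ≤ J → Γ.sub d ≤ J → j • c = c → j • d = d → Ord10 (Γ.w j c) →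
    ¬ LPair Γ c d

/-! ### Case II: some pair generates J1 -/

structure Two (Γ : Geo G Ω) : Prop where
  simple : IsSimpleGroup G
  pair : ∀ a b, a ≠ b → LPair Γ a b ∨ JBlk Γ (Γ.L a b)
  exJ : ∃ a b, a ≠ b ∧ JBlk Γ (Γ.L a b)
  fixC : ∀ J, JBlk Γ J → ∀ z ∈ centralizer (J : Set G), z ≠ 1 → ∀ c, z ∈ Γ.A c → Γ.sub c ≤ J

structure TwoW (Γ : Geo G Ω) : Prop where
  w1 : ∀ (g : G) (c d : Ω), g • c = c → g • d = d → Γ.w g c = 1 → Γ.w g d = 1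
  w10 : ∀ (g : G) (c d : Ω), c ≠ d → g • c = c → g • d = d → Ord10 (Γ.w g c) →
    Γ.w g d * Γ.w g c = 1
  w5 : ∀ (g : G) (c d : Ω), c ≠ d → g • c = c → g • d = d → Ord5 (Γ.w g c) →
    Γ.w g d * Γ.w g c = 1 ∨ (Γ.w g d = Γ.w g c ∧ JBlk Γ (Γ.L c d))
  two10 : ∀ (g : G) (c d e : Ω), d ≠ c → e ≠ c → g • c = c → g • d = d → g • e = e →
    Ord10 (Γ.w g c) → d = e
  gen10 : ∀ J, JBlk Γ J → ∀ (g : G) (c d : Ω), c ≠ d → Nm g J → Γ.sub c ≤ J → Γ.sub d ≤ J →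
    g • c = c → g • d = d → Ord10 (Γ.w g c) → Γ.L c d = J
  conjB : ∀ (g : G) (J : Subgroup G), JBlk Γ J → JBlk Γ (J.map (MulAut.conj g).toMonoidHom)
  m1 : ∀ (h : G) (a : Ω) (J J' : Subgroup G), h • a = a → Ord5 (Γ.w h a) → JBlk Γ J → JBlk Γ J' →
    Γ.sub a ≤ J → Γ.sub a ≤ J' → Nm h J → Nm h J' → J = J'

/-- any two members lie in exactly one block -/
def Uniq (Γ : Geo G Ω) : Prop :=
  ∀ a b, a ≠ b → ∃ J, JBlk Γ J ∧ Γ.sub a ≤ J ∧ Γ.sub b ≤ J ∧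
    ∀ J', JBlk Γ J' → Γ.sub a ≤ J' → Γ.sub b ≤ J' → J' = J

/-! ### Case I: all pairs generate PSL(2,11), and there is more than one line -/

structure One0 (Γ : Geo G Ω) : Prop where
  simple : IsSimpleGroup G
  lp : ∀ a b, a ≠ b → LPair Γ a b
  big : ∃ a b c, a ≠ b ∧ ¬ Γ.On a b c
  fixC : ∀ a b, a ≠ b → ∀ z ∈ Γ.Z a b, z ≠ 1 → ∀ c, z ∈ Γ.A c → Γ.On a b c

structure One1 (Γ : Geo G Ω) : Prop extends One0 Γ where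
  faith : ∀ g : G, (∀ c : Ω, g • c = c) → g = 1
  big' : ∀ a b, a ≠ b → ∃ c, ¬ Γ.On a b c
  line_eq : ∀ a b c d, a ≠ b → Γ.On a b c → Γ.On a b d → c ≠ d → Γ.L c d = Γ.L a b
  memZ : ∀ (a b : Ω) (g : G), a ≠ b → g • a = a → g • b = b → Γ.w g a = 1 → g ∈ Γ.Z a b
  fixZ : ∀ (a b : Ω) (z : G) (c : Ω), a ≠ b → z ∈ Γ.Z a b → z ≠ 1 → (z • c = c ↔ Γ.On a b c)
  fix2 : ∀ (a b : Ω) (g : G) (c : Ω), a ≠ b → g • a = a → g • b = b → Γ.w g a ^ 2 ≠ 1 →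
    g • c = c → c = a ∨ c = b
  transA : ∀ a b c, b ≠ a → c ≠ a → ∃ g ∈ Γ.A a, g • b = c
  two : IsMultiplyPretransitive G Ω 2
  two' : ∀ a b c d : Ω, a ≠ b → c ≠ d → ∃ g : G, g • a = c ∧ g • b = d
  lfix : ∀ (a b : Ω) (g : G), a ≠ b → g • a = a → Γ.On a b (g • b) → Γ.w g a ≠ 1 →
    ∃ c, Γ.On a b c ∧ c ≠ a ∧ g • c = c ∧ ∀ d, Γ.On a b d → d ≠ a → g • d = d → d = c
  lfix1 : ∀ (a b : Ω) (g : G), a ≠ b → g • a = a → Γ.On a b (g • b) → Γ.w g a = 1 →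
    ∃ x ∈ Γ.sub a, ∃ z ∈ Γ.Z a b, g = x * z

/-- the element `y` of order 5 and a swapping involution `s` of `L a b` -/
structure Frame (Γ : Geo G Ω) (a b : Ω) (y s : G) : Prop where
  ne : a ≠ b
  yL : y ∈ Γ.L a b
  ya : y • a = a
  yb : y • b = b
  wy : Γ.w y a = 3
  oy : orderOf y = 5
  sL : s ∈ Γ.L a b
  ss : s * s = 1
  sa : s • a = b
  sb : s • b = a
  sy : s * y * s⁻¹ = y⁻¹
  cen : ∀ h ∈ Γ.H a b, h * y = y * h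
  dec : ∀ g ∈ Γ.H a b, Γ.w g a ^ 5 = 1 → ∃ z ∈ Γ.Z a b, ∃ i : ℕ, g = z * y ^ i
  decL : ∀ g ∈ Γ.H a b, g ∈ Γ.L a b → ∃ i : ℕ, g = y ^ i

structure One (Γ : Geo G Ω) : Prop extends One1 Γ where
  frame : ∀ a b, a ≠ b → ∃ y s, Frame Γ a b y s
  odd : ∀ (a b : Ω) (g : G), a ≠ b → Γ.On a b (g • a) → Γ.On a b (g • b) → g * g ∈ Γ.Z a b →
    (∃ l ∈ Γ.L a b, ∃ z ∈ Γ.Z a b, g = l * z) ∨ ∃ c, Γ.On a b c ∧ g • c = c ∧ Γ.w g c = -1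
  facM : ∀ (a b : Ω) (g : G), a ≠ b → Γ.On a b (g • a) → Γ.On a b (g • b) →
    ∃ l ∈ Γ.L a b, ∃ h ∈ Γ.H a b, g = l * h
  cardG : ∀ a b, a ≠ b → Nat.card G = Nat.card Ω * (Nat.card Ω - 1) * Nat.card (Γ.H a b)
  cardA : ∀ a b, a ≠ b → Nat.card (Γ.A a) = (Nat.card Ω - 1) * Nat.card (Γ.Z a b)
  cardH : ∀ a b, a ≠ b →
    ((∀ g ∈ Γ.H a b, Γ.w g a ^ 5 = 1) ∧ Nat.card (Γ.H a b) = 5 * Nat.card (Γ.Z a b)) ∨
    ((∃ o ∈ Γ.H a b, Γ.w o a = -1) ∧ Nat.card (Γ.H a b) = 10 * Nat.card (Γ.Z a b))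
  cardM : ∀ a b, a ≠ b →
    Nat.card (normalizer (Γ.L a b : Set G)) = 132 * Nat.card (Γ.H a b)
  cardZ : ∀ a b c d, a ≠ b → c ≠ d → Nat.card (Γ.Z a b) = Nat.card (Γ.Z c d)
  dvd11 : 11 ∣ Nat.card Ω - 1
  dvdH0 : ∀ a b, a ≠ b → 5 * Nat.card (Γ.Z a b) ∣ Nat.card Ω - 12
  big12 : 12 < Nat.card Ω

/-- no non-identity element of `Z a b` fixes a second line through `a` -/
def NonB (Γ : Geo G Ω) : Prop :=
  ∀ a b, a ≠ b → ∀ z ∈ Γ.Z a b, z ≠ 1 → ∀ d, d ≠ a → Γ.On a d (z • d) → Γ.On a b d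

/-- the Frobenius kernel: normal in the stabiliser of `a`, regular on the other points -/
structure Ker (Γ : Geo G Ω) (a b : Ω) (K : Subgroup G) : Prop where
  ne : a ≠ b
  le : K ≤ Γ.A a
  subP : Γ.sub a ≤ K
  norm : ∀ g : G, g • a = a → Nm g K
  trans : ∀ c d, c ≠ a → d ≠ a → ∃ k ∈ K, k • c = d
  semi : ∀ k ∈ K, ∀ c, c ≠ a → k • c = c → k = 1
  card : Nat.card K = Nat.card Ω - 1
  fpf : ∀ h ∈ Γ.H a b, h ≠ 1 → Γ.w h a ^ 5 = 1 → ∀ k ∈ K, k⁻¹ * (h * k * h⁻¹) ∈ Γ.sub a →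
    k ∈ Γ.sub a
  cyc : ∀ X : Subgroup G, X ≤ Γ.H a b → (∀ g ∈ X, Γ.w g a ^ 5 = 1) →
    (IsMulCommutative X ∨ ∃ p q : ℕ, p.Prime ∧ q.Prime ∧ Nat.card X = p * q) → IsCyclic X

/-- the exceptional configuration: an element of order 11 of `Z a b` fixing a second line -/
structure BData (Γ : Geo G Ω) (a b : Ω) (c x u : G) : Prop where
  ne : a ≠ b
  cZ : c ∈ Γ.Z a b
  oc : orderOf c = 11
  xs : x ∈ Γ.sub a
  x1 : x ≠ 1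
  uA : u ∈ Γ.A a
  uc : u * c * u⁻¹ = c * x
  cent : ∀ g ∈ Γ.A a, g * c = c * g → ∃ x' ∈ Γ.sub a, ∃ i : ℕ, g = x' * c ^ i
  d121 : 121 ∣ Nat.card Ω - 1
  syl : ¬ 121 ∣ Nat.card (Γ.Z a b)
  ord : ∀ z ∈ Γ.Z a b, z ≠ 1 → ∀ d, d ≠ a → Γ.On a d (z • d) → ¬ Γ.On a b d → orderOf z = 11

/-- count of the involutions that centralise a member -/
def E1 (Γ : Geo G Ω) : Prop :=
  ∀ a b, a ≠ b → ∃ k : ℕ, (invs (Γ.Z a b)).ncard * (Nat.card Ω - 12) = 132 * k ∧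
    k ≤ 5 * ((invs (Γ.Z a b)).ncard + 1) ∧
    (k = 5 * ((invs (Γ.Z a b)).ncard + 1) → ∀ t ∈ Γ.L a b, t * t = 1 → t • a = b →
      ∀ z ∈ Γ.Z a b, z * z = 1 → ∃ c, t * z ∈ Γ.A c)

/-- count of the involutions with fixed points when `Z` has odd order -/
def O0 (Γ : Geo G Ω) : Prop :=
  ∀ a b, a ≠ b → Odd (Nat.card (Γ.Z a b)) → ∀ o ∈ invs (Γ.H a b),
    Γ.w o a = -1 ∧ Even {c : Ω | o • c = c}.ncard ∧
    (∀ o' ∈ invs (Γ.H a b), ∃ z ∈ Γ.Z a b, o' = z * o * z⁻¹) ∧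
    (∀ d, d ≠ a → o • d = d → ∃ g ∈ Γ.A a, g * o = o * g ∧ g • b = d) ∧
    ∃ k : ℕ, (k = 5 * (invs (Γ.H a b)).ncard ∨ k = 5 * (invs (Γ.H a b)).ncard + 5) ∧
      (invs (Γ.H a b)).ncard * (Nat.card Ω - {c : Ω | o • c = c}.ncard) =
        k * ({c : Ω | o • c = c}.ncard * ({c : Ω | o • c = c}.ncard - 1))

end Defs

/-! ### General slots -/

/-- coset count -/
def JobCC : Prop :=
  ∀ (G X : Type u) [Group G] [Finite G] [MulAction G X] (A : Subgroup G) (g : G) (S : Set X),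
    (∀ α ∈ A, g⁻¹ * α * g ∈ A) → (∀ α ∈ A, ∀ x ∈ S, α • x ∈ S) →
    (∀ α ∈ A, ∀ x ∈ S, ∀ y ∈ S, (g * α) • x = x → (g * α) • y = y → x = y) →
    ∀ x ∈ S, (∃ α ∈ A, (g * α) • x = x) → ∀ α ∈ A, ∃ β ∈ A, (g * α) • (β • x) = β • x

/-- double counts in a 2-transitive group -/
def JobCnt : Prop :=
  ∀ (G Ω : Type u) [Group G] [Finite G] [MulAction G Ω] [Finite Ω],
    (∀ a b c d : Ω, a ≠ b → c ≠ d → ∃ g : G, g • a = c ∧ g • b = d) →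
    ∀ (C : Set G), (∀ g t : G, t ∈ C → g * t * g⁻¹ ∈ C) → ∀ φ : ℕ,
    (∀ t ∈ C, {c : Ω | t • c = c}.ncard = φ) → ∀ a b : Ω, a ≠ b →
    C.ncard * (φ * (φ - 1)) =
        Nat.card Ω * (Nat.card Ω - 1) * {t | t ∈ C ∧ t • a = a ∧ t • b = b}.ncard ∧
      C.ncard * (Nat.card Ω - φ) = Nat.card Ω * (Nat.card Ω - 1) * {t | t ∈ C ∧ t • a = b}.ncard

def JobAb : Prop :=
  ∀ (G : Type u) [Group G] [Finite G], IsSimpleGroup G → ∀ S : Sylow 2 G,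
    IsMulCommutative (S : Subgroup G) → 8 ∣ Nat.card G → (∃ g : G, orderOf g = 10) →
    Nat.card G = 175560

def JobL : Prop :=
  ∀ (G Ω : Type u) [Group G] [Finite G] [MulAction G Ω] [Finite Ω] (Γ : Geo G Ω)
    (F : Type v) [Field F] [Fintype F], Fintype.card F = 11 → ∀ a b : Ω, a ≠ b →
    Nonempty (Γ.L a b ≃* Matrix.ProjectiveSpecialLinearGroup (Fin 2) F) → LPair Γ a b

def JobJ : Prop :=
  ∀ (G Ω : Type u) [Group G] [Finite G] [MulAction G Ω] [Finite Ω] (Γ : Geo G Ω)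
    (J : Subgroup G), Cfsg.Spor.IsoJ1 J → (∃ c, Γ.sub c ≤ J) → JBlk Γ J

/-- a statement about every geometry -/
def All (p : ∀ {G Ω : Type u} [Group G] [MulAction G Ω], Geo G Ω → Prop) : Prop :=
  ∀ (G Ω : Type u) [Group G] [Finite G] [MulAction G Ω] [Finite Ω] (Γ : Geo G Ω), p Γ

/-! ### Case II slots -/

def JobIIa : Prop := All.{u} fun Γ => Two Γ → TwoW Γ
def JobIIb : Prop := JobCC.{u} → All.{u} fun Γ => Two Γ → TwoW Γ → Uniq Γ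
def JobIIc : Prop := JobAb.{u} → All.{u} fun Γ => Two Γ → TwoW Γ → Uniq Γ →
  ∃ a b, a ≠ b ∧ Γ.L a b = ⊤

/-! ### Case I slots -/

def JobIa : Prop := JobCC.{u} → All.{u} fun Γ => One0 Γ → One1 Γ
def JobIb : Prop := All.{u} fun Γ => One1 Γ → One Γ
def JobEV : Prop := All.{u} fun {_ Ω} _ _ Γ => One Γ → Even (Nat.card Ω)
def JobS : Prop := JobAb.{u} → All.{u} fun Γ => One Γ → ∀ a b, a ≠ b → IsCyclic (Γ.H a b) →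
  8 ∣ Nat.card (Γ.H a b)
def JobK : Prop := All.{u} fun Γ => One Γ → NonB Γ → ∀ a b, a ≠ b → ∃ K, Ker Γ a b K
def JobE1 : Prop := JobCnt.{u} → All.{u} fun {_ Ω} _ _ Γ => One Γ → Even (Nat.card Ω) → E1 Γ
def JobE2 : Prop := JobCnt.{u} → All.{u} fun {_ Ω} _ _ Γ => One Γ → E1 Γ → ∀ a b K, Ker Γ a b K →
  Even (Nat.card (Γ.Z a b)) →
  (IsCyclic (Γ.H a b) ∧ ¬ 8 ∣ Nat.card (Γ.H a b)) ∨
    (Nat.card Ω = 1332 ∧ (invs (Γ.Z a b)).ncard = 1)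
def JobE3 : Prop := JobAb.{u} → All.{u} fun {_ Ω} _ _ Γ => One Γ → E1 Γ → Nat.card Ω = 1332 →
  (∀ a b, a ≠ b → (invs (Γ.Z a b)).ncard = 1) → False
def JobO0 : Prop := JobCnt.{u} → All.{u} fun {_ Ω} _ _ Γ => One Γ → Even (Nat.card Ω) → O0 Γ
def JobO1 : Prop := All.{u} fun Γ => One Γ → ∀ a b K, Ker Γ a b K → Odd (Nat.card (Γ.Z a b)) →
  (∀ o ∈ invs (Γ.H a b), ∀ z ∈ Γ.Z a b, o * z = z * o) → IsCyclic (Γ.H a b)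
def JobO2 : Prop := All.{u} fun Γ => One Γ → O0 Γ → ∀ a b K, Ker Γ a b K →
  Odd (Nat.card (Γ.Z a b)) → ∀ o ∈ invs (Γ.H a b), ∀ z ∈ Γ.Z a b, o * z = z * o
def JobB0 : Prop := All.{u} fun Γ => One Γ → ¬ NonB Γ → ∃ a b c x u, BData Γ a b c x u
def JobBE : Prop := All.{u} fun {_ Ω} _ _ Γ => One Γ → Even (Nat.card Ω) → E1 Γ →
  ∀ a b c x u, BData Γ a b c x u → Odd (Nat.card (Γ.Z a b))
def JobB1 : Prop := All.{u} fun {_ Ω} _ _ Γ => One Γ → Even (Nat.card Ω) →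
  ∀ a b c x u, BData Γ a b c x u → Odd (Nat.card (Γ.Z a b)) → Γ.Z a b = zpowers c
def JobB2 : Prop := All.{u} fun Γ => One Γ → O0 Γ →
  ∀ a b c x u, BData Γ a b c x u → Γ.Z a b = zpowers c → IsCyclic (Γ.H a b)

/-- Case I from its slots -/
theorem one_false (hCC : JobCC.{u}) (hCnt : JobCnt.{u}) (hAb : JobAb.{u}) (hIa : JobIa.{u})
    (hIb : JobIb.{u}) (hEV : JobEV.{u}) (hS : JobS.{u}) (hK : JobK.{u}) (hE1 : JobE1.{u})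
    (hE2 : JobE2.{u}) (hE3 : JobE3.{u}) (hO0 : JobO0.{u}) (hO1 : JobO1.{u}) (hO2 : JobO2.{u})
    (hB0 : JobB0.{u}) (hBE : JobBE.{u}) (hB1 : JobB1.{u}) (hB2 : JobB2.{u}) :
    All.{u} fun Γ => One0 Γ → False := by
  intro G Ω _ _ _ _ Γ h0
  have h := hIb G Ω Γ (hIa hCC G Ω Γ h0)
  have hev := hEV G Ω Γ h
  have e1 := hE1 hCnt G Ω Γ h hev
  have o0 := hO0 hCnt G Ω Γ h hev
  have fin : ∀ a b, a ≠ b → Odd (Nat.card (Γ.Z a b)) → IsCyclic (Γ.H a b) → False := by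
    intro a b hab hodd hc
    have h8 := hS hAb G Ω Γ h a b hab hc
    obtain ⟨m, hm⟩ := hodd
    rcases h.cardH a b hab with ⟨-, e⟩ | ⟨-, e⟩ <;> omega
  by_cases hB : NonB Γ
  · obtain ⟨a, b, -, hab, -⟩ := h0.big
    rcases Nat.even_or_odd (Nat.card (Γ.Z a b)) with hZ | hZ
    · have key : ∀ c d, c ≠ d → Nat.card Ω = 1332 ∧ (invs (Γ.Z c d)).ncard = 1 := by
        intro c d hcd
        obtain ⟨K, hK'⟩ := hK G Ω Γ h hB c d hcd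
        rcases hE2 hCnt G Ω Γ h e1 c d K hK' (h.cardZ a b c d hab hcd ▸ hZ) with ⟨hc, h8⟩ | h'
        · exact absurd (hS hAb G Ω Γ h c d hcd hc) h8
        · exact h'
      exact hE3 hAb G Ω Γ h e1 (key a b hab).1 fun c d hcd => (key c d hcd).2
    · obtain ⟨K, hK'⟩ := hK G Ω Γ h hB a b hab
      exact fin a b hab hZ (hO1 G Ω Γ h a b K hK' hZ (hO2 G Ω Γ h o0 a b K hK' hZ))
  · obtain ⟨a, b, c, x, u, hd⟩ := hB0 G Ω Γ h hB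
    have hZ := hBE G Ω Γ h hev e1 a b c x u hd
    exact fin a b hd.ne hZ (hB2 G Ω Γ h o0 a b c x u hd (hB1 G Ω Γ h hev a b c x u hd hZ))

end H74.O11
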