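import Cfsg.Agent.H52.RCSpec

/-!
# Tower RC, job DD: the elements of `Q` commuting with `a` and `b` are central in `L`
-/

set_option autoImplicit false

namespace H74.RcDD

open Subgroup H52.RC

universe u

theorem conj_eq_of_commute {G : Type u} [Group G] {g x : G} (h : Commute g x) :
    g * x * g⁻¹ = x := by
  rw [h.eq]; group

/-- the element `r` moved by `d'` through `z = a ^ 2` -/
theorem exists_r {G : Type u} [Group G] {L : Subgroup G} [L.Normal] {Q : Subgroup G} {a b d c : G}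
    (dc : DC L Q a b) (a4 : a ^ 4 = 1) (b2 : b ^ 2 = 1 ∨ b ^ 2 = a ^ 2)
    (p4 : ∀ d ∈ L, Commute d a → Commute d b → d ^ 2 = 1 → d ∈ Zc L)
    (p5 : ∀ c ∈ Q, Commute c a → ¬ Commute c b → c ^ 2 ∈ Zc L →
      b * c * b⁻¹ = c * a ^ 2 ∧ Commute (a⁻¹ * c) b)
    (dQ : d ∈ Q) (da : Commute d a) (db : Commute d b) (cQ : c ∈ Q) (ca : Commute c a)
    (rc : RG L c) (dci : Inv d c) :
    ∃ r, RG L r ∧ r ^ 2 = a ^ 2 ∧ d * c * r * (d * c)⁻¹ = r * a ^ 2 := by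
  have QL : Q ≤ L := dc.syl.1
  have aL := dc.ha.1
  have bL := dc.hb.1
  have cL := rc.1
  have dL := QL dQ
  have zZ : a ^ 2 ∈ Zc L := dc.ha.2.2.1
  have ba : b * a * b⁻¹ = a⁻¹ := dc.ba
  have hai : a⁻¹ * a⁻¹ = a ^ 2 := by
    calc a⁻¹ * a⁻¹ = a ^ 4 * (a⁻¹ * a⁻¹) := by rw [a4, one_mul]
      _ = a ^ 2 := by group
  generalize hz : a ^ 2 = z at *
  have zc : ∀ g ∈ L, Commute g z := (mem_Zc.1 zZ).2
  have z1 : z ≠ 1 := hz ▸ dc.a2
  have zz : z * z = 1 := by rw [← hz, ← pow_add]; exact a4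
  have cb : ¬ Commute c b := fun h => dc.ng c rc ca h
  obtain ⟨bc, eb⟩ := p5 c cQ ca cb rc.2.2.1
  have cbc : c * b * c⁻¹ = b * z := by
    calc c * b * c⁻¹ = c * (z * z) * b * c⁻¹ := by rw [zz, mul_one]
      _ = (c * z) * z * b * c⁻¹ := by rw [← mul_assoc c]
      _ = z * (c * z) * b * c⁻¹ := by rw [(zc _ (mul_mem cL zZ.1)).eq]
      _ = z * b := by rw [← bc]; group
      _ = b * z := (zc b bL).eq.symm
  rcases b2 with b2 | b2
  · set e := a⁻¹ * c with he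
    have eL : e ∈ L := mul_mem (inv_mem aL) cL
    have ea : Commute e a := ((Commute.refl a).inv_left).mul_left ca
    have ec : Commute c e := ca.inv_right.mul_right (Commute.refl c)
    have e2 : e ^ 2 = z * c ^ 2 := by
      rw [he, (ca.symm.inv_left).mul_pow, pow_two a⁻¹, hai]
    have dcc : Commute d c := by
      by_contra ndc
      have m1 : d * c * d⁻¹ ≠ c := fun h => ndc (by
        rw [Commute, SemiconjBy]
        calc d * c = d * c * d⁻¹ * d := by group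
          _ = c * d := by rw [h])
      have m2 : b * c * b⁻¹ ≠ c := by
        rw [bc]
        exact fun h => z1 (mul_eq_left.1 h)
      have t1 : d ∈ Ct L c := by
        rw [mem_Ct, show d * c * d⁻¹ = c⁻¹ from dci, ← pow_two, inv_pow]
        exact inv_mem rc.2.2.1
      have t2 : b ∈ Ct L c := by
        rw [mem_Ct, bc, conj_eq_of_commute (zc c cL)]
        exact zZ
      have := dc.two c rc d t1 b t2 m1 m2
      rw [show d * c * d⁻¹ = c⁻¹ from dci, bc] at this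
      have e1 : e ^ 2 = 1 := by
        rw [e2, ← (zc _ (pow_mem cL 2)).eq, pow_two, mul_assoc, ← this, mul_inv_cancel]
      have eZ := p4 e eL ea eb e1
      have : c = a * e := by rw [he]; group
      apply ndc
      rw [this]
      exact da.mul_right ((mem_Zc.1 eZ).2 d dL)
    have c2 : c ^ 2 = 1 := by
      have : c = c⁻¹ := by rw [← show d * c * d⁻¹ = c⁻¹ from dci, conj_eq_of_commute dcc]
      rw [pow_two]
      nth_rewrite 1 [this]
      exact inv_mul_cancel c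
    rw [c2, mul_one] at e2
    have de : Commute d e := da.inv_right.mul_right dcc
    have r2 : (b * e) ^ 2 = z := by rw [eb.symm.mul_pow, b2, one_mul, e2]
    have aba : a * b * a⁻¹ = b * z := by
      calc a * b * a⁻¹ = (b * a * b⁻¹)⁻¹ * b * a⁻¹ := by rw [ba, inv_inv]
        _ = b * (a⁻¹ * a⁻¹) := by group
        _ = b * z := by rw [hai]
    have ar : a * (b * e) * a⁻¹ = b * e * z := by
      calc a * (b * e) * a⁻¹ = (a * b * a⁻¹) * (a * e * a⁻¹) := by group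
        _ = b * (z * e) := by rw [aba, conj_eq_of_commute ea.symm, mul_assoc]
        _ = b * e * z := by rw [← (zc e eL).eq, mul_assoc b e z]
    have rL : b * e ∈ L := mul_mem bL eL
    refine ⟨b * e, ⟨rL, fun h => ?_, r2 ▸ zZ, a, aL, ?_⟩, r2, ?_⟩
    · rw [conj_eq_of_commute ((mem_Zc.1 h).2 a aL)] at ar
      exact z1 (mul_eq_left.1 ar.symm)
    · unfold H52.RC.Inv
      rw [ar, eq_inv_iff_mul_eq_one, mul_assoc, ← (zc _ rL).eq, ← mul_assoc, ← pow_two, r2, zz]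
    · calc d * c * (b * e) * (d * c)⁻¹ = d * ((c * b * c⁻¹) * (c * e * c⁻¹)) * d⁻¹ := by group
        _ = d * (b * z * e) * d⁻¹ := by rw [cbc, conj_eq_of_commute ec]
        _ = b * z * e := conj_eq_of_commute ((db.mul_right (zc d dL)).mul_right de)
        _ = b * e * z := by rw [mul_assoc b z e, ← (zc e eL).eq, mul_assoc b e z]
  · refine ⟨b, dc.hb, b2, ?_⟩
    calc d * c * b * (d * c)⁻¹ = d * (c * b * c⁻¹) * d⁻¹ := by group
      _ = b * z := by rw [cbc, conj_eq_of_commute (db.mul_right (zc d dL))]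

theorem jobDD : JobDD.{u} := by
  intro ka zs _ dp da dsw G _ _ L _ Q a b dc d0 d0Q d0a d0b
  obtain ⟨-, -, -, ka4, ka5, -⟩ := ka G
  obtain ⟨a4, p2, b2, p4, p5, p6⟩ := dp G L Q a b dc
  have QL : Q ≤ L := dc.syl.1
  have QP : ∀ g ∈ Q, P2 g := (ka5 Q).1 dc.syl.2.1
  have zZ : a ^ 2 ∈ Zc L := dc.ha.2.2.1
  have zc : ∀ g ∈ L, Commute g (a ^ 2) := (mem_Zc.1 zZ).2
  -- (i)
  have noinv : ∀ e ∈ Q, Commute e a → Commute e b → ∀ g ∈ L, Inv g e → e ∈ Zc L := by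
    intro e eQ ea eb g gL ge
    by_contra eZ
    obtain ⟨k, k1, k2⟩ := ka4 (Zc L) e (QP e eQ) eZ
    exact dc.ng _ ⟨pow_mem (QL eQ) _, k1, k2, g, gL, ge.pow _⟩ (ea.pow_left _) (eb.pow_left _)
  by_contra d0Z
  obtain ⟨k, dZ, d2⟩ := ka4 (Zc L) d0 (QP d0 d0Q) d0Z
  have dQ : d0 ^ 2 ^ k ∈ Q := pow_mem d0Q _
  have hda : Commute (d0 ^ 2 ^ k) a := d0a.pow_left _
  have hdb : Commute (d0 ^ 2 ^ k) b := d0b.pow_left _
  generalize d0 ^ 2 ^ k = d at *
  have dL := QL dQ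
  have sq : ∀ g ∈ L, Inv d (d⁻¹ * (g * d * g⁻¹)) := fun g gL =>
    inv_of_sq (by rw [conj_pow, conj_eq_of_commute ((mem_Zc.1 d2).2 g gL)])
  have Qct : Q ≤ Ct L d := by
    intro q qQ
    obtain ⟨h1, h2⟩ := p6 d dQ hda hdb q qQ
    have := noinv _ (mul_mem (inv_mem dQ) (mul_mem (mul_mem qQ dQ) (inv_mem qQ)))
      (hda.inv_left.mul_left h1) (hdb.inv_left.mul_left h2) d dL (sq q (QL qQ))
    have h3 := (zcNormal L).conj_mem _ this d
    rw [mem_Ct]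
    convert h3 using 1
    group
  obtain ⟨h, hL, hQ, cZ⟩ := (zs G L Q dc.qs dc.syl).2.2.2 d dQ dZ d2
  have ci := sq h hL
  have dc' : d * (d⁻¹ * (h * d * h⁻¹)) = h * d * h⁻¹ := by group
  have cQ : d⁻¹ * (h * d * h⁻¹) ∈ Q := mul_mem (inv_mem dQ) hQ
  have key : ∃ r, RG L r ∧ r ^ 2 = a ^ 2 ∧ h * d * h⁻¹ * r * (h * d * h⁻¹)⁻¹ = r * a ^ 2 := by
    rcases p2 _ hQ with h1 | ⟨h1, -⟩
    · have ca : Commute (d⁻¹ * (h * d * h⁻¹)) a := hda.inv_left.mul_left h1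
      rw [← dc']
      generalize d⁻¹ * (h * d * h⁻¹) = c at *
      have c2 : c ^ 2 ∈ Zc L := by
        have h3 := mem_Ct.1 (Qct cQ)
        have h4 : d * c * d⁻¹ = c⁻¹ := ci
        have : c * d * c⁻¹ * d⁻¹ = c ^ 2 := by
          calc c * d * c⁻¹ * d⁻¹ = c * (d * c * d⁻¹)⁻¹ := by group
            _ = c ^ 2 := by rw [h4, inv_inv, pow_two]
        rwa [this] at h3
      exact exists_r dc a4 b2 p4 p5 dQ hda hdb cQ ca ⟨QL cQ, cZ, c2, d, dL, ci⟩ ci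
    · refine ⟨a, dc.ha, rfl, ?_⟩
      rw [show h * d * h⁻¹ * a * (h * d * h⁻¹)⁻¹ = a⁻¹ from h1]
      calc a⁻¹ = a ^ 4 * a⁻¹ := by rw [a4, one_mul]
        _ = a * a ^ 2 := by group
  obtain ⟨r, rr, r2, hr⟩ := key
  have rP : P2 r := ⟨2, by
    calc r ^ 2 ^ 2 = (r ^ 2) ^ 2 := by rw [← pow_mul]; norm_num
      _ = 1 := by rw [r2, ← pow_mul]; exact a4⟩
  have rC : r ∈ Ct L (h * d * h⁻¹) := by
    rw [mem_Ct]
    have : r * (h * d * h⁻¹) * r⁻¹ * (h * d * h⁻¹)⁻¹ = r * (a ^ 2)⁻¹ * r⁻¹ := by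
      calc r * (h * d * h⁻¹) * r⁻¹ * (h * d * h⁻¹)⁻¹
          = r * (h * d * h⁻¹ * r * (h * d * h⁻¹)⁻¹)⁻¹ := by group
        _ = r * (a ^ 2)⁻¹ * r⁻¹ := by rw [hr]; group
    rw [this]
    exact (zcNormal L).conj_mem _ (inv_mem zZ) r
  obtain ⟨g, gL, gQ, gZ⟩ := dsw G L Q d h r dc.syl dL Qct hL rr.1 rP rC
  refine da G L Q a b dc _ gQ (rr.conj gL) ?_ d dQ hda hdb ?_
  · rw [conj_pow, r2, conj_eq_of_commute (zc g gL)]
  · have wL : d * (g * r * g⁻¹) * d⁻¹ ∈ L := mul_mem (mul_mem dL (QL gQ)) (inv_mem dL)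
    have c1 := ((mem_Zc.1 gZ).2 _ wL).symm
    calc d * (g * r * g⁻¹) * d⁻¹
        = (g * (h * d * h⁻¹) * g⁻¹ * d⁻¹) * (d * (g * r * g⁻¹) * d⁻¹) *
            (g * (h * d * h⁻¹) * g⁻¹ * d⁻¹)⁻¹ := (conj_eq_of_commute c1).symm
      _ = g * (h * d * h⁻¹ * r * (h * d * h⁻¹)⁻¹) * g⁻¹ := by group
      _ = g * r * g⁻¹ * (g * a ^ 2 * g⁻¹) := by rw [hr]; group
      _ = g * r * g⁻¹ * a ^ 2 := by rw [conj_eq_of_commute (zc g gL)]

end H74.RcDD
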