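/- Ree's inequality for the numbers of cycles of `x`, `y`, `x y`. -/
import Cfsg.Agent.Base

set_option autoImplicit false

namespace H74.Ree

open Module Equiv

variable {Ω : Type*}

/-- `f ↦ f ∘ x - f` -/
def D (x : Perm Ω) : (Ω → ℚ) →ₗ[ℚ] (Ω → ℚ) := LinearMap.funLeft ℚ ℚ x - LinearMap.id

theorem D_apply (x : Perm Ω) (f : Ω → ℚ) (p : Ω) : D x f p = f (x p) - f p := rfl

theorem mem_ker_D {x : Perm Ω} {f : Ω → ℚ} : f ∈ LinearMap.ker (D x) ↔ ∀ p, f (x p) = f p := by
  simp only [LinearMap.mem_ker, funext_iff, D_apply, Pi.zero_apply, sub_eq_zero]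

/-- the number of cycles, fixed points included -/
noncomputable def cyc (x : Perm Ω) : ℕ := finrank ℚ (LinearMap.ker (D x))

variable [Fintype Ω] [DecidableEq Ω]

theorem ree (x y : Perm Ω) (B : Finset Ω)
    (hB : ∀ p, ∃ g ∈ Subgroup.closure {x, y}, ∃ b ∈ B, g b = p) :
    cyc x + cyc y + cyc (x * y) ≤ Fintype.card Ω + 2 * B.card := by
  have rn : ∀ t : Perm Ω, finrank ℚ (LinearMap.range (D t)) + cyc t = Fintype.card Ω := fun t => by
    rw [cyc, LinearMap.finrank_range_add_finrank_ker, finrank_fintype_fun_eq_card]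
  have h3 := Submodule.finrank_sup_add_finrank_inf_eq (LinearMap.range (D x)) (LinearMap.range (D y))
  have h1 : Fintype.card Ω ≤
      finrank ℚ ↥(LinearMap.range (D x) ⊔ LinearMap.range (D y)) + B.card := by
    generalize hU : LinearMap.range (D x) ⊔ LinearMap.range (D y) = U
    have k0 : ∀ t : Perm Ω, LinearMap.range (D t) ≤ U → ∀ p,
        (Pi.single (t p) 1 - Pi.single p 1 : Ω → ℚ) ∈ U := fun t ht p => by
      rw [← neg_mem_iff, neg_sub]
      refine ht ⟨Pi.single (t p) 1, funext fun q => ?_⟩
      simp [D_apply, Pi.single_apply]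
    have k : ∀ g ∈ Subgroup.closure {x, y}, ∀ p,
        (Pi.single (g p) 1 - Pi.single p 1 : Ω → ℚ) ∈ U := by
      intro g hg
      induction hg using Subgroup.closure_induction with
      | mem t ht =>
        rcases ht with rfl | rfl
        exacts [k0 _ (hU ▸ le_sup_left), k0 _ (hU ▸ le_sup_right)]
      | one => simp
      | mul a b _ _ ha hb => exact fun p => by simpa using U.add_mem (ha (b p)) (hb p)
      | inv a _ ha => exact fun p => by simpa using U.neg_mem (ha (a⁻¹ p))
    have top : U ⊔ Submodule.span ℚ ↑(B.image fun b => (Pi.single b 1 : Ω → ℚ)) = ⊤ := by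
      rw [eq_top_iff, ← (Pi.basisFun ℚ Ω).span_eq, Submodule.span_le]
      rintro _ ⟨p, rfl⟩
      obtain ⟨g, hg, b, hb, rfl⟩ := hB p
      rw [Pi.basisFun_apply, ← sub_add_cancel (Pi.single (g b) 1 : Ω → ℚ) (Pi.single b 1)]
      exact Submodule.add_mem_sup (k g hg b)
        (Submodule.subset_span (Finset.mem_coe.2 (Finset.mem_image_of_mem _ hb)))
    have := Submodule.finrank_add_le_finrank_add_finrank U
      (Submodule.span ℚ ↑(B.image fun b => (Pi.single b 1 : Ω → ℚ)))
    rw [top, finrank_top, finrank_fintype_fun_eq_card] at this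
    have h2 := (finrank_span_finset_le_card (R := ℚ)
      (B.image fun b => (Pi.single b 1 : Ω → ℚ))).trans Finset.card_image_le
    exact this.trans (Nat.add_le_add_left h2 _)
  have h2 : cyc (x * y) ≤ finrank ℚ ↥(LinearMap.range (D x) ⊓ LinearMap.range (D y)) + B.card := by
    let φ : LinearMap.ker (D (x * y)) →ₗ[ℚ] ↥(LinearMap.range (D x) ⊓ LinearMap.range (D y)) :=
      ((D x).domRestrict _).codRestrict _ fun f => ⟨⟨f, rfl⟩, ⟨-fun p => f.1 (x p), funext fun p => by
        have := mem_ker_D.1 f.2 p
        simp only [Perm.mul_apply] at this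
        simp only [D_apply, Pi.neg_apply, this, LinearMap.domRestrict_apply]
        ring⟩⟩
    let ψ : LinearMap.ker (D (x * y)) →ₗ[ℚ] (B → ℚ) :=
      (LinearMap.funLeft ℚ ℚ (Subtype.val : B → Ω)).domRestrict _
    have := LinearMap.finrank_le_finrank_of_injective (f := φ.prod ψ) (by
      rw [injective_iff_map_eq_zero]
      intro f hf
      have e1 : ∀ p, f.1 (x p) = f.1 p :=
        mem_ker_D.1 (congrArg Subtype.val (congrArg Prod.fst hf))
      have e2 : ∀ p, f.1 (y p) = f.1 p := fun p => (e1 _).symm.trans (mem_ker_D.1 f.2 p)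
      have e3 : ∀ g ∈ Subgroup.closure {x, y}, ∀ p, f.1 (g p) = f.1 p := by
        intro g hg
        induction hg using Subgroup.closure_induction with
        | mem t ht =>
          rcases ht with rfl | rfl
          exacts [e1, e2]
        | one => simp
        | mul a b _ _ ha hb => exact fun p => (ha _).trans (hb p)
        | inv a _ ha => exact fun p => by simpa using (ha (a⁻¹ p)).symm
      refine Subtype.ext (funext fun p => ?_)
      obtain ⟨g, hg, b, hb, rfl⟩ := hB p
      exact (e3 g hg b).trans (congrFun (congrArg Prod.snd hf) ⟨b, hb⟩))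
    rwa [finrank_prod, finrank_fintype_fun_eq_card, Fintype.card_coe] at this
  have := rn x
  have := rn y
  omega

theorem cyc_bound (x : Perm Ω) :
    Fintype.card Ω + (orderOf x - 1) * (Finset.univ.filter fun p => x p = p).card ≤
      orderOf x * cyc x := by
  classical
  let Z := Subgroup.zpowers x
  have b := MulAction.sum_card_fixedBy_eq_card_orbits_mul_card_group Z Ω
  have c : Fintype.card (MulAction.orbitRel.Quotient Z Ω) ≤ cyc x := by
    rw [← finrank_fintype_fun_eq_card ℚ]
    refine LinearMap.finrank_le_finrank_of_injective (f := (LinearMap.funLeft ℚ ℚ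
      (Quotient.mk (MulAction.orbitRel Z Ω))).codRestrict _ fun f => mem_ker_D.2 fun p => ?_) ?_
    · exact congrArg f (Quotient.sound ⟨⟨x, Subgroup.mem_zpowers x⟩, rfl⟩)
    · exact fun f g e => LinearMap.funLeft_injective_of_surjective ℚ ℚ _ Quotient.mk_surjective
        (congrArg Subtype.val e)
  have cZ : Fintype.card Z = orderOf x := Fintype.card_zpowers
  rw [← Finset.add_sum_erase _ _ (Finset.mem_univ 1), cZ] at b
  have l := Finset.card_nsmul_le_sum (Finset.univ.erase (1 : Z))
    (fun g => Fintype.card (MulAction.fixedBy Ω g)) (Finset.univ.filter fun p => x p = p).card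
    fun g _ => by
      rw [← Fintype.card_coe]
      refine Fintype.card_le_of_injective (fun p => ⟨p.1, ?_⟩) fun p q e =>
        Subtype.ext (Subtype.mk.inj e)
      exact (Subgroup.zpowers_le_of_mem (H := MulAction.stabilizer (Perm Ω) p.1)
        (Finset.mem_filter.1 p.2).2) g.2
  rw [Finset.card_erase_of_mem (Finset.mem_univ _), Finset.card_univ, cZ, smul_eq_mul] at l
  have o : Fintype.card (MulAction.fixedBy Ω (1 : Z)) = Fintype.card Ω := by simp
  rw [mul_comm (orderOf x)]
  exact ((Nat.add_le_add o.ge l).trans b.le).trans (Nat.mul_le_mul_right _ c)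

end H74.Ree
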