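/- The anticommutation relations of the neutral fermions. -/
import Cfsg.Agent.H2.SpSpec

set_option autoImplicit false

namespace H74.Sp
open Cfsg MvPolynomial H2.Sp

/-- the structure constants -/
def dl (a b : ℤ) : ℚ := if a + b = 0 then 2 * (-1) ^ a.natAbs else 0

theorem sgn_eq (a : ℤ) : (-1 : ℚ) ^ a.natAbs = if Even a then 1 else -1 := by
  simp [neg_one_pow_eq_ite, Int.natAbs_even]

theorem dl_add (a b r : ℤ) (hr : Odd r) : dl (a + r) b + dl a (b + r) = 0 := by
  unfold dl
  rw [show a + r + b = a + (b + r) by ring]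
  split_ifs
  · rw [sgn_eq, sgn_eq]
    by_cases h : Even a
    · rw [if_pos h, if_neg (by rw [Int.not_even_iff_odd]; exact h.add_odd hr)]; ring
    · rw [if_neg h, if_pos ((Int.not_even_iff_odd.1 h).add_odd hr)]; ring
  · simp

theorem val_add (f g : Γ) (ρ : Multiset ℕ) : val (f + g) ρ = val f ρ + val g ρ := by
  simp [val, mul_add]

theorem cc_φ (K : Kit) (a : ℤ) (f : Γ) :
    constantCoeff (φ a f) = if a ≤ 0 then constantCoeff ((S f).coeff a.natAbs) else 0 := by
  rw [φ_apply, Polynomial.sum_def, map_sum]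
  simp only [map_mul, K.cc_qz, ite_mul, one_mul, zero_mul]
  split_ifs with h
  · rw [Finset.sum_eq_single a.natAbs (fun j _ hj => if_neg (by omega))
      (fun hj => by rw [Polynomial.notMem_support_iff.1 hj]; simp), if_pos (by omega)]
  · exact Finset.sum_eq_zero fun j _ => if_neg (by omega)

theorem cc_φ_qz (K : Kit) (a b : ℤ) : constantCoeff (φ a (qz b)) =
    if a + b = 0 ∧ 0 ≤ b then (if b = 0 then 1 else 2 * (-1) ^ b.natAbs) else 0 := by
  by_cases hb : 0 ≤ b
  · obtain ⟨n, rfl⟩ := Int.eq_ofNat_of_zero_le hb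
    have e : ∀ n : ℕ, q n = qz n := fun n => by simp [qz]
    rw [cc_φ K, ← e, K.S_q, e]
    by_cases h1 : a ≤ 0
    · rw [if_pos h1]
      by_cases h2 : a.natAbs = 0
      · rw [if_pos h2, K.cc_qz]
        obtain rfl : a = 0 := by omega
        by_cases h3 : n = 0 <;> simp [h3]
      · rw [if_neg h2, map_zsmul, K.cc_qz]
        by_cases h3 : a + n = 0
        · rw [if_pos (by omega), if_pos ⟨h3, hb⟩, if_neg (by omega), show a.natAbs = (n : ℤ).natAbs by omega]
          simp
        · rw [if_neg (by omega), if_neg fun h => h3 h.1, smul_zero]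
    · rw [if_neg h1, if_neg (by omega)]
  · rw [if_neg fun h => hb h.2, qz, if_neg hb, map_zero, map_zero]

theorem car_one (K : Kit) (a b : ℤ) : φ a (qz b) + φ b (qz a) - dl a b • (1 : Γ) = 0 := by
  refine K.ext _ fun ρ h => ?_
  clear h
  induction ρ using Multiset.induction_on generalizing a b with
  | empty =>
    rw [K.val_zero, map_sub, map_add, cc_φ_qz K, cc_φ_qz K, constantCoeff_smul, map_one, smul_eq_mul, mul_one, dl]
    by_cases h : a + b = 0
    · obtain rfl : a = -b := by omega
      rcases lt_trichotomy b 0 with k | rfl | k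
      · rw [if_neg (by omega), if_pos (by omega), if_neg (by omega), if_pos h]; ring
      · norm_num
      · rw [if_pos (by omega), if_neg (by omega), if_neg (by omega), if_pos h, Int.natAbs_neg]; ring
    · rw [if_neg fun k => h k.1, if_neg (by omega), if_neg h]; ring
  | cons r ρ ih =>
    rw [K.val_cons, ← add_zero (0 : ℚ)]
    generalize r / 2 = k
    nth_rewrite 1 [← ih (a - (2 * k + 1)) b]
    rw [← ih a (b - (2 * k + 1)), ← val_add]
    congr 1
    have := dl_add a b (-(2 * k + 1)) (Odd.neg ⟨k, rfl⟩)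
    rw [← sub_eq_add_neg, ← sub_eq_add_neg] at this
    rw [map_sub, map_add, K.d_φ, K.d_φ, K.d_qz, K.d_qz, Derivation.map_smul, Derivation.map_one_eq_zero,
      smul_zero, eq_neg_of_add_eq_zero_left this, neg_smul]
    abel

theorem car (K : Kit) (f : Γ) : ∀ a b, φ a (φ b f) + φ b (φ a f) = dl a b • f := by
  induction f using MvPolynomial.induction_on with
  | C c =>
    intro a b
    rw [C_eq_smul_one]
    simp only [map_smul, K.φ_one]
    rw [← smul_add, sub_eq_zero.1 (car_one K a b), smul_comm]
  | add f g hf hg =>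
    intro a b
    simp only [map_add, smul_add, ← hf, ← hg]
    abel
  | mul_X f k ih =>
    intro a b
    have := dl_add a b (2 * k + 1) ⟨k, rfl⟩
    have e := congrArg₂ (· + ·) (ih (a + (2 * k + 1)) b) (ih a (b + (2 * k + 1)))
    simp only [← add_smul, this, zero_smul] at e
    rw [mul_comm f, ← mul_smul_comm, ← ih, mul_add]
    simp only [K.φ_X, map_sub, map_smul]
    rw [← sub_eq_zero, ← smul_zero (-(2 / (2 * (k : ℚ) + 1))), ← e]
    simp only [smul_add, neg_smul]
    abel

theorem jobCAR : Kit → CAR := fun K a b f => by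
  rw [car K, dl]; split_ifs <;> simp

theorem jobCom : Kit → CAR → Com := fun K h => by
  have sw : ∀ a b f, a + b ≠ 0 → φ a (φ b f) = -φ b (φ a f) := fun a b f k =>
    eq_neg_of_add_eq_zero_left ((h a b f).trans (if_neg k))
  have hd : ∀ {a l}, Pos (a :: l) → 0 < a := fun k => k _ List.mem_cons_self
  have tl : ∀ {a l}, Pos (a :: l) → Pos l := fun k b hb => k b (List.mem_cons_of_mem _ hb)
  have mem : ∀ a l, 0 < a → Pos l → a ∈ l → φ a (Q l) = 0 := fun a l ha hl hm => by
    induction l with
    | nil => simp at hm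
    | cons b l ih =>
      rw [Q_cons]
      rcases List.mem_cons.1 hm with rfl | k
      · have := h a a (Q l)
        rw [if_neg (by omega), ← two_smul ℚ] at this
        exact (smul_eq_zero.1 this).resolve_left two_ne_zero
      · rw [sw _ _ _ (by have := hd hl; omega), ih (tl hl) k, map_zero, neg_zero]
  have neg : ∀ a l, 0 < a → Pos l → a ∉ l → φ (-a) (Q l) = 0 := fun a l ha hl hm => by
    induction l with
    | nil => rw [Q_nil, K.φ_one, qz, if_neg (by omega)]
    | cons b l ih =>
      rw [List.mem_cons, not_or] at hm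
      rw [Q_cons, sw _ _ _ (by have := hm.1; omega), ih (tl hl) hm.2, map_zero, neg_zero]
  refine ⟨fun a b l k => sw a b _ k, fun l hl => ?_, mem, neg, fun a l ha hl hm => ?_, fun l l' hl e => ?_,
    fun l hl e => ?_⟩
  · induction l with
    | nil => simp [Q_nil, K.φ_one, qz, q_zero]
    | cons b l ih =>
      rw [Q_cons, sw _ _ _ (by have := hd hl; omega), ih (tl hl), map_smul, List.length_cons, pow_succ,
        mul_neg_one, neg_smul]
  · have := h (-a) a (Q l)
    rwa [neg a l ha hl hm, map_zero, add_zero, if_pos (neg_add_cancel a), Int.natAbs_neg] at this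
  · induction e with
    | nil => exact ⟨1, one_mul _, (one_smul _ _).symm⟩
    | cons a _ ih =>
      obtain ⟨ε, a, b⟩ := ih (tl hl)
      exact ⟨ε, a, by rw [Q_cons, Q_cons, b, map_smul]⟩
    | swap a b l =>
      exact ⟨-1, by norm_num, by
        rw [neg_one_smul]; exact sw _ _ _ (by have := hd hl; have := hd (tl hl); omega)⟩
    | trans e _ i1 i2 =>
      obtain ⟨ε, a, b⟩ := i1 hl
      obtain ⟨ε', a', b'⟩ := i2 fun x hx => hl x (e.mem_iff.2 hx)
      exact ⟨ε' * ε, by rw [mul_mul_mul_comm, a, a', one_mul], by rw [b', b, smul_smul]⟩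
  · induction l with
    | nil => simp at e
    | cons a l ih =>
      rw [List.nodup_cons, not_and_or, not_not] at e
      rw [Q_cons]
      rcases e with e | e
      · exact mem a l (hd hl) (tl hl) e
      · rw [ih (tl hl) e, map_zero]

end H74.Sp
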