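/- VC tower (row S4070): odd order completely reducible groups on small modules; the order bound. -/
import Cfsg.Agent.H91.VCSpec

set_option autoImplicit false
set_option linter.unusedSectionVars false

namespace H74.VC

open H33.Solv H91.VC Subgroup MulAction

section
variable {Y W : Type} [Group Y] [Finite Y] [AddCommGroup W] [Finite W] [DistribMulAction Y W] [FaithfulSMul Y W]

theorem gl_dvd {r : ℕ} (hr : r.Prime) (h : ∀ w : W, r • w = 0) :
    ∃ m, Nat.card W = r ^ m ∧ Nat.card Y ∣ ∏ i : Fin m, (r ^ m - r ^ (i : ℕ)) := by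
  have := Fact.mk hr
  obtain ⟨m, ⟨e⟩⟩ := exists_equiv_pi hr h
  refine ⟨m, by rw [Nat.card_congr e.toEquiv, Nat.card_fun, Nat.card_zmod, Nat.card_fin], ?_⟩
  let f : Y →* Module.End (ZMod r) (Fin m → ZMod r) :=
    { toFun := fun g => (e.toAddMonoidHom.comp ((DistribSMul.toAddMonoidHom W g).comp
        e.symm.toAddMonoidHom)).toZModLinearMap r
      map_one' := LinearMap.ext fun w => by simp
      map_mul' := fun a b => LinearMap.ext fun w => by simp [mul_smul] }
  have := card_dvd_of_injective f.toHomUnits fun a b h => eq_of_smul_eq_smul (α := W) fun w => by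
    simpa [f] using LinearMap.congr_fun (congrArg Units.val h) (e w)
  rwa [← Nat.card_congr Matrix.GeneralLinearGroup.toLin.toEquiv, Matrix.card_GL_field, ZMod.card] at this

/-- if no proper divisor of the order is `1` modulo `r`, the order is prime to `r` -/
theorem not_dvd {r : ℕ} (hr : r.Prime) (h : ∀ w : W, r • w = 0) (hc : CR Y W)
    (k : ∀ d, d ∣ Nat.card Y → d ≡ 1 [MOD r] → d = 1) : (Nat.card Y).Coprime r := by
  have := Fact.mk hr
  obtain ⟨P⟩ := (Sylow.nonempty : Nonempty (Sylow r Y))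
  have h1 := k _ (P.card_dvd_index.trans (index_dvd_card _)) (card_sylow_modEq_one r Y)
  have : Subsingleton (Sylow r Y) := (Nat.card_eq_one_iff_unique.1 h1).1
  have hb : (P : Subgroup Y) = ⊥ := Triv.eq_bot (Ω := W) (hc.normal_p hr h P.normal_of_subsingleton P.2)
  have := P.not_dvd_index
  rw [hb, index_bot] at this
  exact ((Nat.Prime.coprime_iff_not_dvd hr).2 this).symm

end

theorem pw {r m p k : ℕ} (hr : r.Prime) (hp : p.Prime) (hk : k ≠ 0) (e : p ^ k = r ^ m) : r = p ∧ m = k := by
  have h1 : p = r := (Nat.prime_dvd_prime_iff_eq hp hr).1 (hp.dvd_of_dvd_pow (e ▸ dvd_pow_self p hk))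
  subst h1
  exact ⟨rfl, (Nat.pow_right_injective hp.two_le e).symm⟩

theorem xs : XS := by
  intro Y W _ _ _ _ _ _ _ ho hc r hr h
  obtain ⟨m, e, hd⟩ := gl_dvd (Y := Y) hr h
  have c2 : ∀ j, (Nat.card Y).Coprime (2 ^ j) := fun j => (Nat.coprime_two_right.2 ho).pow_right j
  refine ⟨fun k => ?_, fun k => ?_, fun k => ?_, fun k n => ?_⟩
  · obtain ⟨rfl, rfl⟩ := pw (k := 2) hr Nat.prime_three two_ne_zero (k.symm.trans e)
    have d1 : Nat.card Y ∣ 3 := (c2 4).dvd_of_dvd_mul_left (by simpa [Fin.prod_univ_succ] using hd)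
    have c := not_dvd hr h hc fun d h1 h2 => by
      have := Nat.le_of_dvd (by decide) (h1.trans d1)
      interval_cases d <;> first | rfl | exact absurd h2 (by decide)
    exact Nat.le_of_dvd one_pos (c.dvd_of_dvd_mul_left d1)
  · obtain ⟨rfl, rfl⟩ := pw (k := 2) hr Nat.prime_five two_ne_zero (k.symm.trans e)
    have d1 : Nat.card Y ∣ 5 * 3 := (c2 5).dvd_of_dvd_mul_left (by simpa [Fin.prod_univ_succ] using hd)
    have c := not_dvd hr h hc fun d h1 h2 => by
      have h3 := h1.trans d1
      have := Nat.le_of_dvd (by decide) h3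
      interval_cases d <;> first | rfl | exact absurd h2 (by decide) | exact absurd h3 (by decide)
    exact Nat.le_of_dvd (by decide) (c.dvd_of_dvd_mul_left d1)
  · obtain ⟨rfl, rfl⟩ := pw (k := 2) hr Nat.prime_seven two_ne_zero (k.symm.trans e)
    have d1 : Nat.card Y ∣ 7 * 9 := (c2 5).dvd_of_dvd_mul_left (by simpa [Fin.prod_univ_succ] using hd)
    have c := not_dvd hr h hc fun d h1 h2 => by
      have h3 := h1.trans d1
      have := Nat.le_of_dvd (by decide) h3
      interval_cases d <;> first | rfl | exact absurd h2 (by decide) | exact absurd h3 (by decide)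
    exact Nat.le_of_dvd (by decide) (c.dvd_of_dvd_mul_left d1)
  · obtain ⟨rfl, rfl⟩ := pw (k := 4) hr Nat.prime_three (by decide) (k.symm.trans e)
    have c13 : (Nat.card Y).Coprime 13 := ((Nat.Prime.coprime_iff_not_dvd (by norm_num)).2 n).symm
    have d1 : Nat.card Y ∣ 3 ^ 6 * 5 := c13.dvd_of_dvd_mul_left
      ((c2 9).dvd_of_dvd_mul_left (by simpa [Fin.prod_univ_succ] using hd))
    have c := not_dvd hr h hc fun d h1 h2 => by
      have c3 : d.Coprime 3 := by rw [Nat.Coprime, h2.gcd_eq]; decide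
      have h3 := (c3.pow_right 6).dvd_of_dvd_mul_left (h1.trans d1)
      have := Nat.le_of_dvd (by decide) h3
      interval_cases d <;> first | rfl | exact absurd h2 (by decide) | exact absurd h3 (by decide)
    exact Nat.le_of_dvd (by decide) ((c.pow_right 6).dvd_of_dvd_mul_left d1)

theorem jobORB : JobORB := by
  intro hX h13 K G V W _ _ _ _ _ _ _ _ _ _ _ _ _ s N π c ho
  let ρ := (DistribMulAction.toAddMonoidEnd G W).toHomUnits
  have := finite_end W
  have hρ : ∀ (g : G) (w : W), ρ.rangeRestrict g • w = g • w := fun _ _ => rfl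
  have hf : FaithfulSMul ρ.range W := ⟨fun {a b} e => Subtype.ext (Units.ext (AddMonoidHom.ext e))⟩
  have hk : ∀ g, g ∈ ρ.ker ↔ ∀ w : W, g • w = w := fun g =>
    ⟨fun e w => DFunLike.congr_fun (congrArg Units.val e) w, fun e => Units.ext (AddMonoidHom.ext e)⟩
  have hs : Group.IsSolvable ρ.range :=
    have := c.sol
    Group.isSolvable_of_surjective ρ.rangeRestrict_surjective
  have hc : CR ρ.range W := fun U hU =>
    let ⟨W', hW, e⟩ := c.cr U fun g => hU (ρ.rangeRestrict g)
    ⟨W', by rintro ⟨_, g, rfl⟩; exact hW g, e⟩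
  have hy : Odd (Nat.card ρ.range) := ho.of_dvd_nat (by
    rw [← index_ker]
    exact index_dvd_of_le fun z hz => (hk z).2 (c.triv (c.ns.le hz)))
  have h1 : N.relIndex (centralizer (s.ι.range : Set G)) ≤ Nat.card ρ.range := by
    refine (relIndex_le_of_le_left (H := ρ.ker ⊓ centralizer (s.ι.range : Set G))
      (fun g hg => c.ker hg.2 ((hk g).1 hg.1)) FiniteIndex.index_ne_zero).trans ?_
    rw [inf_relIndex_right, ← index_ker]
    exact Nat.le_of_dvd (Nat.pos_of_ne_zero FiniteIndex.index_ne_zero) (relIndex_dvd_index_of_normal _ _)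
  have h2 : s.ι.range.relIndex (centralizer (s.ι.range : Set G)) ≤ Nat.card W * Nat.card ρ.range := by
    rw [← relIndex_mul_relIndex _ _ _ c.ns.le c.le_C, ← c.sec.card]
    exact Nat.mul_le_mul_left _ h1
  have x := hX ρ.range W hs hf hy hc
  refine ⟨h2.trans ?_, fun e => ?_, fun e => ?_, fun e => ?_, fun e => ?_⟩
  · rw [pow_succ']
    exact Nat.mul_le_mul_left _ (card_le_of_base (base_odd hs hy hc))
  · have := (x 3 Nat.prime_three (c.elem (k := 2) e two_ne_zero)).1 e
    rw [e] at h2; omega
  · have := (x 5 Nat.prime_five (c.elem (k := 2) e two_ne_zero)).2.1 e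
    rw [e] at h2; omega
  · have := (x 7 Nat.prime_seven (c.elem (k := 2) e two_ne_zero)).2.2.1 e
    rw [e] at h2; omega
  · have := (x 3 Nat.prime_three (c.elem (k := 4) e (by decide))).2.2.2 e fun d => by
      have : Fact (Nat.Prime 13) := ⟨by norm_num⟩
      obtain ⟨y, hy⟩ := exists_prime_orderOf_dvd_card' 13 d
      obtain ⟨g, rfl⟩ := ρ.rangeRestrict_surjective y
      have t := h13 K G V W s N π c ho e g fun w => by
        rw [← hρ, map_pow, ← hy, pow_orderOf_eq_one, one_smul]
      rw [show ρ.rangeRestrict g = 1 from Subtype.ext ((hk g).2 t), orderOf_one] at hy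
      omega
    rw [e] at h2; omega

end H74.VC
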